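import Mathlib
import Cfsg.Prelude.Def_CaseTheorems
import Cfsg.Prelude.Def_Involutions

/-!
# Actions in which non-identity elements fix at most four points (S3365): basic facts
-/

set_option autoImplicit false
set_option linter.unusedSectionVars false

namespace Cfsg.Agent.Fix4

open MulAction
open scoped Pointwise

/-- Every non-identity element fixes at most four points. -/
def FixAtMostFour (G Ω : Type*) [Group G] [MulAction G Ω] : Prop :=
  ∀ g : G, g ≠ 1 → Nat.card (fixedBy Ω g) ≤ 4

variable {G Ω : Type*} [Group G] [MulAction G Ω] [Finite Ω]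

/-- An element fixing five or more points is trivial. -/
theorem eq_one_of_fix (hfix : FixAtMostFour G Ω) {g : G} (s : Set Ω) (hs : 4 < s.ncard)
    (h : ∀ x ∈ s, g • x = x) : g = 1 := by
  by_contra hg
  have h1 : s.ncard ≤ (fixedBy Ω g).ncard := Set.ncard_le_ncard h (Set.toFinite _)
  have h2 := hfix g hg
  rw [Nat.card_coe_set_eq] at h2
  omega

/-- An element fixing a four-element set pointwise has exactly this fixed point set. -/
theorem fixedBy_eq (hfix : FixAtMostFour G Ω) {g : G} (hg : g ≠ 1) {D : Set Ω} (hD : D.ncard = 4)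
    (h : g ∈ fixingSubgroup G D) : fixedBy Ω g = D := by
  have hsub : D ⊆ fixedBy Ω g := fun x hx => (mem_fixingSubgroup_iff G).mp h x hx
  refine (Set.eq_of_subset_of_ncard_le hsub ?_ (Set.toFinite _)).symm
  have h2 := hfix g hg
  rw [Nat.card_coe_set_eq] at h2
  omega

/-- Two four-element sets fixed pointwise by the same non-identity element coincide. -/
theorem eq_of_fixing (hfix : FixAtMostFour G Ω) {g : G} (hg : g ≠ 1) {D D' : Set Ω}
    (hD : D.ncard = 4) (hD' : D'.ncard = 4) (h : g ∈ fixingSubgroup G D)
    (h' : g ∈ fixingSubgroup G D') : D = D' :=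
  (fixedBy_eq hfix hg hD h).symm.trans (fixedBy_eq hfix hg hD' h')

/-- Conjugation moves fixed point sets. -/
theorem fixedBy_conj (g h : G) : fixedBy Ω (h * g * h⁻¹) = h • fixedBy Ω g := by
  ext x
  rw [Set.mem_smul_set_iff_inv_smul_mem, mem_fixedBy, mem_fixedBy, mul_smul, mul_smul,
    smul_eq_iff_eq_inv_smul]

/-- The hypothesis restricts to subgroups. -/
theorem FixAtMostFour.restrict (hfix : FixAtMostFour G Ω) (H : Subgroup G) :
    FixAtMostFour H Ω := fun h hh => hfix (h : G) fun e => hh (Subtype.ext e)

end Cfsg.Agent.Fix4
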