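import Cfsg.Agent.Fix4.Basic

/-!
# The coset count: centralisers of free involutions stabilise the four-set (S3365)
-/

set_option autoImplicit false

namespace Cfsg.Agent.Fix4

open MulAction
open scoped Pointwise

variable {G Ω : Type*} [Group G] [MulAction G Ω] [Finite Ω]

/-- In a four-set with a free involution `t`, two orbit pairs exhaust the set. -/
private theorem count_pair {t : G} (ht : t * t = 1) {S : Set Ω} (hS : S.ncard = 4)
    (htS : ∀ x ∈ S, t • x ∈ S) (hfree : ∀ x ∈ S, t • x ≠ x)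
    {x u w : Ω} (hx : x ∈ S) (hu : u ∈ S) (hw : w ∈ S)
    (hux : u ≠ x) (hutx : u ≠ t • x) (hwu : w ≠ u) (hwtu : w ≠ t • u) :
    w = x ∨ w = t • x := by
  by_contra hc
  push Not at hc
  obtain ⟨hwx, hwtx⟩ := hc
  have htt : ∀ z : Ω, t • t • z = z := fun z => by rw [← mul_smul, ht, one_smul]
  have h1 : x ≠ t • x := (hfree x hx).symm
  have h2 : u ≠ t • u := (hfree u hu).symm
  have h3 : x ≠ u := hux.symm
  have h4 : x ≠ t • u := fun h => hutx (by rw [h, htt])
  have h5 : t • x ≠ u := hutx.symm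
  have h6 : t • x ≠ t • u := fun h => h3 (MulAction.injective t h)
  have hcard : ({x, t • x, u, t • u} : Set Ω).ncard = 4 := by
    rw [Set.ncard_insert_of_notMem (by simp [h1, h3, h4]),
      Set.ncard_insert_of_notMem (by simp [h5, h6]), Set.ncard_pair h2]
  have hsub : ({x, t • x, u, t • u} : Set Ω) ⊆ S := by
    intro z hz
    simp only [Set.mem_insert_iff, Set.mem_singleton_iff] at hz
    rcases hz with rfl | rfl | rfl | rfl
    · exact hx
    · exact htS _ hx
    · exact hu
    · exact htS _ hu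
  have heq := Set.eq_of_subset_of_ncard_le hsub (by omega) (Set.toFinite _)
  rw [← heq] at hw
  simp only [Set.mem_insert_iff, Set.mem_singleton_iff] at hw
  tauto

/-- The fourth power of an element commuting with the free involution fixes the four-set. -/
private theorem count_pow_four {t d : G} (ht : t * t = 1) (hdt : d * t = t * d) {S : Set Ω}
    (hS : S.ncard = 4) (htS : ∀ x ∈ S, t • x ∈ S) (hfree : ∀ x ∈ S, t • x ≠ x)
    (hdS : ∀ x ∈ S, d • x ∈ S) {x : Ω} (hx : x ∈ S) : (d * d * (d * d)) • x = x := by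
  have hc : ∀ z : Ω, d • t • z = t • d • z := fun z => by rw [← mul_smul, hdt, mul_smul]
  have htt : ∀ z : Ω, t • t • z = z := fun z => by rw [← mul_smul, ht, one_smul]
  have key : d • d • x = x ∨ d • d • x = t • x := by
    by_cases h1 : d • x = x
    · left; rw [h1, h1]
    by_cases h2 : d • x = t • x
    · left; rw [h2, hc, h2, htt]
    refine count_pair ht hS htS hfree hx (hdS x hx) (hdS _ (hdS x hx)) h1 h2 ?_ ?_
    · exact fun h => h1 (MulAction.injective d h)
    · rw [← hc]; exact fun h => h2 (MulAction.injective d h)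
  simp only [mul_smul]
  rcases key with h | h
  · rw [h, h]
  · rw [h, hc, hc, h, htt]

/-- An element commuting with the free involution, stabilising two of the four-sets and fixing
a point of the first, is trivial. -/
private theorem count_trivial (hfix : FixAtMostFour G Ω) {t d : G} (ht : t * t = 1)
    (hdt : d * t = t * d) {S T : Set Ω} (hS : S.ncard = 4) (hT : T.ncard = 4) (hne : S ≠ T)
    (htS : ∀ x ∈ S, t • x ∈ S) (htT : ∀ x ∈ T, t • x ∈ T)
    (hfS : ∀ x ∈ S, t • x ≠ x) (hfT : ∀ x ∈ T, t • x ≠ x)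
    (hnS : ∀ x : G, x • S = S → orderOf x = 2 → ∀ a : Ω, x • a = a → x ∈ fixingSubgroup G S)
    (hnT : ∀ x : G, x • T = T → orderOf x = 2 → ∀ a : Ω, x • a = a → x ∈ fixingSubgroup G T)
    (hdS : d • S = S) (hdT : d • T = T) {a : Ω} (ha : a ∈ S) (hda : d • a = a) : d = 1 := by
  have mS : ∀ x ∈ S, d • x ∈ S := fun x hx => by
    have h := Set.smul_mem_smul_set (a := d) hx
    rwa [hdS] at h
  have mT : ∀ x ∈ T, d • x ∈ T := fun x hx => by
    have h := Set.smul_mem_smul_set (a := d) hx
    rwa [hdT] at h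
  have hc : ∀ z : Ω, d • t • z = t • d • z := fun z => by rw [← mul_smul, hdt, mul_smul]
  have htt : ∀ z : Ω, t • t • z = z := fun z => by rw [← mul_smul, ht, one_smul]
  have hda' : d • t • a = t • a := by rw [hc, hda]
  have hsq : ∀ b ∈ S, (d * d) • b = b := by
    intro b hb
    rw [mul_smul]
    by_cases h1 : b = a
    · rw [h1, hda, hda]
    by_cases h2 : b = t • a
    · rw [h2, hda', hda']
    have h3 : d • b ≠ a := fun h => h1 (MulAction.injective d (h.trans hda.symm))
    have h4 : d • b ≠ t • a := fun h => h2 (MulAction.injective d (h.trans hda'.symm))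
    have h5 : a ≠ t • b := fun h => h2 (by rw [h, htt])
    rcases count_pair ht hS htS hfS hb ha (mS b hb) (Ne.symm h1) h5 h3 h4 with h | h
    · rw [h, h]
    · rw [h, hc, h, htt]
  have hfour : d * d * (d * d) = 1 := by
    refine eq_one_of_fix hfix (S ∪ T) ?_ ?_
    · have hlt : S ⊂ S ∪ T := by
        refine ⟨Set.subset_union_left, fun h => hne ?_⟩
        exact (Set.eq_of_subset_of_ncard_le (Set.union_subset_iff.mp h).2 (by omega)
          (Set.toFinite _)).symm
      have := Set.ncard_lt_ncard hlt (Set.toFinite _)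
      omega
    · rintro x (hx | hx)
      · rw [mul_smul, hsq x hx, hsq x hx]
      · exact count_pow_four ht hdt hT htT hfT mT hx
  have hsq1 : d * d = 1 := by
    by_contra hd
    have ho : orderOf (d * d) = 2 := orderOf_eq_prime (by rw [pow_two]; exact hfour) hd
    have h1 : (d * d) ∈ fixingSubgroup G S := (mem_fixingSubgroup_iff G).mpr hsq
    have h2 := hnT (d * d) (by rw [mul_smul, hdT, hdT]) ho a (hsq a ha)
    exact hne (eq_of_fixing hfix hd hS hT h1 h2)
  by_contra hd
  have ho : orderOf d = 2 := orderOf_eq_prime (by rw [pow_two]; exact hsq1) hd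
  exact hne (eq_of_fixing hfix hd hS hT (hnS d hdS ho a hda) (hnT d hdT ho a hda))

/-- If `t` acts freely on the four-set `D`, every involution of its setwise stabiliser with a
fixed point fixes `D` pointwise, and at least three involutions of the pointwise stabiliser commute
with `t`, then the centraliser of `t` stabilises `D`. -/
theorem centralizer_le_stabilizer {G Ω : Type*} [Group G] [Finite G] [MulAction G Ω] [Finite Ω]
    (hfix : FixAtMostFour G Ω) (D : Set Ω) (hD : D.ncard = 4) (t : G) (ht : orderOf t = 2)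
    (htD : t • D = D) (htfree : ∀ a ∈ D, t • a ≠ a)
    (hno : ∀ x ∈ stabilizer G D, orderOf x = 2 → ∀ a : Ω, x • a = a → x ∈ fixingSubgroup G D)
    (hm : 3 ≤ Nat.card {x : G // orderOf x = 2 ∧ x ∈ fixingSubgroup G D ∧
      x ∈ Subgroup.centralizer ({t} : Set G)}) :
    Subgroup.centralizer ({t} : Set G) ≤ stabilizer G D := by
  classical
  let := Fintype.ofFinite G
  have ht2 : t * t = 1 := by
    have h := pow_orderOf_eq_one t
    rwa [ht, pow_two] at h
  have htt : ∀ z : Ω, t • t • z = z := fun z => by rw [← mul_smul, ht2, one_smul]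
  let A : Finset (Set Ω) :=
    (Finset.univ.filter fun g : G => g * t = t * g).image fun g => g • D
  have memA : ∀ S, S ∈ A ↔ ∃ g : G, g * t = t * g ∧ g • D = S := fun S => by simp [A]
  have cardA : ∀ S ∈ A, S.ncard = 4 := by
    intro S hS
    obtain ⟨g, hg, rfl⟩ := (memA S).mp hS
    rw [Set.ncard_smul_set, hD]
  have tA : ∀ S ∈ A, t • S = S := by
    intro S hS
    obtain ⟨g, hg, rfl⟩ := (memA S).mp hS
    rw [← mul_smul, ← hg, mul_smul, htD]
  have tmA : ∀ S ∈ A, ∀ x ∈ S, t • x ∈ S := fun S hS x hx => by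
    have h := Set.smul_mem_smul_set (a := t) hx
    rwa [tA S hS] at h
  have fA : ∀ S ∈ A, ∀ x ∈ S, t • x ≠ x := by
    intro S hS x hx h
    obtain ⟨g, hg, rfl⟩ := (memA S).mp hS
    obtain ⟨b, hb, rfl⟩ := Set.mem_smul_set.mp hx
    rw [← mul_smul, ← hg, mul_smul] at h
    exact htfree b hb (MulAction.injective g h)
  have nA : ∀ S ∈ A, ∀ x : G, x • S = S → orderOf x = 2 → ∀ a : Ω, x • a = a →
      x ∈ fixingSubgroup G S := by
    intro S hS x hxS hx a ha
    obtain ⟨g, hg, rfl⟩ := (memA S).mp hS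
    have h1 : g⁻¹ * x * g ∈ stabilizer G D := by
      rw [mem_stabilizer_iff, mul_smul, mul_smul, hxS, inv_smul_smul]
    have h2 : orderOf (g⁻¹ * x * g) = 2 := by
      have e : MulAut.conj g⁻¹ x = g⁻¹ * x * g := by simp
      rw [← e, MulEquiv.orderOf_eq, hx]
    have h3 := hno _ h1 h2 (g⁻¹ • a) (by rw [mul_smul, mul_smul, smul_inv_smul, ha])
    refine (mem_fixingSubgroup_iff G).mpr fun y hy => ?_
    obtain ⟨b, hb, rfl⟩ := Set.mem_smul_set.mp hy
    have h4 := (mem_fixingSubgroup_iff G).mp h3 b hb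
    rw [mul_smul, mul_smul, inv_smul_eq_iff] at h4
    exact h4
  let Y : Set Ω → Finset G := fun S => Finset.univ.filter fun y =>
    orderOf y = 2 ∧ y ∈ fixingSubgroup G S ∧ y * t = t * y
  have memY : ∀ S y, y ∈ Y S ↔ orderOf y = 2 ∧ y ∈ fixingSubgroup G S ∧ y * t = t * y :=
    fun S y => by simp [Y]
  have hY : ∀ S ∈ A, 3 ≤ (Y S).card := by
    intro S hS
    obtain ⟨g, hg, rfl⟩ := (memA S).mp hS
    have hmem : ∀ x : {x : G // orderOf x = 2 ∧ x ∈ fixingSubgroup G D ∧
        x ∈ Subgroup.centralizer ({t} : Set G)}, g * (x : G) * g⁻¹ ∈ Y (g • D) := by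
      rintro ⟨x, hx, hxD, hxt⟩
      have hxt' : t * x = x * t := Subgroup.mem_centralizer_singleton_iff.mp hxt |>.symm
      refine (memY _ _).mpr ⟨?_, ?_, ?_⟩
      · rw [← MulAut.conj_apply, MulEquiv.orderOf_eq, hx]
      · refine (mem_fixingSubgroup_iff G).mpr fun y hy => ?_
        obtain ⟨b, hb, rfl⟩ := Set.mem_smul_set.mp hy
        rw [mul_smul, mul_smul, inv_smul_smul, (mem_fixingSubgroup_iff G).mp hxD b hb]
      · have hc : Commute t (g * x * g⁻¹) := by
          have hgc : Commute t g := hg.symm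
          have hxc : Commute t x := hxt'
          exact (hgc.mul_right hxc).mul_right hgc.inv_right
        exact hc.symm.eq
    let f : {x : G // orderOf x = 2 ∧ x ∈ fixingSubgroup G D ∧
        x ∈ Subgroup.centralizer ({t} : Set G)} → (Y (g • D) : Finset G) :=
      fun x => ⟨g * (x : G) * g⁻¹, hmem x⟩
    have hf : Function.Injective f := by
      intro x y h
      apply Subtype.ext
      simpa [f] using h
    have h := Nat.card_le_card_of_injective f hf
    rw [Nat.card_eq_finsetCard] at h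
    omega
  intro g hg
  rw [mem_stabilizer_iff]
  by_contra hgD
  have hg' : g * t = t * g := Subgroup.mem_centralizer_singleton_iff.mp hg
  have hDA : D ∈ A := (memA D).mpr ⟨1, by simp, one_smul _ _⟩
  have hEne : (A.erase D).Nonempty :=
    ⟨g • D, Finset.mem_erase.mpr ⟨hgD, (memA _).mpr ⟨g, hg', rfl⟩⟩⟩
  have hEpos := hEne.card_pos
  let Y0 : Finset G := (A.erase D).biUnion Y
  have hlow : 3 * (A.erase D).card ≤ Y0.card := by
    rw [Finset.card_biUnion]
    · calc 3 * (A.erase D).card = ∑ _S ∈ A.erase D, 3 := by simp [mul_comm]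
        _ ≤ ∑ S ∈ A.erase D, (Y S).card :=
          Finset.sum_le_sum fun S hS => hY S (Finset.mem_of_mem_erase hS)
    · intro S hS T hT hne
      have hS' : S ∈ A := Finset.mem_of_mem_erase hS
      have hT' : T ∈ A := Finset.mem_of_mem_erase hT
      rw [Function.onFun, Finset.disjoint_left]
      intro y hy1 hy2
      obtain ⟨ho, hf1, -⟩ := (memY _ _).mp hy1
      obtain ⟨-, hf2, -⟩ := (memY _ _).mp hy2
      have hy : y ≠ 1 := fun h => by simp [h] at ho
      exact hne (eq_of_fixing hfix hy (cardA S hS') (cardA T hT') hf1 hf2)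
  have hY0 : ∀ y ∈ Y0, ∃ S ∈ A, S ≠ D ∧ orderOf y = 2 ∧ y ∈ fixingSubgroup G S ∧
      y * t = t * y := by
    intro y hy
    obtain ⟨S, hS, hyS⟩ := Finset.mem_biUnion.mp hy
    exact ⟨S, Finset.mem_of_mem_erase hS, Finset.ne_of_mem_erase hS, (memY _ _).mp hyS⟩
  have hinv : ∀ y ∈ Y0, y * y = 1 := by
    intro y hy
    obtain ⟨S, -, -, ho, -, -⟩ := hY0 y hy
    have h := pow_orderOf_eq_one y
    rwa [ho, pow_two] at h
  have hmove : ∀ y ∈ Y0, y • D ∈ A.erase D := by
    intro y hy
    obtain ⟨S, hSA, hSD, ho, hyS, hyt⟩ := hY0 y hy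
    refine Finset.mem_erase.mpr ⟨fun h => ?_, (memA _).mpr ⟨y, hyt, rfl⟩⟩
    obtain ⟨a, ha⟩ := (Set.ncard_pos (Set.toFinite S)).mp (by rw [cardA S hSA]; omega)
    have hfixS := (mem_fixingSubgroup_iff G).mp hyS
    have hyS' : y • S = S := by
      refine Set.eq_of_subset_of_ncard_le ?_ (by rw [Set.ncard_smul_set]) (Set.toFinite _)
      rintro _ ⟨b, hb, rfl⟩
      change y • b ∈ S
      rwa [hfixS b hb]
    have h1 := count_trivial hfix ht2 hyt (cardA S hSA) hD hSD (tmA S hSA) (tmA D hDA)
      (fA S hSA) (fA D hDA) (nA S hSA) (nA D hDA) hyS' h ha (hfixS a ha)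
    simp [h1] at ho
  obtain ⟨a₀, ha₀⟩ := (Set.ncard_pos (Set.toFinite D)).mp (by omega)
  have hpair : ∀ y ∈ Y0, ∀ y' ∈ Y0, y ≠ y' → y • D = y' • D →
      y' • a₀ ≠ y • a₀ ∧ y' • a₀ ≠ t • y • a₀ := by
    intro y hy y' hy' hne hD'
    obtain ⟨S, hSA, hSD, ho, hyS, hyt⟩ := hY0 y hy
    obtain ⟨S', hSA', hSD', ho', hyS2, hyt'⟩ := hY0 y' hy'
    have hy2 := hinv y hy
    have hy2' := hinv y' hy'
    obtain ⟨hyD, hyA⟩ := Finset.mem_erase.mp (hmove y hy)
    have hcomm : y * y' * t = t * (y * y') := by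
      rw [mul_assoc, hyt', ← mul_assoc, hyt, mul_assoc]
    have sD : (y * y') • D = D := by rw [mul_smul, ← hD', ← mul_smul, hy2, one_smul]
    have sD' : (y * y') • (y • D) = y • D := by
      calc (y * y') • (y • D) = y • y' • (y' • D) := by rw [mul_smul, hD']
        _ = y • D := by rw [← mul_smul y' y', hy2', one_smul]
    constructor
    · intro h
      have h1 := count_trivial hfix ht2 hcomm hD (cardA _ hyA) (Ne.symm hyD) (tmA D hDA)
        (tmA _ hyA) (fA D hDA) (fA _ hyA) (nA D hDA) (nA _ hyA) sD sD' ha₀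
        (by rw [mul_smul, h, ← mul_smul, hy2, one_smul])
      refine hne ?_
      calc y = y * (y * y') := by rw [h1, mul_one]
        _ = y' := by rw [← mul_assoc, hy2, one_mul]
    · intro h
      have hct : t * (y * y') * t = t * (t * (y * y')) := by rw [mul_assoc, hcomm]
      have hca : (y * y') • a₀ = t • a₀ := by
        rw [mul_smul, h, ← mul_smul, hyt, mul_smul, ← mul_smul y y, hy2, one_smul]
      have h1 := count_trivial hfix ht2 hct hD (cardA _ hyA) (Ne.symm hyD) (tmA D hDA)
        (tmA _ hyA) (fA D hDA) (fA _ hyA) (nA D hDA) (nA _ hyA)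
        (by rw [mul_smul, sD, htD]) (by rw [mul_smul, sD', tA _ hyA]) ha₀
        (by rw [mul_smul, hca, htt])
      have h2 : y * y' = t := by
        calc y * y' = t * (t * (y * y')) := by rw [← mul_assoc t t, ht2, one_mul]
          _ = t := by rw [h1, mul_one]
      have h3 : y' = y * t := by rw [← h2, ← mul_assoc, hy2, one_mul]
      have hfixS := (mem_fixingSubgroup_iff G).mp hyS
      have hfixS' := (mem_fixingSubgroup_iff G).mp hyS2
      have hact : ∀ b ∈ S, y' • b = t • b := fun b hb => by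
        rw [h3, hyt, mul_smul, hfixS b hb]
      obtain ⟨a, ha⟩ := (Set.ncard_pos (Set.toFinite S')).mp (by rw [cardA S' hSA']; omega)
      have hne' : S' ≠ S := by
        rintro rfl
        exact fA S' hSA' a ha ((hact a ha).symm.trans (hfixS' a ha))
      have hs : y' • S = S := by
        refine Set.eq_of_subset_of_ncard_le ?_ (by rw [Set.ncard_smul_set]) (Set.toFinite _)
        rintro _ ⟨b, hb, rfl⟩
        change y' • b ∈ S
        rw [hact b hb]
        exact tmA S hSA b hb
      have hs' : y' • S' = S' := by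
        refine Set.eq_of_subset_of_ncard_le ?_ (by rw [Set.ncard_smul_set]) (Set.toFinite _)
        rintro _ ⟨b, hb, rfl⟩
        change y' • b ∈ S'
        rwa [hfixS' b hb]
      have h4 := count_trivial hfix ht2 hyt' (cardA S' hSA') (cardA S hSA) hne' (tmA S' hSA')
        (tmA S hSA) (fA S' hSA') (fA S hSA) (nA S' hSA') (nA S hSA) hs' hs ha (hfixS' a ha)
      simp [h4] at ho'
  have hfib : ∀ S ∈ Y0.image (fun y => y • D), (Y0.filter fun y => y • D = S).card ≤ 2 := by
    intro S hS
    by_contra hlt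
    obtain ⟨y₁, y₂, y₃, h1, h2, h3, h12, h13, h23⟩ := Finset.two_lt_card_iff.mp (not_le.mp hlt)
    rw [Finset.mem_filter] at h1 h2 h3
    have hSA : S ∈ A := by
      rw [← h1.2]
      exact Finset.mem_of_mem_erase (hmove y₁ h1.1)
    have hq : ∀ y : G, y • D = S → y • a₀ ∈ S := fun y hy => hy ▸ Set.smul_mem_smul_set ha₀
    obtain ⟨u1, u2⟩ := hpair y₁ h1.1 y₂ h2.1 h12 (h1.2.trans h2.2.symm)
    obtain ⟨w1, w2⟩ := hpair y₁ h1.1 y₃ h3.1 h13 (h1.2.trans h3.2.symm)
    obtain ⟨v1, v2⟩ := hpair y₂ h2.1 y₃ h3.1 h23 (h2.2.trans h3.2.symm)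
    rcases count_pair ht2 (cardA S hSA) (tmA S hSA) (fA S hSA) (hq _ h1.2) (hq _ h2.2)
      (hq _ h3.2) u1 u2 v1 v2 with h | h
    · exact w1 h
    · exact w2 h
  have himg : (Y0.image fun y => y • D).card ≤ (A.erase D).card :=
    Finset.card_le_card (Finset.image_subset_iff.mpr hmove)
  have hup := Finset.card_le_mul_card_image Y0 2 hfib
  omega

end Cfsg.Agent.Fix4
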