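import Mathlib
import Cfsg.Prelude.Def_CaseTheorems

/-!
# Two-groups with a normal self-centralising elementary subgroup of order sixteen (S3365)
-/

set_option autoImplicit false

set_option maxHeartbeats 400000

namespace Cfsg.Agent.Fix4

private theorem rs_not_elementary_top {S : Type*} [Group S] [Finite S] (B : Subgroup S) [B.Normal]
    (hab : ∀ a ∈ B, ∀ b ∈ B, a * b = b * a) (h2 : ∀ a ∈ B, a ^ 2 = 1) (h16 : Nat.card B = 16)
    (hidx : B.index = 8)
    (hfix : ∀ h : S, h ∉ B → Nat.card ↥(B ⊓ Subgroup.centralizer ({h} : Set S)) ≤ 4)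
    (hsq : ∀ s : S, s ^ 2 ∈ B) : False := by
  classical
  letI : Fintype S := Fintype.ofFinite S
  letI act : MulAction S B := MulAction.compHom B (MulAut.conjNormal (H := B))
  have hsmul : ∀ (s : S) (b : B), ((s • b : B) : S) = s * b * s⁻¹ := fun s b => rfl
  have hval : ∀ s : S,
      Nat.card (MulAction.fixedBy B s) = if s ∈ B then 16 else 4 := by
    intro s
    by_cases hs : s ∈ B
    · rw [if_pos hs, ← h16]
      refine Nat.card_congr (Equiv.subtypeUnivEquiv fun b => ?_)
      apply Subtype.ext
      rw [hsmul, hab s hs b b.2, mul_inv_cancel_right]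
    · rw [if_neg hs]
      have hker : Nat.card (MulAction.fixedBy B s) =
          Nat.card ↥(B ⊓ Subgroup.centralizer ({s} : Set S)) := by
        refine Nat.card_congr
          { toFun := fun b => ⟨(b.1 : S), Subgroup.mem_inf.2 ⟨b.1.2,
              Subgroup.mem_centralizer_singleton_iff.2 ?_⟩⟩
            invFun := fun b => ⟨⟨(b : S), (Subgroup.mem_inf.1 b.2).1⟩, ?_⟩
            left_inv := fun b => rfl
            right_inv := fun b => rfl }
        · have h := congrArg (fun x : B => (x : S)) b.2
          simp only [hsmul] at h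
          exact ((mul_inv_eq_iff_eq_mul.1 h)).symm
        · have hc := Subgroup.mem_centralizer_singleton_iff.1 (Subgroup.mem_inf.1 b.2).2
          apply Subtype.ext
          rw [hsmul]
          show s * (b : S) * s⁻¹ = (b : S)
          rw [← hc, mul_inv_cancel_right]
      refine le_antisymm (hker ▸ hfix s hs) ?_
      -- the displacement homomorphism has range inside its kernel
      let σ : B →* B := (MulAut.conjNormal (H := B) s).toMonoidHom
      let c : B →* B :=
        { toFun := fun b => σ b * b
          map_one' := by simp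
          map_mul' := fun a b => by
            apply Subtype.ext
            rw [map_mul]
            push_cast
            have hc := hab (σ b) (σ b).2 a a.2
            calc ((σ a : S) * (σ b : S)) * ((a : S) * b)
                = (σ a : S) * ((σ b : S) * a) * b := by group
              _ = (σ a : S) * ((a : S) * σ b) * b := by rw [hc]
              _ = ((σ a : S) * a) * ((σ b : S) * b) := by group }
      have hσ : ∀ b : B, σ (σ b) = b := fun b => by
        apply Subtype.ext
        show s * (s * (b : S) * s⁻¹) * s⁻¹ = (b : S)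
        have h := hab _ (hsq s) (b : S) b.2
        rw [pow_two] at h
        calc s * (s * (b : S) * s⁻¹) * s⁻¹ = (s * s) * b * (s * s)⁻¹ := by group
          _ = _ := by rw [h, mul_inv_cancel_right]
      have hinv : ∀ b : B, b⁻¹ = b := fun b => inv_eq_of_mul_eq_one_right (by
        apply Subtype.ext
        simpa [pow_two] using h2 b b.2)
      have hkerc : ∀ b : B, b ∈ c.ker ↔ σ b = b := fun b => by
        show σ b * b = 1 ↔ _
        rw [mul_eq_one_iff_eq_inv, hinv]
      have hle : c.range ≤ c.ker := by
        rintro _ ⟨b, rfl⟩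
        rw [hkerc]
        show σ (σ b * b) = σ b * b
        rw [map_mul, hσ]
        apply Subtype.ext
        exact hab _ b.2 _ (σ b).2
      have hprod : Nat.card c.ker * Nat.card c.range = 16 := by
        rw [← h16, ← Subgroup.index_ker, Subgroup.card_mul_index]
      have hrk : Nat.card c.range ≤ Nat.card c.ker := Subgroup.card_le_of_le hle
      have hfeq : Nat.card c.ker = Nat.card (MulAction.fixedBy B s) :=
        Nat.card_congr (Equiv.subtypeEquivRight fun b => hkerc b)
      by_contra hlt
      push Not at hlt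
      rw [← hfeq] at hlt
      nlinarith
  have hcS : Fintype.card S = 128 := by
    rw [← Nat.card_eq_fintype_card, ← Subgroup.card_mul_index B, h16, hidx]
  have hburn := MulAction.sum_card_fixedBy_eq_card_orbits_mul_card_group S B
  have hsum : ∑ s : S, Fintype.card (MulAction.fixedBy B s) =
      ∑ s : S, (if s ∈ B then 16 else 4) :=
    Finset.sum_congr rfl fun s _ => by rw [← Nat.card_eq_fintype_card, hval]
  rw [hsum, Finset.sum_ite] at hburn
  have hB : (Finset.univ.filter fun s : S => s ∈ B).card = 16 := by
    rw [← Fintype.card_subtype, ← Nat.card_eq_fintype_card]; exact h16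
  have hnB : (Finset.univ.filter fun s : S => s ∉ B).card = 112 := by
    rw [Finset.filter_not, Finset.card_sdiff_of_subset (Finset.subset_univ _), hB,
      Finset.card_univ, hcS]
  rw [Finset.sum_const, Finset.sum_const, smul_eq_mul, smul_eq_mul, hB, hnB, hcS] at hburn
  omega

private theorem rs_bound {S : Type*} [Group S] [Finite S] (hS : IsPGroup 2 S) (B : Subgroup S)
    [B.Normal] (hab : ∀ a ∈ B, ∀ b ∈ B, a * b = b * a)
    (h2 : ∀ a ∈ B, a ^ 2 = 1) (h16 : Nat.card B = 16) (hidx : B.index ≤ 8)
    (hfix : ∀ h : S, h ∉ B → Nat.card ↥(B ⊓ Subgroup.centralizer ({h} : Set S)) ≤ 4)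
    {H0 : Type*} [Group H0] [Finite H0] {A : Type*} [CommGroup A] [Finite A]
    (ι : H0 →* S) (hι : Function.Injective ι) (g : H0 →* A) (hg : Function.Surjective g)
    (hA2 : ∀ a : A, a ^ 2 = 1) : Nat.card A ≤ 16 := by
  let U : Subgroup H0 := B.comap ι
  have hcardA : Nat.card A = Nat.card (U.map g) * (U.map g).index :=
    (Subgroup.card_mul_index _).symm
  have hU16 : Nat.card U ≤ 16 := by
    rw [← h16]
    exact Nat.card_le_card_of_injective (fun u : U => (⟨ι u.1, u.2⟩ : B))
      fun a b hab' => Subtype.ext (hι (congrArg (fun x : B => (x : S)) hab'))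
  have hUidx : U.index ≤ B.index := by
    rw [Subgroup.index_comap]
    exact (Subgroup.relIndex_le_of_le_right le_top (by rw [Subgroup.relIndex_top_right]; exact Subgroup.index_ne_zero_of_finite)).trans_eq (Subgroup.relIndex_top_right B)
  have hmapidx : (U.map g).index ≤ U.index :=
    Nat.le_of_dvd (Nat.pos_of_ne_zero Subgroup.index_ne_zero_of_finite)
      (Subgroup.index_map_dvd U hg)
  by_cases hall : U = ⊤
  · have : Nat.card (U.map g) = Nat.card A := by
      rw [hall, Subgroup.map_top_of_surjective g hg, Subgroup.card_top]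
    rw [← this]
    exact (Nat.le_of_dvd Nat.card_pos (U.card_map_dvd g)).trans hU16
  obtain ⟨h, hh⟩ : ∃ h : H0, h ∉ U := by
    by_contra hne
    push Not at hne
    exact hall (eq_top_iff.2 fun x _ => hne x)
  have hUab : ∀ a b : U, a.1 * b.1 = b.1 * a.1 := fun a b =>
    hι (by simp only [map_mul]; exact hab _ a.2 _ b.2)
  have hUn : U.Normal := inferInstanceAs ((B.comap ι).Normal)
  let c : U →* U :=
    { toFun := fun u => ⟨h * u.1 * h⁻¹ * u.1⁻¹, U.mul_mem (hUn.conj_mem _ u.2 h) (U.inv_mem u.2)⟩
      map_one' := by simp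
      map_mul' := fun a b => by
        apply Subtype.ext
        show h * (a.1 * b.1) * h⁻¹ * (a.1 * b.1)⁻¹ = _ * (h * b.1 * h⁻¹ * b.1⁻¹)
        have hc := hUab ⟨h * b.1 * h⁻¹ * b.1⁻¹,
          U.mul_mem (hUn.conj_mem _ b.2 h) (U.inv_mem b.2)⟩ ⟨a.1⁻¹, U.inv_mem a.2⟩
        calc h * (a.1 * b.1) * h⁻¹ * (a.1 * b.1)⁻¹
            = h * a.1 * h⁻¹ * ((h * b.1 * h⁻¹ * b.1⁻¹) * a.1⁻¹) := by group
          _ = h * a.1 * h⁻¹ * (a.1⁻¹ * (h * b.1 * h⁻¹ * b.1⁻¹)) := by rw [hc]
          _ = _ := by group }
  have hkerc : Nat.card c.ker ≤ 4 := by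
    refine le_trans ?_ (hfix (ι h) hh)
    refine Nat.card_le_card_of_injective (fun u : c.ker => ⟨ι u.1.1, Subgroup.mem_inf.2 ⟨u.1.2,
      Subgroup.mem_centralizer_singleton_iff.2 ?_⟩⟩) ?_
    · have h1 : h * u.1.1 * h⁻¹ * u.1.1⁻¹ = 1 := congrArg Subtype.val u.2
      have h1' : h * u.1.1 = u.1.1 * h := by
        rw [mul_inv_eq_one] at h1
        exact mul_inv_eq_iff_eq_mul.1 h1
      have := congrArg ι h1'
      simp only [map_mul] at this
      exact this.symm
    · intro a b hab'
      have hv := congrArg Subtype.val hab'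
      exact Subtype.ext (Subtype.ext (hι hv))
  have hgU : Nat.card (U.map g) ≤ Nat.card c.ker := by
    let gU : U →* A := g.comp U.subtype
    have hrange : gU.range = U.map g := by
      rw [MonoidHom.range_comp, Subgroup.range_subtype]
    have hle : c.range ≤ gU.ker := by
      rintro _ ⟨u, rfl⟩
      show g (h * u.1 * h⁻¹ * u.1⁻¹) = 1
      rw [map_mul, map_mul, map_mul, map_inv, map_inv, mul_comm (g h) (g u.1)]
      group
    rw [← hrange, ← Subgroup.index_ker]
    have := Subgroup.index_antitone hle
    have hcr : c.range.index = Nat.card c.ker := by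
      have h1 := Subgroup.card_mul_index c.range
      have h2 := Subgroup.card_mul_index c.ker
      rw [Subgroup.index_ker] at h2
      exact Nat.eq_of_mul_eq_mul_left Nat.card_pos (h1.trans (h2.symm.trans (mul_comm _ _)))
    omega
  by_contra hcon
  push Not at hcon
  rw [hcardA] at hcon
  -- forces index eight and squares inside `B`
  have hA8 : 8 ≤ (U.map g).index := by
    obtain ⟨k, hk⟩ := (IsPGroup.of_surjective ((hS.of_injective ι hι)) g hg).index (U.map g)
    have : 4 < (U.map g).index := by nlinarith
    rw [hk] at this ⊢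
    rcases k with _ | _ | _ | k <;> simp at this ⊢
    exact le_trans (le_of_eq (by norm_num)) (Nat.pow_le_pow_right two_pos (Nat.le_add_left 3 k))
  have hB8 : B.index = 8 := by omega
  have hU8 : U.index = 8 := by omega
  have hUeq : (U.map g).comap g = U := by
    refine (Subgroup.le_comap_map g U).antisymm' ?_
    intro x hx
    by_contra hxU
    have hlt : U < (U.map g).comap g :=
      lt_of_le_of_ne (Subgroup.le_comap_map g U) fun he => hxU (he ▸ hx)
    have := Subgroup.index_strictAnti hlt
    rw [Subgroup.index_comap_of_surjective _ hg] at this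
    omega
  refine rs_not_elementary_top B hab h2 h16 hB8 hfix fun s => ?_
  have hsup : ∀ x : S, ∃ u : H0, (ι u)⁻¹ * x ∈ B := by
    have hr : B.relIndex ι.range = B.index := by
      rw [← Subgroup.index_comap]
      show U.index = B.index
      omega
    intro x
    haveI : Finite (S ⧸ B) := inferInstance
    let q : ι.range ⧸ B.subgroupOf ι.range → S ⧸ B :=
      Quotient.lift (fun y => ((y : S) : S ⧸ B)) fun a b hab' => by
        rw [QuotientGroup.eq]
        exact ((QuotientGroup.leftRel_apply (s := B.subgroupOf ι.range)).1 hab' : _)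
    have hq : Function.Injective q := by
      intro a b hab'
      induction a using QuotientGroup.induction_on with
      | _ a =>
        induction b using QuotientGroup.induction_on with
        | _ b =>
          have h1 : (a : S)⁻¹ * (b : S) ∈ B :=
            QuotientGroup.eq.1 (show ((a : S) : S ⧸ B) = ((b : S) : S ⧸ B) from hab')
          exact QuotientGroup.eq.2 h1
    have hbij : Function.Bijective q :=
      (Nat.bijective_iff_injective_and_card q).2 ⟨hq, hr⟩
    obtain ⟨y, hy⟩ := hbij.2 (x : S ⧸ B)
    induction y using QuotientGroup.induction_on with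
    | _ y =>
      obtain ⟨u, hu⟩ := y.2
      exact ⟨u, by rw [hu]; exact QuotientGroup.eq.1 hy⟩
  obtain ⟨u, hu⟩ := hsup s
  have hu2 : ι u ^ 2 ∈ B := by
    rw [← map_pow]
    show u ^ 2 ∈ U
    rw [← hUeq, Subgroup.mem_comap, map_pow]
    have : g u ^ 2 = 1 := hA2 (g u)
    rw [this]
    exact one_mem _
  have hN' : B.Normal := inferInstance
  rw [← QuotientGroup.eq_one_iff]
  have he : (s : S ⧸ B) = ((ι u : S) : S ⧸ B) := (QuotientGroup.eq.2 hu).symm
  rw [QuotientGroup.mk_pow, he, ← QuotientGroup.mk_pow, QuotientGroup.eq_one_iff]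
  exact hu2


/-- If every element outside the normal self-centralising elementary subgroup `B` of order 16
fixes at most four of its elements and `B` has index at most eight, the sectional rank is at
most four. -/
theorem sectional_of_self_centralizing_sixteen {S : Type*} [Group S] [Finite S]
    (hS : IsPGroup 2 S) (B : Subgroup S) [B.Normal] (hab : ∀ a ∈ B, ∀ b ∈ B, a * b = b * a)
    (h2 : ∀ a ∈ B, a ^ 2 = 1) (h16 : Nat.card B = 16) (hidx : B.index ≤ 8)
    (hfix : ∀ h : S, h ∉ B → Nat.card ↥(B ⊓ Subgroup.centralizer ({h} : Set S)) ≤ 4) :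
    Cfsg.SectionalPRankLE 2 4 S := by
  intro H N hN A hAc hA2
  letI : CommGroup A := { (inferInstance : Group A) with mul_comm := fun a b => hAc.is_comm.comm a b }
  exact rs_bound hS B hab h2 h16 hidx hfix (H.subtype.comp (A.comap (QuotientGroup.mk' N)).subtype)
    (Subtype.val_injective.comp Subtype.val_injective)
    ((QuotientGroup.mk' N).subgroupComap A)
    (MonoidHom.subgroupComap_surjective_of_surjective _ A (QuotientGroup.mk'_surjective N))
    fun a => Subtype.ext (hA2 _ a.2)

end Cfsg.Agent.Fix4
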