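import Cfsg.Agent.Fix4.Basic
import Cfsg.Agent.Fix4.RankSixteen
import Cfsg.Agent.Harada.Basic
import Cfsg.Agent.S0501
import Cfsg.Agent.S1232

/-!
# A 2-group with an involution fixing four points (S3365)
-/

set_option autoImplicit false

namespace Cfsg.Agent.Fix4

open MulAction
open scoped Pointwise

/-- In the symmetric group on four letters at most four elements commute with five or more. -/
theorem perm_four_large_centralizers :
    (Finset.univ.filter fun x : Equiv.Perm (Fin 4) =>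
      5 ≤ (Finset.univ.filter fun y : Equiv.Perm (Fin 4) => x * y = y * x).card).card ≤ 4 := by
  decide +kernel

/-- An abelian subgroup of the symmetric group on four letters has order at most four. -/
theorem abelian_perm_card_le {α : Type*} [Finite α] (hα : Nat.card α = 4)
    (P : Subgroup (Equiv.Perm α)) (hP : ∀ a ∈ P, ∀ b ∈ P, a * b = b * a) : Nat.card P ≤ 4 := by
  classical
  obtain ⟨e⟩ : Nonempty (α ≃ Fin 4) := ⟨Finite.equivFinOfCardEq hα⟩
  let E : Equiv.Perm α ≃* Equiv.Perm (Fin 4) := e.permCongrHom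
  by_contra hlt
  push Not at hlt
  let Q : Finset (Equiv.Perm (Fin 4)) := Finset.univ.filter fun y => E.symm y ∈ P
  have hQ : Q.card = Nat.card P := by
    rw [← Fintype.card_subtype fun y => E.symm y ∈ P, ← Nat.card_eq_fintype_card]
    exact Nat.card_congr (E.symm.toEquiv.subtypeEquiv fun y => Iff.rfl)
  have hsub : Q ⊆ Finset.univ.filter fun x : Equiv.Perm (Fin 4) =>
      5 ≤ (Finset.univ.filter fun y : Equiv.Perm (Fin 4) => x * y = y * x).card := by
    intro x hx
    rw [Finset.mem_filter] at hx ⊢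
    refine ⟨Finset.mem_univ _, le_trans (by omega : 5 ≤ Q.card) (Finset.card_le_card ?_)⟩
    intro y hy
    rw [Finset.mem_filter] at hy ⊢
    refine ⟨Finset.mem_univ _, E.symm.injective ?_⟩
    rw [map_mul, map_mul]
    exact hP _ hx.2 _ hy.2
  have := le_trans (Finset.card_le_card hsub) perm_four_large_centralizers
  omega

variable {S Ω : Type*} [Group S] [MulAction S Ω]

/-- The permutations induced on a set by its stabiliser. -/
def stabilizerPerm (D : Set Ω) : stabilizer S D →* Equiv.Perm D where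
  toFun h :=
    { toFun := fun x => ⟨(h : S) • (x : Ω), by
        have e := h.2
        rw [mem_stabilizer_iff] at e
        exact (Set.ext_iff.mp e _).mp (Set.smul_mem_smul_set x.2)⟩
      invFun := fun x => ⟨(h : S)⁻¹ • (x : Ω), by
        have e := (h⁻¹).2
        rw [mem_stabilizer_iff] at e
        exact (Set.ext_iff.mp e _).mp (Set.smul_mem_smul_set x.2)⟩
      left_inv := fun x => Subtype.ext (inv_smul_smul _ _)
      right_inv := fun x => Subtype.ext (smul_inv_smul _ _) }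
  map_one' := Equiv.ext fun x => Subtype.ext (one_smul _ _)
  map_mul' := fun a b => Equiv.ext fun x => Subtype.ext (mul_smul _ _ _)

theorem stabilizerPerm_eq_one_iff {D : Set Ω} (h : stabilizer S D) :
    stabilizerPerm D h = 1 ↔ (h : S) ∈ fixingSubgroup S D := by
  rw [mem_fixingSubgroup_iff]
  constructor
  · intro e x hx
    exact congrArg Subtype.val (Equiv.ext_iff.mp e ⟨x, hx⟩)
  · intro e
    exact Equiv.ext fun x => Subtype.ext (e x x.2)

theorem image_card (D : Set Ω) (A : Subgroup S) (hA : A ≤ stabilizer S D) :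
    Nat.card ((stabilizerPerm D).comp (Subgroup.inclusion hA)).range *
      Nat.card ↥(A ⊓ fixingSubgroup S D) = Nat.card A := by
  set f := (stabilizerPerm D).comp (Subgroup.inclusion hA) with hf
  have hker : f.ker = (A ⊓ fixingSubgroup S D).subgroupOf A := by
    ext x
    simp only [MonoidHom.mem_ker, hf, MonoidHom.comp_apply, stabilizerPerm_eq_one_iff,
      Subgroup.mem_subgroupOf, Subgroup.mem_inf, Subgroup.coe_inclusion, SetLike.coe_mem, true_and]
  have h1 : Nat.card f.ker = Nat.card ↥(A ⊓ fixingSubgroup S D) := by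
    rw [hker]
    exact Nat.card_congr (Subgroup.subgroupOfEquivOfLe inf_le_left).toEquiv
  rw [← h1, ← Subgroup.index_ker, mul_comm]
  exact f.ker.card_mul_index

/-- An abelian group of permutations of four points has order at most four. -/
theorem card_le_four_mul [Finite Ω] {D : Set Ω} (hD : D.ncard = 4) (A : Subgroup S)
    (hA : A ≤ stabilizer S D) (hab : ∀ a ∈ A, ∀ b ∈ A, a * b = b * a) :
    Nat.card A ≤ 4 * Nat.card ↥(A ⊓ fixingSubgroup S D) := by
  conv_lhs => rw [← image_card D A hA]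
  refine Nat.mul_le_mul_right _ (abelian_perm_card_le (by rw [Nat.card_coe_set_eq, hD]) _ ?_)
  rintro _ ⟨a, rfl⟩ _ ⟨b, rfl⟩
  rw [← map_mul, ← map_mul]
  exact congrArg _ (Subtype.ext (hab a a.2 b b.2))

/-- An element commuting on four points with an abelian group of four permutations is one of
these. -/
theorem mem_mul_of_commute [Finite S] [Finite Ω] {D : Set Ω} (hD : D.ncard = 4) (A : Subgroup S)
    (hA : A ≤ stabilizer S D) (hab : ∀ a ∈ A, ∀ b ∈ A, a * b = b * a)
    (h4 : 4 * Nat.card ↥(A ⊓ fixingSubgroup S D) ≤ Nat.card A) {h : S}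
    (hh : h ∈ stabilizer S D) (hcomm : ∀ a ∈ A, h * a = a * h) :
    ∃ a ∈ A, a⁻¹ * h ∈ fixingSubgroup S D := by
  classical
  let f := (stabilizerPerm D).comp (Subgroup.inclusion hA)
  let x := stabilizerPerm D ⟨h, hh⟩
  have hW : 4 ≤ Nat.card f.range := by
    rw [← image_card D A hA] at h4
    exact Nat.le_of_mul_le_mul_right h4 Nat.card_pos
  let P := Subgroup.closure ((f.range : Set (Equiv.Perm D)) ∪ {x})
  have hx : ∀ p ∈ (f.range : Set (Equiv.Perm D)) ∪ {x},
      ∀ q ∈ (f.range : Set (Equiv.Perm D)) ∪ {x}, p * q = q * p := by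
    rintro p (⟨a, rfl⟩ | rfl) q (⟨b, rfl⟩ | rfl)
    · rw [← map_mul, ← map_mul]
      exact congrArg _ (Subtype.ext (hab a a.2 b b.2))
    · show stabilizerPerm D _ * stabilizerPerm D _ = stabilizerPerm D _ * stabilizerPerm D _
      rw [← map_mul, ← map_mul]
      exact congrArg _ (Subtype.ext (hcomm a a.2).symm)
    · show stabilizerPerm D _ * stabilizerPerm D _ = stabilizerPerm D _ * stabilizerPerm D _
      rw [← map_mul, ← map_mul]
      exact congrArg _ (Subtype.ext (hcomm b b.2))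
    · rfl
  haveI hP : IsMulCommutative P := Subgroup.isMulCommutative_closure hx
  have hP4 : Nat.card P ≤ 4 := abelian_perm_card_le (by rw [Nat.card_coe_set_eq, hD]) P
    fun a ha b hb => congrArg Subtype.val (hP.is_comm.comm ⟨a, ha⟩ ⟨b, hb⟩)
  have hle : f.range ≤ P := fun p hp => Subgroup.subset_closure (Or.inl hp)
  have heq : f.range = P := Subgroup.eq_of_le_of_card_ge hle (hP4.trans hW)
  obtain ⟨a, ha⟩ : x ∈ f.range := heq ▸ Subgroup.subset_closure (Or.inr rfl)
  refine ⟨a, a.2, ?_⟩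
  have : stabilizerPerm D ((⟨a, hA a.2⟩ : stabilizer S D)⁻¹ * ⟨h, hh⟩) = 1 := by
    rw [map_mul, map_inv, inv_mul_eq_one]
    exact ha
  exact (stabilizerPerm_eq_one_iff _).mp this

/-- An element commuting with a non-identity element fixing four points permutes them. -/
theorem mem_stabilizer_of_commute [Finite Ω] (hfix : FixAtMostFour S Ω) {D : Set Ω}
    (hD : D.ncard = 4) {k c : S} (hk : k ∈ fixingSubgroup S D) (hk1 : k ≠ 1)
    (h : c * k = k * c) : c ∈ stabilizer S D := by
  have e := fixedBy_conj (Ω := Ω) k c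
  rw [h, mul_inv_cancel_right, fixedBy_eq hfix hk1 hD hk] at e
  exact mem_stabilizer_iff.mpr e.symm

/-- A conjugate fixes the translated set. -/
theorem conj_mem_fixingSubgroup {D : Set Ω} {k : S} (s : S) (hk : k ∈ fixingSubgroup S D) :
    s * k * s⁻¹ ∈ fixingSubgroup S (s • D) := by
  rw [mem_fixingSubgroup_iff] at hk ⊢
  rintro _ ⟨x, hx, rfl⟩
  simp only [mul_smul, inv_smul_smul, hk x hx]

/-- A conjugate fixing the same four points gives an element permuting them. -/
theorem mem_stabilizer_of_conj [Finite Ω] (hfix : FixAtMostFour S Ω) {D : Set Ω}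
    (hD : D.ncard = 4) {k s : S} (hk : k ∈ fixingSubgroup S D) (hk1 : k ≠ 1)
    (h : s * k * s⁻¹ ∈ fixingSubgroup S D) : s ∈ stabilizer S D := by
  refine mem_stabilizer_iff.mpr (eq_of_fixing hfix ?_ ?_ hD (conj_mem_fixingSubgroup s hk) h)
  · simpa using hk1
  · rw [← hD]
    exact Set.ncard_image_of_injective _ (MulAction.injective s)

/-- A power of two at most four and at least three is four. -/
theorem card_eq_four_of_lt [Finite S] (hS : IsPGroup 2 S) (H : Subgroup S)
    (h2 : 2 < Nat.card H) (h4 : Nat.card H ≤ 4) : Nat.card H = 4 := by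
  haveI : Fact (Nat.Prime 2) := ⟨Nat.prime_two⟩
  obtain ⟨i, hi⟩ := IsPGroup.iff_card.mp (hS.to_subgroup H)
  rw [hi] at h2 h4 ⊢
  have a1 : 1 < i := (Nat.pow_lt_pow_iff_right (le_refl 2)).mp (by simpa using h2)
  have a2 : i ≤ 2 := (Nat.pow_le_pow_iff_right (le_refl 2)).mp (by simpa using h4)
  obtain rfl : i = 2 := by omega
  rfl

/-- In a group of order four an element centralised by two others is central. -/
theorem commute_of_card_four [Finite S] (hS : IsPGroup 2 S) (H : Subgroup S)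
    (hH : Nat.card H = 4) {h k₁ k₂ : S} (h1 : k₁ ∈ H) (h2 : k₂ ∈ H) (n1 : k₁ ≠ 1) (n2 : k₂ ≠ 1)
    (ne : k₁ ≠ k₂) (c1 : h * k₁ = k₁ * h) (c2 : h * k₂ = k₂ * h) :
    ∀ k ∈ H, h * k = k * h := by
  classical
  set T := H ⊓ Subgroup.centralizer ({h} : Set S) with hT
  have mem : ∀ k, k ∈ H → h * k = k * h → k ∈ T := fun k a b =>
    Subgroup.mem_inf.mpr ⟨a, Subgroup.mem_centralizer_singleton_iff.mpr b.symm⟩
  have h3 : 2 < Nat.card T := by
    have : ({1, k₁, k₂} : Finset S).card ≤ Nat.card T := by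
      rw [← Set.ncard_coe_finset, show Nat.card T = (T : Set S).ncard from Nat.card_coe_set_eq _]
      refine Set.ncard_le_ncard ?_ (Set.toFinite _)
      intro x hx
      simp only [Finset.coe_insert, Finset.coe_singleton, Set.mem_insert_iff,
        Set.mem_singleton_iff] at hx
      rcases hx with rfl | rfl | rfl
      · exact T.one_mem
      · exact mem _ h1 c1
      · exact mem _ h2 c2
    rw [Finset.card_eq_three.mpr ⟨1, k₁, k₂, n1.symm, n2.symm, ne, rfl⟩] at this
    omega
  have hle : Nat.card T ≤ Nat.card H :=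
    Nat.card_le_card_of_injective _ (Subgroup.inclusion_injective inf_le_left)
  have hTH : T = H := Subgroup.eq_of_le_of_card_ge inf_le_left
    (by rw [hH, card_eq_four_of_lt hS T h3 (hH ▸ hle)])
  intro k hk
  rw [← hTH] at hk
  exact (Subgroup.mem_centralizer_singleton_iff.mp hk.2).symm

/-- The final step: a normal elementary abelian subgroup of order sixteen containing the
pointwise stabiliser. -/
theorem finish [Finite S] [Finite Ω] (hS : IsPGroup 2 S) (hfix : FixAtMostFour S Ω) {D : Set Ω}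
    (hD : D.ncard = 4) (hnot : stabilizer S D ≠ ⊤) (B : Subgroup S) [B.Normal]
    (hab : ∀ a ∈ B, ∀ b ∈ B, a * b = b * a) (h2 : ∀ a ∈ B, a ^ 2 = 1) (h16 : Nat.card B = 16)
    (hKB : fixingSubgroup S D ≤ B) (hK : Nat.card ↥(fixingSubgroup S D) = 4) :
    Cfsg.SectionalPRankLE 2 4 S := by
  classical
  haveI : Fact (Nat.Prime 2) := ⟨Nat.prime_two⟩
  set K := fixingSubgroup S D with hKdef
  haveI : Nontrivial K := Finite.one_lt_card_iff_nontrivial.mp (by omega)
  obtain ⟨⟨k₀, hk₀⟩, hk₀1⟩ := exists_ne (1 : K)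
  have hk₀ne : k₀ ≠ 1 := fun e => hk₀1 (Subtype.ext e)
  have hBN : B ≤ stabilizer S D := fun b hb =>
    mem_stabilizer_of_commute hfix hD hk₀ hk₀ne (hab b hb k₀ (hKB hk₀))
  set X := MulAction.orbit S D with hX
  have hrep : ∀ D' : X, ∃ s : S, s • D = (D' : Set Ω) := fun D' => D'.2
  choose r hr using hrep
  have hcard : ∀ D' : X, (D' : Set Ω).ncard = 4 := fun D' => by
    rw [← hr D', ← hD]
    exact Set.ncard_image_of_injective _ (MulAction.injective _)
  have hinB : ∀ (D' : X) (k : S), k ∈ K → r D' * k * (r D')⁻¹ ∈ B := fun D' k hk =>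
    Subgroup.Normal.conj_mem inferInstance k (hKB hk) _
  -- at most five conjugates
  have hc5 : X.ncard ≤ 5 := by
    have hinj : Function.Injective (fun p : X × {k : K // k ≠ 1} =>
        (⟨⟨r p.1 * (p.2.1 : S) * (r p.1)⁻¹, hinB _ _ p.2.1.2⟩, fun e => p.2.2
          (Subtype.ext (by simpa using congrArg Subtype.val e))⟩ : {b : B // b ≠ 1})) := by
      rintro ⟨D₁, k₁⟩ ⟨D₂, k₂⟩ e
      simp only [Subtype.mk.injEq] at e
      have m1 := conj_mem_fixingSubgroup (r D₁) k₁.1.2
      have m2 := conj_mem_fixingSubgroup (r D₂) k₂.1.2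
      rw [hr] at m1 m2
      rw [← e] at m2
      have n1 : r D₁ * (k₁.1 : S) * (r D₁)⁻¹ ≠ 1 := fun h =>
        k₁.2 (Subtype.ext (by simpa using h))
      obtain rfl : D₁ = D₂ := Subtype.ext (eq_of_fixing hfix n1 (hcard _) (hcard _) m1 m2)
      simp only [mul_left_inj, mul_right_inj] at e
      exact Prod.ext rfl (Subtype.ext (Subtype.ext e))
    have hle := Nat.card_le_card_of_injective _ hinj
    letI := Fintype.ofFinite K
    letI := Fintype.ofFinite B
    have e3 : Nat.card {k : K // k ≠ 1} = 3 := by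
      rw [Nat.card_eq_fintype_card, Fintype.card_subtype_compl, Fintype.card_subtype_eq,
        ← Nat.card_eq_fintype_card, hK]
    have e15 : Nat.card {b : B // b ≠ 1} = 15 := by
      rw [Nat.card_eq_fintype_card, Fintype.card_subtype_compl, Fintype.card_subtype_eq,
        ← Nat.card_eq_fintype_card, h16]
    rw [Nat.card_prod, e3, e15, Nat.card_coe_set_eq] at hle
    omega
  -- the index of the stabiliser
  obtain ⟨i, hi⟩ := hS.index (stabilizer S D)
  have hXi : X.ncard = 2 ^ i := by rw [hX, ← index_stabilizer, hi]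
  have hi0 : i ≠ 0 := by
    rintro rfl
    exact hnot (Subgroup.index_eq_one.mp (by simpa using hi))
  have hi2 : i ≤ 2 := by
    have hlt : 2 ^ i < 2 ^ 3 := by
      rw [← hXi]
      norm_num
      omega
    have := (Nat.pow_lt_pow_iff_right (le_refl 2)).mp hlt
    omega
  -- an element of the stabiliser centralising K lies in B
  have hCK : ∀ h : S, h ∈ stabilizer S D → (∀ k ∈ K, h * k = k * h) → h ∈ B := by
    intro h hh hcomm
    have hdvd : 2 ∣ Nat.card X := by
      rw [Nat.card_coe_set_eq, hXi]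
      exact dvd_pow_self 2 hi0
    have hfix0 : (⟨D, mem_orbit_self D⟩ : X) ∈ fixedPoints (Subgroup.zpowers h) X := by
      intro g
      exact Subtype.ext (mem_stabilizer_iff.mp (Subgroup.zpowers_le.mpr hh g.2))
    obtain ⟨D', hD', hne⟩ := (hS.to_subgroup (Subgroup.zpowers h))
      |>.exists_fixed_point_of_prime_dvd_card_of_fixed_point X hdvd hfix0
    have hneq : (D' : Set Ω) ≠ D := fun e => hne (Subtype.ext e.symm)
    have hh' : h ∈ stabilizer S (D' : Set Ω) :=
      mem_stabilizer_iff.mpr (congrArg Subtype.val (hD' ⟨h, Subgroup.mem_zpowers h⟩))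
    have hk' : r D' * k₀ * (r D')⁻¹ ∈ fixingSubgroup S (D' : Set Ω) :=
      hr D' ▸ conj_mem_fixingSubgroup (r D') hk₀
    have hk'1 : r D' * k₀ * (r D')⁻¹ ≠ 1 := by simpa using hk₀ne
    have hKN' : K ≤ stabilizer S (D' : Set Ω) := fun k hk =>
      mem_stabilizer_of_commute hfix (hcard D') hk' hk'1 (hab k (hKB hk) _ (hinB D' k₀ hk₀))
    have hbot : K ⊓ fixingSubgroup S (D' : Set Ω) = ⊥ := by
      rw [Subgroup.eq_bot_iff_forall]
      rintro k ⟨a, b⟩
      by_contra hk1
      exact hneq (eq_of_fixing hfix hk1 (hcard D') hD b a)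
    obtain ⟨a, ha, hah⟩ := mem_mul_of_commute (hcard D') K hKN'
      (fun a ha b hb => hab a (hKB ha) b (hKB hb)) (by rw [hbot, hK, Subgroup.card_bot]) hh' hcomm
    have hahB : a⁻¹ * h ∈ B := by
      obtain ⟨s, hs⟩ := D'.2
      have : s⁻¹ * (a⁻¹ * h) * s ∈ K := by
        have h1 := conj_mem_fixingSubgroup s⁻¹ hah
        rw [← hs, inv_smul_smul, inv_inv] at h1
        exact h1
      simpa [mul_assoc] using Subgroup.Normal.conj_mem inferInstance _ (hKB this) s
    simpa using B.mul_mem (hKB ha) hahB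
  -- the stabiliser has order at most thirty-two
  set N := stabilizer S D with hN
  have hconj : ∀ h ∈ N, ∀ k ∈ K, h * k * h⁻¹ ∈ K := fun h hh k hk => by
    have := conj_mem_fixingSubgroup h hk
    rwa [mem_stabilizer_iff.mp hh] at this
  have hN32 : Nat.card N ≤ 32 := by
    -- a point of K fixed by N
    let act : MulAction N K :=
      { smul := fun h k => ⟨h.1 * k.1 * h.1⁻¹, hconj _ h.2 _ k.2⟩
        one_smul := fun k => Subtype.ext (by show (1 : S) * k.1 * 1⁻¹ = k.1; simp)
        mul_smul := fun a b k => Subtype.ext (by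
          show (a.1 * b.1) * k.1 * (a.1 * b.1)⁻¹ = a.1 * (b.1 * k.1 * b.1⁻¹) * a.1⁻¹
          simp [mul_assoc]) }
    letI := act
    have hsmul : ∀ (h : N) (k : K), ((h • k : K) : S) = h.1 * k.1 * h.1⁻¹ := fun _ _ => rfl
    have hfix1 : (1 : K) ∈ fixedPoints N K := fun h => Subtype.ext (by simp [hsmul])
    obtain ⟨k₁, hk₁, hne⟩ := (hS.to_subgroup N).exists_fixed_point_of_prime_dvd_card_of_fixed_point
      K (by rw [hK]; norm_num) hfix1
    obtain ⟨k₂, hk₂⟩ : ∃ k₂ : K, k₂ ∉ ({1, k₁} : Finset K) := by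
      letI := Fintype.ofFinite K
      by_contra hall
      push Not at hall
      have := (Finset.card_le_card (fun k _ => hall k : Finset.univ ⊆ ({1, k₁} : Finset K))).trans
        Finset.card_le_two
      rw [Finset.card_univ, ← Nat.card_eq_fintype_card, hK] at this
      omega
    simp only [Finset.mem_insert, Finset.mem_singleton, not_or] at hk₂
    have hT : ∀ h : N, h • k₂ ≠ 1 ∧ h • k₂ ≠ k₁ := fun h =>
      ⟨fun e => hk₂.1 (MulAction.injective h (e.trans (hfix1 h).symm)),
        fun e => hk₂.2 (MulAction.injective h (e.trans (hk₁ h).symm))⟩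
    let T := {k : K // k ≠ 1 ∧ k ≠ k₁}
    have hTcard : Nat.card T ≤ 2 := by
      letI := Fintype.ofFinite K
      have h0 : ({1, k₁} : Finset K)ᶜ.card = 2 := by
        rw [Finset.card_compl, Finset.card_pair hne, ← Nat.card_eq_fintype_card, hK]
      rw [Nat.card_eq_fintype_card, Fintype.card_subtype, ← h0]
      refine Finset.card_le_card fun k hk => ?_
      simpa using hk
    let f : S → T := fun x => if hx : x ∈ N then ⟨(⟨x, hx⟩ : N) • k₂, hT _⟩
      else ⟨k₂, hk₂⟩
    have hb := Cfsg.Agent.Harada.card_le_mul_inter N B f fun x hx y hy e => by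
      simp only [f, dif_pos hx, dif_pos hy] at e
      refine hCK _ (N.mul_mem (N.inv_mem hx) hy) ?_
      have c2 : x⁻¹ * y * k₂.1 = k₂.1 * (x⁻¹ * y) := by
        have e' : (⟨x, hx⟩ : N) • k₂ = (⟨y, hy⟩ : N) • k₂ := congrArg Subtype.val e
        have : (⟨x, hx⟩ : N)⁻¹ • ((⟨y, hy⟩ : N) • k₂) = k₂ := by rw [← e', inv_smul_smul]
        rw [← mul_smul] at this
        have := congrArg Subtype.val this
        rw [hsmul] at this
        exact mul_inv_eq_iff_eq_mul.mp this
      have c1 : x⁻¹ * y * k₁.1 = k₁.1 * (x⁻¹ * y) := by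
        have := congrArg Subtype.val (hk₁ (⟨x, hx⟩⁻¹ * ⟨y, hy⟩ : N))
        rw [hsmul] at this
        exact mul_inv_eq_iff_eq_mul.mp this
      exact commute_of_card_four hS K hK k₁.2 k₂.2 (fun e => hne (Subtype.ext e).symm)
        (fun e => hk₂.1 (Subtype.ext e)) (fun e => hk₂.2 (Subtype.ext e).symm) c1 c2
    rw [inf_eq_right.mpr hBN, h16] at hb
    exact hb.trans (le_trans (Nat.mul_le_mul_right 16 hTcard) (by norm_num))
  have hidx : B.index ≤ 8 := by
    have e1 := B.card_mul_index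
    have e2 := N.card_mul_index
    rw [h16, ← e2, hi] at e1
    have : (2 : ℕ) ^ i ≤ 2 ^ 2 := Nat.pow_le_pow_right (by norm_num) hi2
    have : Nat.card N * 2 ^ i ≤ 32 * 4 := Nat.mul_le_mul hN32 this
    omega
  -- fixed points outside B
  refine sectional_of_self_centralizing_sixteen hS B hab h2 h16 hidx fun h hhB => ?_
  by_contra hgt
  push Not at hgt
  set F := B ⊓ Subgroup.centralizer ({h} : Set S) with hF
  have hFB : F ≤ B := inf_le_left
  have hFh : ∀ f ∈ F, h * f = f * h := fun f hf =>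
    (Subgroup.mem_centralizer_singleton_iff.mp hf.2).symm
  have habF : ∀ a ∈ F, ∀ b ∈ F, a * b = b * a := fun a ha b hb => hab a (hFB ha) b (hFB hb)
  have hle := card_le_four_mul hD F (hFB.trans hBN) habF
  set L := F ⊓ K with hL
  obtain ⟨l, hl, hl1⟩ : ∃ l ∈ L, l ≠ 1 := by
    by_contra hall
    push Not at hall
    have : L = ⊥ := by rwa [Subgroup.eq_bot_iff_forall]
    rw [this, Subgroup.card_bot] at hle
    omega
  have hhN : h ∈ stabilizer S D := mem_stabilizer_of_commute hfix hD hl.2 hl1 (hFh l hl.1)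
  have hL2 : Nat.card L ≤ 2 := by
    by_contra hL3
    push Not at hL3
    have hLK : Nat.card L ≤ 4 := hK ▸
      Nat.card_le_card_of_injective _ (Subgroup.inclusion_injective inf_le_right)
    have : L = K := Subgroup.eq_of_le_of_card_ge inf_le_right
      (by rw [hK, card_eq_four_of_lt hS L hL3 hLK])
    exact hhB (hCK h hhN fun k hk => hFh k (this.symm ▸ hk : k ∈ L).1)
  have hF8 : 8 ≤ Nat.card F := by
    obtain ⟨j, hj⟩ := IsPGroup.iff_card.mp (hS.to_subgroup F)
    rw [hj] at hgt ⊢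
    have : 2 < j := (Nat.pow_lt_pow_iff_right (le_refl 2)).mp (by simpa using hgt)
    exact le_trans (by norm_num) (Nat.pow_le_pow_right (by norm_num) this)
  obtain ⟨a, ha, hah⟩ := mem_mul_of_commute hD F (hFB.trans hBN) habF
    (le_trans (Nat.mul_le_mul_left 4 hL2) hF8) hhN hFh
  exact hhB (by simpa using B.mul_mem (hFB ha) (hKB hah))

/-- Membership in a join of elementwise commuting subgroups. -/
theorem exists_mul_of_mem_sup (P Q : Subgroup S) (h : ∀ p ∈ P, ∀ q ∈ Q, p * q = q * p) {x : S}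
    (hx : x ∈ P ⊔ Q) : ∃ p ∈ P, ∃ q ∈ Q, p * q = x := by
  rw [Subgroup.sup_eq_closure] at hx
  induction hx using Subgroup.closure_induction with
  | mem y hy =>
    rcases hy with hp | hq
    · exact ⟨y, hp, 1, Q.one_mem, mul_one y⟩
    · exact ⟨1, P.one_mem, y, hq, one_mul y⟩
  | one => exact ⟨1, P.one_mem, 1, Q.one_mem, mul_one 1⟩
  | inv a _ iha =>
    obtain ⟨p, hp, q, hq, rfl⟩ := iha
    exact ⟨p⁻¹, P.inv_mem hp, q⁻¹, Q.inv_mem hq, by
      rw [h p hp q hq, mul_inv_rev]⟩
  | mul a b _ _ iha ihb =>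
    obtain ⟨p, hp, q, hq, rfl⟩ := iha
    obtain ⟨p', hp', q', hq', rfl⟩ := ihb
    refine ⟨p * p', P.mul_mem hp hp', q * q', Q.mul_mem hq hq', ?_⟩
    calc p * p' * (q * q') = p * (p' * q) * q' := by group
      _ = p * q * (p' * q') := by rw [h p' hp' q hq]; group

theorem inv_eq_self_of_sq {x : S} (h : x ^ 2 = 1) : x⁻¹ = x :=
  inv_eq_of_mul_eq_one_right (by rw [← sq]; exact h)

/-- In an abelian group of exponent two an element outside a subgroup of index two takes every
element of the nontrivial coset into the subgroup. -/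
theorem mul_mem_of_index_two [Finite S] {P E : Subgroup S} (hPE : P ≤ E)
    (hcard : Nat.card E = 2 * Nat.card P) {a b : S} (ha : a ∈ E) (hb : b ∈ E) (ha' : a ∉ P)
    (hb' : b ∉ P) : a * b ∈ P := by
  have h2 : (P.subgroupOf E).index = 2 := by
    have h := (P.subgroupOf E).card_mul_index
    rw [Nat.card_congr (Subgroup.subgroupOfEquivOfLe hPE).toEquiv, hcard, mul_comm 2] at h
    exact Nat.eq_of_mul_eq_mul_left Nat.card_pos h
  have := (Subgroup.mul_mem_iff_of_index_two h2 (a := (⟨a, ha⟩ : E)) (b := ⟨b, hb⟩))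
  simp only [Subgroup.mem_subgroupOf, MulMemClass.coe_mul] at this
  exact this.mpr ⟨fun h => absurd h ha', fun h => absurd h hb'⟩

/-- Case (a): the normal elementary subgroup of order eight contains an element fixing the four
points. -/
theorem sectional_of_meet [Finite S] [Finite Ω] (hS : IsPGroup 2 S) (hfix : FixAtMostFour S Ω)
    {D : Set Ω} (hD : D.ncard = 4) (hK : Nat.card ↥(fixingSubgroup S D) ≤ 4)
    (hnot : stabilizer S D ≠ ⊤) (E : Subgroup S) [E.Normal]
    (hEab : ∀ a ∈ E, ∀ b ∈ E, a * b = b * a) (hE2 : ∀ a ∈ E, a ^ 2 = 1) (hE8 : Nat.card E = 8)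
    {v : S} (hvE : v ∈ E) (hv : v ∈ fixingSubgroup S D) (hv1 : v ≠ 1) :
    Cfsg.SectionalPRankLE 2 4 S := by
  classical
  set K := fixingSubgroup S D with hKdef
  have hEN : E ≤ stabilizer S D := fun e he =>
    mem_stabilizer_of_commute hfix hD hv hv1 (hEab e he v hvE)
  have hEK : Nat.card ↥(E ⊓ K) ≤ 2 := by
    by_contra h3
    push Not at h3
    have hle : Nat.card ↥(E ⊓ K) ≤ Nat.card K :=
      Nat.card_le_card_of_injective _ (Subgroup.inclusion_injective inf_le_right)
    have e4 := card_eq_four_of_lt hS _ h3 (hle.trans hK)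
    have hKE : K ≤ E := by
      have : E ⊓ K = K := Subgroup.eq_of_le_of_card_ge inf_le_right (by rw [e4]; exact hK)
      exact this ▸ inf_le_left
    have hK4 : Nat.card K = 4 := le_antisymm hK (e4 ▸ hle)
    apply hnot
    rw [eq_top_iff]
    intro s _
    by_contra hs
    have hinj : Function.Injective
        (fun p : K × K => (⟨(p.1 : S) * (s * p.2 * s⁻¹),
          E.mul_mem (hKE p.1.2) (Subgroup.Normal.conj_mem inferInstance _ (hKE p.2.2) s)⟩ : E)) := by
      rintro ⟨a, b⟩ ⟨a', b'⟩ e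
      have e' : (a : S) * (s * b * s⁻¹) = a' * (s * b' * s⁻¹) := congrArg Subtype.val e
      have h1 : (a' : S)⁻¹ * a = s * ((b' : S) * (b : S)⁻¹) * s⁻¹ := by
        calc (a' : S)⁻¹ * a = (a' : S)⁻¹ * ((a : S) * (s * b * s⁻¹)) * (s * b * s⁻¹)⁻¹ := by group
          _ = (a' : S)⁻¹ * (a' * (s * b' * s⁻¹)) * (s * b * s⁻¹)⁻¹ := by rw [e']
          _ = _ := by group
      by_cases hb : (b' : S) * (b : S)⁻¹ = 1
      · obtain rfl : b' = b := Subtype.ext (mul_inv_eq_one.mp hb)
        rw [mul_left_inj] at e'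
        exact Prod.ext (Subtype.ext e') rfl
      · exact absurd (mem_stabilizer_of_conj hfix hD (K.mul_mem b'.2 (K.inv_mem b.2)) hb
          (h1 ▸ K.mul_mem (K.inv_mem a'.2) a.2)) hs
    have := Nat.card_le_card_of_injective _ hinj
    rw [Nat.card_prod, hK4, hE8] at this
    omega
  have h4 : 4 * Nat.card ↥(E ⊓ K) ≤ Nat.card E := by rw [hE8]; omega
  set C := Subgroup.centralizer (E : Set S) with hC
  have hEC : E ≤ C := fun e he => Subgroup.mem_centralizer_iff.mpr fun a ha => hEab a ha e he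
  have hCE : ∀ c ∈ C, ∀ e ∈ E, c * e = e * c := fun c hc e he =>
    (Subgroup.mem_centralizer_iff.mp hc e he).symm
  have hdec : ∀ c ∈ C, ∃ e ∈ E, e⁻¹ * c ∈ K ∧ ∀ a ∈ E, (e⁻¹ * c) * a = a * (e⁻¹ * c) := by
    intro c hc
    obtain ⟨e, he, hec⟩ := mem_mul_of_commute hD E hEN hEab h4
      (mem_stabilizer_of_commute hfix hD hv hv1 (hCE c hc v hvE)) (hCE c hc)
    exact ⟨e, he, hec, fun a ha => hCE _ (C.mul_mem (C.inv_mem (hEC he)) hc) a ha⟩
  by_cases hall : ∀ k ∈ K, k ∈ C → k ∈ E
  · refine Cfsg.Agent.S1232.result hS E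
      ⟨⟨⟨fun a b => Subtype.ext (hEab a a.2 b b.2)⟩⟩, hE2⟩ hE8 (le_antisymm ?_ hEC)
    intro c hc
    obtain ⟨e, he, hec, hcom⟩ := hdec c hc
    have := E.mul_mem he (hall _ hec (C.mul_mem (C.inv_mem (hEC he)) hc))
    simpa using this
  push Not at hall
  obtain ⟨k, hkK, hkC, hkE⟩ := hall
  -- K centralises E
  have hKC : K ≤ C := by
    have hvk : v ≠ k := fun e => hkE (e ▸ hvE)
    have hK4 : Nat.card K = 4 := by
      refine card_eq_four_of_lt hS K ?_ hK
      have : ({1, v, k} : Finset S).card ≤ Nat.card K := by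
        rw [← Set.ncard_coe_finset, show Nat.card K = (K : Set S).ncard from Nat.card_coe_set_eq _]
        refine Set.ncard_le_ncard ?_ (Set.toFinite _)
        intro x hx
        simp only [Finset.coe_insert, Finset.coe_singleton, Set.mem_insert_iff,
          Set.mem_singleton_iff] at hx
        rcases hx with rfl | rfl | rfl
        · exact K.one_mem
        · exact hv
        · exact hkK
      rw [Finset.card_eq_three.mpr ⟨1, v, k, hv1.symm, fun e => hkE (e ▸ E.one_mem), hvk, rfl⟩]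
        at this
      omega
    intro x hx
    refine Subgroup.mem_centralizer_iff.mpr fun e he => ?_
    exact commute_of_card_four hS K hK4 hv hkK hv1 (fun e => hkE (e ▸ E.one_mem)) hvk
      (hEab e he v hvE) (hCE k hkC e he).symm x hx
  have hKab : ∀ a ∈ K, ∀ b ∈ K, a * b = b * a := by
    intro a ha b hb
    haveI : Fact (Nat.Prime 2) := ⟨Nat.prime_two⟩
    obtain ⟨i, hi⟩ := IsPGroup.iff_card.mp (hS.to_subgroup K)
    have hi2 : i ≤ 2 := (Nat.pow_le_pow_iff_right (le_refl 2)).mp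
      (show 2 ^ i ≤ 2 ^ 2 by rw [← hi]; simpa using hK)
    have : IsMulCommutative K := by
      interval_cases i
      · haveI : Subsingleton K := (Nat.card_eq_one_iff_unique.mp (by simpa using hi)).1
        exact ⟨⟨fun _ _ => Subsingleton.elim _ _⟩⟩
      · haveI : IsCyclic K := isCyclic_of_prime_card (p := 2) (by simpa using hi)
        exact IsCyclic.isMulCommutative
      · exact IsPGroup.isMulCommutative_of_card_eq_prime_sq (p := 2) hi
    exact congrArg Subtype.val (this.is_comm.comm ⟨a, ha⟩ ⟨b, hb⟩)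
  have hCab : ∀ a ∈ C, ∀ b ∈ C, a * b = b * a := by
    intro a ha b hb
    obtain ⟨e, he, hk, hcom⟩ := hdec a ha
    obtain ⟨e', he', hk', hcom'⟩ := hdec b hb
    calc a * b = e * ((e⁻¹ * a) * e') * (e'⁻¹ * b) := by group
      _ = (e * e') * ((e⁻¹ * a) * (e'⁻¹ * b)) := by rw [hcom e' he']; group
      _ = (e' * e) * ((e'⁻¹ * b) * (e⁻¹ * a)) := by rw [hEab e he e' he', hKab _ hk _ hk']
      _ = e' * (e * (e'⁻¹ * b)) * (e⁻¹ * a) := by group
      _ = b * a := by rw [← hcom' e he]; group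
  have hC2 : ∀ a ∈ C, a ^ 2 = 1 := by
    intro a ha
    obtain ⟨e, he, hk, hcom⟩ := hdec a ha
    set k' := e⁻¹ * a with hk'
    suffices ∀ x ∈ K, x ^ 2 = 1 by
      rw [show a = e * k' by rw [hk']; group, (Commute.mul_pow (hcom e he).symm 2), hE2 e he,
        this k' hk, one_mul]
    intro x hx
    by_contra hx2
    -- the unique nontrivial square is central
    apply hnot
    rw [eq_top_iff]
    intro s _
    refine mem_stabilizer_of_conj hfix hD (K.pow_mem hx 2) hx2 ?_
    have hCn : C.Normal := by rw [hC]; infer_instance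
    have hy : s * x * s⁻¹ ∈ C := hCn.conj_mem x (hKC hx) s
    obtain ⟨e', he', hk2, hcom2⟩ := hdec _ hy
    have : s * x ^ 2 * s⁻¹ = (e'⁻¹ * (s * x * s⁻¹)) ^ 2 := by
      rw [← conj_pow]
      conv_lhs => rw [show s * x * s⁻¹ = e' * (e'⁻¹ * (s * x * s⁻¹)) by group,
        Commute.mul_pow (hcom2 e' he').symm 2, hE2 e' he', one_mul]
    rw [this]
    exact K.pow_mem hk2 2
  have hCN : C ≤ stabilizer S D := fun c hc =>
    mem_stabilizer_of_commute hfix hD hv hv1 (hCE c hc v hvE)
  have hCK : C ⊓ K = K := inf_eq_right.mpr hKC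
  have hCcard := card_le_four_mul hD C hCN hCab
  rw [hCK] at hCcard
  have hC16 : Nat.card C = 16 ∧ Nat.card K = 4 := by
    haveI : Fact (Nat.Prime 2) := ⟨Nat.prime_two⟩
    have h9 : 8 < Nat.card C := by
      have hlt : E < C := lt_of_le_of_ne hEC fun e => hkE (e ▸ hkC)
      have := Set.ncard_lt_ncard (SetLike.coe_ssubset_coe.mpr hlt) (Set.toFinite _)
      rwa [← Nat.card_coe_set_eq, ← Nat.card_coe_set_eq, SetLike.coe_sort_coe,
        SetLike.coe_sort_coe, hE8] at this
    obtain ⟨j, hj⟩ := IsPGroup.iff_card.mp (hS.to_subgroup C)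
    have hj3 : 3 < j := (Nat.pow_lt_pow_iff_right (le_refl 2)).mp
      (show 2 ^ 3 < 2 ^ j by rw [← hj]; simpa using h9)
    have : 16 ≤ 2 ^ j := le_trans (by norm_num) (Nat.pow_le_pow_right (by norm_num) hj3)
    omega
  haveI : C.Normal := by rw [hC]; infer_instance
  exact finish hS hfix hD hnot C hCab hC2 hC16.1 hKC hC16.2

/-- A 2-group of fixity four with an involution whose four-point set it does not stabilise and
whose pointwise stabiliser has order at most four has sectional rank at most four. -/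
theorem sectional_of_involution {S Ω : Type*} [Group S] [Finite S] [MulAction S Ω] [Finite Ω]
    (hS : IsPGroup 2 S) (hfix : FixAtMostFour S Ω) (u : S) (hu : orderOf u = 2)
    (D : Set Ω) (hD : D.ncard = 4) (huD : u ∈ fixingSubgroup S D)
    (hK : Nat.card ↥(fixingSubgroup S D) ≤ 4) (hnot : stabilizer S D ≠ ⊤) :
    Cfsg.SectionalPRankLE 2 4 S := by
  classical
  haveI : Fact (Nat.Prime 2) := ⟨Nat.prime_two⟩
  by_cases hrank : ∀ A : Subgroup S, A.Normal → IsMulCommutative A → (∀ a ∈ A, a ^ 2 = 1) →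
      Nat.card A ≤ 4
  · exact Cfsg.Agent.S0501.result hS hrank
  push Not at hrank
  obtain ⟨A₀, hA₀, hA₀c, hA₀2, hA₀4⟩ := hrank
  haveI := hA₀
  obtain ⟨E, hEn, hle, hcard⟩ := Cfsg.Agent.Harada.exists_normal_card hS A₀ 3 (by
    obtain ⟨j, hj⟩ := IsPGroup.iff_card.mp (hS.to_subgroup A₀)
    rw [hj] at hA₀4 ⊢
    have : 2 < j := (Nat.pow_lt_pow_iff_right (le_refl 2)).mp (by simpa using hA₀4)
    exact Nat.pow_le_pow_right (by norm_num) this)
  haveI := hEn
  have hE8 : Nat.card E = 8 := by simpa using hcard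
  have hEab : ∀ a ∈ E, ∀ b ∈ E, a * b = b * a := fun a ha b hb =>
    congrArg Subtype.val (hA₀c.is_comm.comm ⟨a, hle ha⟩ ⟨b, hle hb⟩)
  have hE2 : ∀ a ∈ E, a ^ 2 = 1 := fun a ha => hA₀2 a (hle ha)
  by_cases hmeet : ∃ v ∈ E, v ∈ fixingSubgroup S D ∧ v ≠ 1
  · obtain ⟨v, hvE, hv, hv1⟩ := hmeet
    exact sectional_of_meet hS hfix hD hK hnot E hEab hE2 hE8 hvE hv hv1
  push Not at hmeet
  set K := fixingSubgroup S D with hKdef
  have hu1 : u ≠ 1 := fun e => by simp [e] at hu
  have hu2 : u ^ 2 = 1 := by rw [← hu]; exact pow_orderOf_eq_one u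
  -- subgroups of E centralised by a non-identity element of K
  have hsmall : ∀ k ∈ K, k ≠ 1 → Nat.card ↥(E ⊓ Subgroup.centralizer ({k} : Set S)) ≤ 4 := by
    intro k hk hk1
    have := card_le_four_mul hD (E ⊓ Subgroup.centralizer ({k} : Set S))
      (fun e he => mem_stabilizer_of_commute hfix hD hk hk1
        (Subgroup.mem_centralizer_singleton_iff.mp he.2))
      (fun a ha b hb => hEab a ha.1 b hb.1)
    rwa [show E ⊓ Subgroup.centralizer ({k} : Set S) ⊓ fixingSubgroup S D = ⊥ from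
      (Subgroup.eq_bot_iff_forall _).mpr fun x hx => hmeet x hx.1.1 hx.2,
      Subgroup.card_bot, mul_one] at this
  set V := E ⊓ Subgroup.centralizer ({u} : Set S) with hV
  have hVE : V ≤ E := inf_le_left
  have hVu : ∀ a ∈ V, a * u = u * a := fun a ha => Subgroup.mem_centralizer_singleton_iff.mp ha.2
  have hVab : ∀ a ∈ V, ∀ b ∈ V, a * b = b * a := fun a ha b hb => hEab a (hVE ha) b (hVE hb)
  have hVN : V ≤ stabilizer S D := fun a ha =>
    mem_stabilizer_of_commute hfix hD huD hu1 (hVu a ha)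
  have hVK : V ⊓ K = ⊥ :=
    (Subgroup.eq_bot_iff_forall _).mpr fun x hx => hmeet x (hVE hx.1) hx.2
  have huu : u⁻¹ = u := inv_eq_self_of_sq hu2
  have huu' : u * u = 1 := by rw [← sq]; exact hu2
  have hV4 : Nat.card V = 4 := by
    refine card_eq_four_of_lt hS V ?_ (hsmall u huD hu1)
    by_contra hlt
    push Not at hlt
    have hin : ∀ e ∈ E, e * (u * e * u) ∈ V := by
      intro e he
      have hc : u * e * u ∈ E := by simpa [huu] using hEn.conj_mem e he u
      refine Subgroup.mem_inf.mpr ⟨E.mul_mem he hc, Subgroup.mem_centralizer_singleton_iff.mpr ?_⟩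
      calc e * (u * e * u) * u = e * (u * e * (u * u)) := by group
        _ = e * (u * e) := by rw [huu', mul_one]
        _ = (u * u) * (e * (u * e)) := by rw [huu', one_mul]
        _ = u * ((u * e * u) * e) := by group
        _ = u * (e * (u * e * u)) := by rw [hEab _ hc e he]
    have hb := Cfsg.Agent.Harada.card_le_mul_inter E V
      (fun e : S => if he : e ∈ E then (⟨e * (u * e * u), hin e he⟩ : V) else 1)
      (fun x hx y hy e => by
        simp only [dif_pos hx, dif_pos hy, Subtype.mk.injEq] at e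
        refine Subgroup.mem_inf.mpr ⟨E.mul_mem (E.inv_mem hx) hy,
          Subgroup.mem_centralizer_singleton_iff.mpr ?_⟩
        have h1 : x⁻¹ * y = x * y := by rw [inv_eq_self_of_sq (hE2 x hx)]
        have hcx : u * x * u ∈ E := by simpa [huu] using hEn.conj_mem x hx u
        have hcy : u * y * u ∈ E := by simpa [huu] using hEn.conj_mem y hy u
        have h2 : u * (x * y) * u = x * y := by
          calc u * (x * y) * u = u * x * (u * u) * y * u := by rw [huu']; group
            _ = (x * x) * (u * x * u) * (u * y * u) := by rw [← sq x, hE2 x hx]; group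
            _ = x * (x * (u * x * u)) * (u * y * u) := by group
            _ = x * (y * (u * y * u)) * (u * y * u) := by rw [e]
            _ = (x * y) * ((u * y * u) ^ 2) := by rw [sq]; group
            _ = x * y := by rw [hE2 _ hcy, mul_one]
        rw [h1]
        calc x * y * u = u * (x * y) * u * u := by rw [h2]
          _ = u * (x * y) * (u * u) := by group
          _ = u * (x * y) := by rw [huu', mul_one])
    rw [inf_eq_right.mpr hVE, hE8] at hb
    have := hb.trans (Nat.mul_le_mul hlt hlt)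
    omega
  set A := V ⊔ Subgroup.zpowers u with hA
  have hVpow : ∀ a ∈ V, ∀ q ∈ Subgroup.zpowers u, a * q = q * a := by
    rintro a ha q ⟨n, rfl⟩
    exact Commute.zpow_right (hVu a ha) n
  have hzu : ∀ q ∈ Subgroup.zpowers u, q = 1 ∨ q = u := by
    rintro q ⟨n, rfl⟩
    rcases Int.even_or_odd' n with ⟨m, rfl | rfl⟩
    · left; simp [zpow_mul, hu2]
    · right; simp [zpow_add, zpow_mul, hu2]
  by_cases hall : ∀ k ∈ K, (∀ a ∈ V, k * a = a * k) → k ∈ Subgroup.zpowers u
  · have hAab : ∀ x ∈ A, ∀ y ∈ A, x * y = y * x := by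
      intro x hx y hy
      obtain ⟨p, hp, q, hq, rfl⟩ := exists_mul_of_mem_sup _ _ hVpow hx
      obtain ⟨p', hp', q', hq', rfl⟩ := exists_mul_of_mem_sup _ _ hVpow hy
      have hqq : q * q' = q' * q := by
        rcases hzu q hq with rfl | rfl <;> rcases hzu q' hq' with rfl | rfl <;> simp
      calc p * q * (p' * q') = p * (q * p') * q' := by group
        _ = (p * p') * (q * q') := by rw [← hVpow p' hp' q hq]; group
        _ = (p' * p) * (q' * q) := by rw [hVab p hp p' hp', hqq]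
        _ = p' * (p * q') * q := by group
        _ = p' * q' * (p * q) := by rw [hVpow p hp q' hq']; group
    have hA2 : ∀ x ∈ A, x ^ 2 = 1 := by
      intro x hx
      obtain ⟨p, hp, q, hq, rfl⟩ := exists_mul_of_mem_sup _ _ hVpow hx
      rw [Commute.mul_pow (hVpow p hp q hq), hE2 p (hVE hp), one_mul]
      rcases hzu q hq with rfl | rfl
      · exact one_pow 2
      · exact hu2
    have hA8 : Nat.card A = 8 := by
      have hAK : A ⊓ K = Subgroup.zpowers u := by
        refine le_antisymm ?_ (le_inf le_sup_right (Subgroup.zpowers_le.mpr huD))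
        rintro x ⟨hx, hxK⟩
        obtain ⟨p, hp, q, hq, rfl⟩ := exists_mul_of_mem_sup _ _ hVpow hx
        have hqK : q ∈ K := Subgroup.zpowers_le.mpr huD hq
        have hp1 : p = 1 := hmeet p (hVE hp) ((K.mul_mem_cancel_right hqK).mp hxK)
        simpa [hp1] using hq
      have h1 := card_le_four_mul hD A
        (sup_le hVN (Subgroup.zpowers_le.mpr (mem_stabilizer_of_commute hfix hD huD hu1 rfl))) hAab
      rw [hAK, Nat.card_zpowers, hu] at h1
      have hlt : V < A := lt_of_le_of_ne le_sup_left fun e => hu1 (hmeet u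
        (hVE (e.symm ▸ Subgroup.mem_sup_right (Subgroup.mem_zpowers u))) huD)
      have h2 := Set.ncard_lt_ncard (SetLike.coe_ssubset_coe.mpr hlt) (Set.toFinite _)
      rw [← Nat.card_coe_set_eq, ← Nat.card_coe_set_eq, SetLike.coe_sort_coe,
        SetLike.coe_sort_coe, hV4] at h2
      obtain ⟨j, hj⟩ := IsPGroup.iff_card.mp (hS.to_subgroup A)
      rw [hj] at h1 h2 ⊢
      have a1 : 2 < j := (Nat.pow_lt_pow_iff_right (le_refl 2)).mp (by simpa using h2)
      have a2 : j ≤ 3 := (Nat.pow_le_pow_iff_right (le_refl 2)).mp (by simpa using h1)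
      obtain rfl : j = 3 := by omega
      rfl
    refine Cfsg.Agent.S1232.result hS A ⟨⟨⟨fun a b => Subtype.ext (hAab a a.2 b b.2)⟩⟩, hA2⟩ hA8
      (le_antisymm ?_ fun a ha => Subgroup.mem_centralizer_iff.mpr fun b hb => hAab b hb a ha)
    intro c hc
    rw [Subgroup.mem_centralizer_iff] at hc
    have hcu : c * u = u * c := (hc u (Subgroup.mem_sup_right (Subgroup.mem_zpowers u))).symm
    have hcV : ∀ a ∈ V, c * a = a * c := fun a ha => (hc a (Subgroup.mem_sup_left ha)).symm
    obtain ⟨a, ha, hac⟩ := mem_mul_of_commute hD V hVN hVab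
      (by rw [← hKdef, hVK, Subgroup.card_bot, hV4])
      (mem_stabilizer_of_commute hfix hD huD hu1 hcu) hcV
    have hac' := hall _ hac fun b hb => by
      rw [mul_assoc, hcV b hb, ← mul_assoc, hVab _ (V.inv_mem ha) b hb, mul_assoc]
    simpa using A.mul_mem (Subgroup.mem_sup_left ha) (Subgroup.mem_sup_right hac')
  push Not at hall
  obtain ⟨k₁, hk₁, hk₁V, hk₁u⟩ := hall
  have hk₁1 : k₁ ≠ 1 := fun e => hk₁u (e ▸ one_mem _)
  have hk₁ne : u ≠ k₁ := fun e => hk₁u (e ▸ Subgroup.mem_zpowers u)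
  -- K has order four and centralises V
  have hK4 : Nat.card K = 4 := by
    refine card_eq_four_of_lt hS K ?_ hK
    have : ({1, u, k₁} : Finset S).card ≤ Nat.card K := by
      rw [← Set.ncard_coe_finset, show Nat.card K = (K : Set S).ncard from Nat.card_coe_set_eq _]
      refine Set.ncard_le_ncard ?_ (Set.toFinite _)
      intro x hx
      simp only [Finset.coe_insert, Finset.coe_singleton, Set.mem_insert_iff,
        Set.mem_singleton_iff] at hx
      rcases hx with rfl | rfl | rfl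
      · exact K.one_mem
      · exact huD
      · exact hk₁
    rw [Finset.card_eq_three.mpr ⟨1, u, k₁, hu1.symm, hk₁1.symm, hk₁ne, rfl⟩] at this
    omega
  have hVKc : ∀ a ∈ V, ∀ k ∈ K, a * k = k * a := fun a ha k hk =>
    commute_of_card_four hS K hK4 huD hk₁ hu1 hk₁1 hk₁ne (hVu a ha) (hk₁V a ha).symm k hk
  have hfixK : ∀ k ∈ K, k ≠ 1 → ∀ e ∈ E, e * k = k * e → e ∈ V := by
    intro k hk hk1 e he hek
    have hle : V ≤ E ⊓ Subgroup.centralizer ({k} : Set S) := fun a ha => Subgroup.mem_inf.mpr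
      ⟨hVE ha, Subgroup.mem_centralizer_singleton_iff.mpr (hVKc a ha k hk)⟩
    rw [Subgroup.eq_of_le_of_card_ge hle (by rw [hV4]; exact hsmall k hk hk1)]
    exact Subgroup.mem_inf.mpr ⟨he, Subgroup.mem_centralizer_singleton_iff.mpr hek⟩
  obtain ⟨e₀, he₀, he₀V⟩ : ∃ e₀ ∈ E, e₀ ∉ V := by
    by_contra hh
    push Not at hh
    have := Nat.card_le_card_of_injective _ (Subgroup.inclusion_injective (hh : E ≤ V))
    omega
  have h2V : Nat.card E = 2 * Nat.card V := by rw [hE8, hV4]
  have he₀2 : e₀ * e₀ = 1 := by rw [← sq]; exact hE2 e₀ he₀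
  -- conjugates of e₀ by elements centralising V
  have hout : ∀ y : S, (∀ a ∈ V, y * a = a * y) → y * e₀ * y⁻¹ ∉ V := by
    intro y hy hmem
    apply he₀V
    have : y⁻¹ * (y * e₀ * y⁻¹) * y = y * e₀ * y⁻¹ := by
      rw [mul_assoc, ← hy _ hmem]; group
    have e : e₀ = y * e₀ * y⁻¹ := by
      rw [← this]; group
    exact e ▸ hmem
  have htau : ∀ k ∈ K, e₀ * (k * e₀ * k⁻¹) ∈ V := fun k hk =>
    mul_mem_of_index_two hVE h2V he₀ (hEn.conj_mem e₀ he₀ k) he₀V
      (hout k fun a ha => (hVKc a ha k hk).symm)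
  let τ : K → V := fun k => ⟨e₀ * ((k : S) * e₀ * (k : S)⁻¹), htau k k.2⟩
  have hτinj : Function.Injective τ := by
    intro a b e
    have e' : (a : S) * e₀ * (a : S)⁻¹ = (b : S) * e₀ * (b : S)⁻¹ :=
      mul_left_cancel (congrArg Subtype.val e)
    by_contra hne
    apply he₀V
    refine hfixK ((b : S)⁻¹ * a) (K.mul_mem (K.inv_mem b.2) a.2)
      (fun h => hne (Subtype.ext (inv_mul_eq_one.mp h).symm)) e₀ he₀ ?_
    calc e₀ * ((b : S)⁻¹ * a) = (b : S)⁻¹ * ((b : S) * e₀ * (b : S)⁻¹) * a := by group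
      _ = (b : S)⁻¹ * ((a : S) * e₀ * (a : S)⁻¹) * a := by rw [e']
      _ = (b : S)⁻¹ * a * e₀ := by group
  have hτsurj : Function.Surjective τ :=
    (hτinj.bijective_of_nat_card_le (by rw [hV4, hK4])).2
  have hK2 : ∀ k ∈ K, k ^ 2 = 1 := by
    intro k hk
    by_contra hne
    apply he₀V
    refine hfixK (k ^ 2) (K.pow_mem hk 2) hne e₀ he₀ ?_
    set w := k * e₀ * k⁻¹ with hw
    have hwv : k * (e₀ * w) * k⁻¹ = e₀ * w := by
      simp only [hw]; rw [← hVKc _ (htau k hk) k hk]; group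
    have : k * w * k⁻¹ = e₀ := by
      calc k * w * k⁻¹ = k * e₀⁻¹ * k⁻¹ * (k * (e₀ * w) * k⁻¹) := by group
        _ = k * e₀ * k⁻¹ * (e₀ * w) := by rw [hwv, inv_eq_self_of_sq (hE2 e₀ he₀)]
        _ = w * (w * e₀) := by rw [← hw, hEab e₀ he₀ w (hEn.conj_mem e₀ he₀ k)]
        _ = e₀ := by rw [← mul_assoc, ← sq, hE2 w (hEn.conj_mem e₀ he₀ k), one_mul]
    calc e₀ * k ^ 2 = k * w * k⁻¹ * k ^ 2 := by rw [this]
      _ = k ^ 2 * e₀ := by rw [hw, sq]; group
  have hKab : ∀ a ∈ K, ∀ b ∈ K, a * b = b * a := by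
    intro a ha b hb
    have h1 := inv_eq_self_of_sq (hK2 a ha)
    have h2 := inv_eq_self_of_sq (hK2 b hb)
    calc a * b = (a * b)⁻¹ := (inv_eq_self_of_sq (hK2 _ (K.mul_mem ha hb))).symm
      _ = b * a := by rw [mul_inv_rev, h1, h2]
  -- V is normal
  obtain ⟨P, hP, hPE, hPcard⟩ := Cfsg.Agent.Harada.exists_normal_card hS E 2 (by rw [hE8]; norm_num)
  haveI hVn : V.Normal := by
    have hle' : V ≤ P := by
      intro a ha
      obtain ⟨k, hk⟩ := hτsurj ⟨a, ha⟩
      have hk' : e₀ * ((k : S) * e₀ * (k : S)⁻¹) = a := congrArg Subtype.val hk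
      rw [← hk']
      by_cases hp : e₀ ∈ P
      · exact P.mul_mem hp (hP.conj_mem e₀ hp k)
      · refine mul_mem_of_index_two hPE (by rw [hE8, hPcard]; norm_num) he₀
          (hEn.conj_mem e₀ he₀ k) hp fun h => hp ?_
        simpa [mul_assoc] using hP.conj_mem _ h (k : S)⁻¹
    rw [Subgroup.eq_of_le_of_card_ge hle' (by rw [hPcard, hV4]; norm_num)]
    exact hP
  set C := Subgroup.centralizer (E : Set S) with hC
  haveI hCn : C.Normal := by rw [hC]; infer_instance
  have hCE : ∀ c ∈ C, ∀ e ∈ E, c * e = e * c := fun c hc e he =>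
    (Subgroup.mem_centralizer_iff.mp hc e he).symm
  have hEC : E ≤ C := fun e he => Subgroup.mem_centralizer_iff.mpr fun a ha => hEab a ha e he
  have hCK1 : ∀ k ∈ K, k ∈ C → k = 1 := by
    intro k hk hkC
    by_contra hk1
    exact he₀V (hfixK k hk hk1 e₀ he₀ (hCE k hkC e₀ he₀).symm)
  -- centralisers in C of elements of K
  have hCk : ∀ k ∈ K, k ≠ 1 → ∀ c ∈ C, c * k = k * c → c ∈ V := by
    intro k hk hk1 c hc hck
    obtain ⟨a, ha, hac⟩ := mem_mul_of_commute hD V hVN hVab
      (by rw [← hKdef, hVK, Subgroup.card_bot, hV4])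
      (mem_stabilizer_of_commute hfix hD hk hk1 hck) (fun a ha => hCE c hc a (hVE ha))
    have := hCK1 _ hac (C.mul_mem (C.inv_mem (hEC (hVE ha))) hc)
    rw [inv_mul_eq_one] at this
    exact this ▸ ha
  -- C has at most one coset outside E
  have hcoset : ∀ a ∈ C, ∀ b ∈ C, a ∉ E → b ∉ E → a * b ∈ E := by
    intro a ha b hb haE hbE
    have hne : E ≠ C := fun e => haE (e ▸ ha)
    obtain ⟨c₁, hc₁, hc₁E, hc₁2, hc₁s⟩ := Cfsg.Agent.Harada.exists_step hS E C hEC hne
    obtain ⟨N₁, hN₁, hEN₁, hc₁N, hN₁card, hN₁mem⟩ :=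
      Cfsg.Agent.Harada.exists_double E hc₁E hc₁2 hc₁s
    have hN₁C : N₁ ≤ C := fun x hx => by
      rcases (hN₁mem x).1 hx with h | h
      · exact hEC h
      · simpa using C.mul_mem hc₁ (hEC h)
    by_cases hN₁eq : N₁ = C
    · exact mul_mem_of_index_two hEC (hN₁eq ▸ hN₁card) ha hb haE hbE
    exfalso
    haveI := hN₁
    obtain ⟨c₂, hc₂, hc₂N, hc₂2, hc₂s⟩ := Cfsg.Agent.Harada.exists_step hS N₁ C hN₁C hN₁eq
    obtain ⟨N₂, hN₂, hN₁N₂, hc₂N₂, hN₂card, hN₂mem⟩ :=
      Cfsg.Agent.Harada.exists_double N₁ hc₂N hc₂2 hc₂s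
    have hN₂C : N₂ ≤ C := fun x hx => by
      rcases (hN₂mem x).1 hx with h | h
      · exact hN₁C h
      · simpa using C.mul_mem hc₂ (hN₁C h)
    -- some non-identity element of K is trivial modulo E
    let P' : S → S → Prop := fun k d => d⁻¹ * (k * d * k⁻¹) ∈ E
    have hPmul : ∀ k d d', P' k d → P' k d' → P' k (d * d') := by
      intro k d d' h h'
      show (d * d')⁻¹ * (k * (d * d') * k⁻¹) ∈ E
      rw [show (d * d')⁻¹ * (k * (d * d') * k⁻¹) =
        (d'⁻¹ * (d⁻¹ * (k * d * k⁻¹)) * d') * (d'⁻¹ * (k * d' * k⁻¹)) by group]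
      exact E.mul_mem (by simpa using hEn.conj_mem _ h d'⁻¹) h'
    have hPE : ∀ k, ∀ e ∈ E, P' k e := fun k e he =>
      E.mul_mem (E.inv_mem he) (hEn.conj_mem e he k)
    have hPN₁ : ∀ k, ∀ d ∈ N₁, P' k d := by
      intro k d hd
      have hc : P' k c₁ := by
        show c₁⁻¹ * (k * c₁ * k⁻¹) ∈ E
        simpa [mul_assoc] using hEn.conj_mem _ (hc₁s k) c₁⁻¹
      rcases (hN₁mem d).1 hd with h | h
      · exact hPE k d h
      · simpa using hPmul k _ _ hc (hPE k _ h)
    have hex : ∃ k ∈ K, k ≠ 1 ∧ P' k c₂ := by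
      by_contra hnone
      push Not at hnone
      have hk12 : u * k₁ ≠ 1 := fun e => hk₁ne (by
        rw [← huu]; exact inv_eq_of_mul_eq_one_right e)
      apply hnone _ (K.mul_mem huD hk₁) hk12
      -- both u and k₁ move c₂ into the same coset
      have key : ∀ k ∈ K, k ≠ 1 → c₁⁻¹ * (c₂⁻¹ * (k * c₂ * k⁻¹)) ∈ E := by
        intro k hk hk1
        have hmem : c₂⁻¹ * (k * c₂ * k⁻¹) ∈ N₁ := by
          simpa [mul_assoc] using hN₁.conj_mem _ (hc₂s k) c₂⁻¹
        exact ((hN₁mem _).1 hmem).resolve_left (hnone k hk hk1)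
      set x := c₂⁻¹ * (u * c₂ * u⁻¹) with hx
      set y := c₂⁻¹ * (k₁ * c₂ * k₁⁻¹) with hy
      have hxy : x * y ∈ E := by
        refine mul_mem_of_index_two hEN₁ hN₁card ?_ ?_ (hnone u huD hu1) (hnone k₁ hk₁ hk₁1)
        · exact (hN₁mem _).2 (Or.inr (key u huD hu1))
        · exact (hN₁mem _).2 (Or.inr (key k₁ hk₁ hk₁1))
      have hyu : y⁻¹ * (u * y * u⁻¹) ∈ E := hPN₁ u y ((hN₁mem _).2 (Or.inr (key k₁ hk₁ hk₁1)))
      show c₂⁻¹ * (u * k₁ * c₂ * (u * k₁)⁻¹) ∈ E
      rw [show c₂⁻¹ * (u * k₁ * c₂ * (u * k₁)⁻¹) = (x * y) * (y⁻¹ * (u * y * u⁻¹)) by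
        rw [hx, hy]; group]
      exact E.mul_mem hxy hyu
    obtain ⟨k, hk, hk1, hkc⟩ := hex
    have hPN₂ : ∀ d ∈ N₂, P' k d := by
      intro d hd
      rcases (hN₂mem d).1 hd with h | h
      · exact hPN₁ k d h
      · simpa using hPmul k _ _ hkc (hPN₁ k _ h)
    have hval : ∀ d ∈ N₂, d⁻¹ * (k * d * k⁻¹) ∈ V := by
      intro d hd
      have hkk := inv_eq_self_of_sq (hK2 k hk)
      have hz := hPN₂ d hd
      refine hfixK k hk hk1 _ hz ?_
      have hdz : d * (d⁻¹ * (k * d * k⁻¹)) = (d⁻¹ * (k * d * k⁻¹)) * d :=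
        hCE d (hN₂C hd) _ hz
      have h1 : k * (d⁻¹ * (k * d * k⁻¹)) * k⁻¹ = (d⁻¹ * (k * d * k⁻¹))⁻¹ := by
        have h3 : k * k = 1 := by rw [← sq]; exact hK2 k hk
        calc k * (d⁻¹ * (k * d * k⁻¹)) * k⁻¹ = k * d⁻¹ * k * d * (k * k)⁻¹ := by group
          _ = (k * d⁻¹ * k⁻¹) * d := by rw [h3, hkk]; group
          _ = _ := by
            have h4 : (d⁻¹ * (k * d * k⁻¹))⁻¹ = k * d⁻¹ * k⁻¹ * d := by group
            rw [h4]
      rw [inv_eq_self_of_sq (hE2 _ hz)] at h1
      exact (mul_inv_eq_iff_eq_mul.mp h1).symm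
    have hb := Cfsg.Agent.Harada.card_le_mul_inter N₂ V
      (fun d : S => if hd : d ∈ N₂ then (⟨d⁻¹ * (k * d * k⁻¹), hval d hd⟩ : V) else 1)
      (fun x hx y hy e => by
        simp only [dif_pos hx, dif_pos hy, Subtype.mk.injEq] at e
        refine hCk k hk hk1 _ (C.mul_mem (C.inv_mem (hN₂C hx)) (hN₂C hy)) ?_
        have hxV := hval x hx
        have h5 : k * (x⁻¹ * y) * k⁻¹ = x⁻¹ * y := by
          calc k * (x⁻¹ * y) * k⁻¹ = (x⁻¹ * (k * x * k⁻¹))⁻¹ * (x⁻¹ * y) *
              (y⁻¹ * (k * y * k⁻¹)) := by group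
            _ = (x⁻¹ * (k * x * k⁻¹))⁻¹ * ((x⁻¹ * y) * (x⁻¹ * (k * x * k⁻¹))) := by
              rw [← e]; group
            _ = _ := by
              rw [hCE _ (C.mul_mem (C.inv_mem (hN₂C hx)) (hN₂C hy)) _ (hVE hxV)]; group
        exact (mul_inv_eq_iff_eq_mul.mp h5).symm)
    have hN32 : Nat.card N₂ = 32 := by rw [hN₂card, hN₁card, hE8]
    rw [hN32, hV4] at hb
    have : Nat.card ↥(N₂ ⊓ V) ≤ 4 := hV4 ▸
      Nat.card_le_card_of_injective _ (Subgroup.inclusion_injective inf_le_right)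
    omega
  -- decomposition of the centraliser of V
  have hdec : ∀ y : S, (∀ a ∈ V, y * a = a * y) → ∃ c ∈ C, ∃ k ∈ K, y = c * k := by
    intro y hy
    have hyE := hEn.conj_mem e₀ he₀ y
    obtain ⟨k, hk⟩ := hτsurj ⟨_, mul_mem_of_index_two hVE h2V he₀ hyE he₀V (hout y hy)⟩
    have hk' : (k : S) * e₀ * (k : S)⁻¹ = y * e₀ * y⁻¹ := mul_left_cancel (congrArg Subtype.val hk)
    refine ⟨y * (k : S)⁻¹, ?_, k, k.2, by group⟩
    have hkk := inv_eq_self_of_sq (hK2 k k.2)
    have hcV : ∀ a ∈ V, y * (k : S)⁻¹ * a = a * (y * (k : S)⁻¹) := fun a ha => by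
      rw [mul_assoc, ← hVKc a ha _ (K.inv_mem k.2), ← mul_assoc, hy a ha, mul_assoc]
    have hce : y * (k : S)⁻¹ * e₀ * (y * (k : S)⁻¹)⁻¹ = e₀ := by
      set z := y * e₀ * y⁻¹ with hz
      have hzk : (k : S)⁻¹ * e₀ * k = z := by
        rw [← hk']
        rw [hkk]
      have hv := htau k k.2
      calc y * (k : S)⁻¹ * e₀ * (y * (k : S)⁻¹)⁻¹ = y * ((k : S)⁻¹ * e₀ * k) * y⁻¹ := by group
        _ = y * (e₀⁻¹)⁻¹ * ((e₀⁻¹) * ((k : S) * e₀ * (k : S)⁻¹)) * y⁻¹ := by
          rw [hzk, ← hk']; group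
        _ = y * e₀ * ((e₀ * ((k : S) * e₀ * (k : S)⁻¹)) * y⁻¹) := by
          rw [inv_eq_self_of_sq (hE2 e₀ he₀), inv_eq_self_of_sq (hE2 e₀ he₀)]; group
        _ = z * (e₀ * z) := by
          rw [hk']
          rw [show (e₀ * z) * y⁻¹ = y⁻¹ * (e₀ * z) from
            (by
              have := hy _ (hk' ▸ hv)
              calc e₀ * z * y⁻¹ = y⁻¹ * (y * (e₀ * z)) * y⁻¹ := by group
                _ = y⁻¹ * ((e₀ * z) * y) * y⁻¹ := by rw [this]
                _ = y⁻¹ * (e₀ * z) := by group)]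
          rw [hz]; group
        _ = e₀ := by
          rw [hEab e₀ he₀ z hyE, ← mul_assoc, ← sq, hE2 z hyE, one_mul]
    have hcomm : y * (k : S)⁻¹ * e₀ = e₀ * (y * (k : S)⁻¹) := mul_inv_eq_iff_eq_mul.mp hce
    refine Subgroup.mem_centralizer_iff.mpr fun e he => ?_
    by_cases heV : e ∈ V
    · exact (hcV e heV).symm
    · have hm := mul_mem_of_index_two hVE h2V he₀ he he₀V heV
      have h3 : e = e₀ * (e₀ * e) := by rw [← mul_assoc, he₀2, one_mul]
      rw [h3]
      exact ((show Commute (y * (k : S)⁻¹) e₀ from hcomm).mul_right (hcV _ hm)).symm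
  -- all conjugates of K lie in VK
  set B := V ⊔ K with hB
  have hconjB : ∀ s : S, ∀ x ∈ K, s * x * s⁻¹ ∈ B := by
    intro s
    have hcomV : ∀ x ∈ K, ∀ a ∈ V, s * x * s⁻¹ * a = a * (s * x * s⁻¹) := by
      intro x hx a ha
      have h := hVKc (s⁻¹ * a * s) (by simpa using hVn.conj_mem a ha s⁻¹) x hx
      calc s * x * s⁻¹ * a = s * (x * (s⁻¹ * a * s)) * s⁻¹ := by group
        _ = s * ((s⁻¹ * a * s) * x) * s⁻¹ := by rw [h]
        _ = a * (s * x * s⁻¹) := by group
    -- a non-identity element of the conjugate inside EK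
    have hex : ∃ x ∈ K, x ≠ 1 ∧ ∃ e ∈ E, ∃ k ∈ K, s * x * s⁻¹ = e * k := by
      obtain ⟨a, ha, p, hp, hx₁⟩ := hdec _ (hcomV u huD)
      obtain ⟨b, hb, q, hq, hx₂⟩ := hdec _ (hcomV k₁ hk₁)
      by_cases haE : a ∈ E
      · exact ⟨u, huD, hu1, a, haE, p, hp, hx₁⟩
      by_cases hbE : b ∈ E
      · exact ⟨k₁, hk₁, hk₁1, b, hbE, q, hq, hx₂⟩
      refine ⟨u * k₁, K.mul_mem huD hk₁, fun e => hk₁ne (by
        rw [← huu]; exact inv_eq_of_mul_eq_one_right e), a * (p * b * p⁻¹), ?_, p * q,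
        K.mul_mem hp hq, ?_⟩
      · refine hcoset a ha _ (hCn.conj_mem b hb p) haE fun h => hbE ?_
        simpa [mul_assoc] using hEn.conj_mem _ h p⁻¹
      · calc s * (u * k₁) * s⁻¹ = (s * u * s⁻¹) * (s * k₁ * s⁻¹) := by group
          _ = _ := by rw [hx₁, hx₂]; group
    obtain ⟨x, hx, hx1, e, he, k, hk, hxe⟩ := hex
    have hxne : s * x * s⁻¹ ≠ 1 := by simpa using hx1
    have hxsq : (s * x * s⁻¹) * (s * x * s⁻¹) = 1 := by
      rw [← sq, conj_pow, hK2 x hx, mul_one, mul_inv_cancel]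
    -- k is nontrivial and e lies in V
    have hk1 : k ≠ 1 := by
      intro h1
      apply he₀V
      have hxk : x ∈ C := by
        have := hCn.conj_mem _ (hxe.trans (by rw [h1, mul_one]) ▸ hEC he : s * x * s⁻¹ ∈ C) s⁻¹
        simpa [mul_assoc] using this
      exact absurd (hCK1 x hx hxk) hx1
    have heV : e ∈ V := by
      refine hfixK k hk hk1 e he ?_
      rw [hxe] at hxsq
      calc e * k = (e * k)⁻¹ := (inv_eq_of_mul_eq_one_right hxsq).symm
        _ = k * e := by
          rw [mul_inv_rev, inv_eq_self_of_sq (hK2 k hk), inv_eq_self_of_sq (hE2 e he)]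
    intro y hy
    obtain ⟨c, hc, l, hl, hyl⟩ := hdec _ (hcomV y hy)
    have hcl : (c * l) * (e * k) = (e * k) * (c * l) := by
      rw [← hyl, ← hxe]
      calc s * y * s⁻¹ * (s * x * s⁻¹) = s * (y * x) * s⁻¹ := by group
        _ = s * (x * y) * s⁻¹ := by rw [hKab y hy x hx]
        _ = s * x * s⁻¹ * (s * y * s⁻¹) := by group
    have hce : c * k = k * c := by
      have hel : l * e = e * l := (hVKc e heV l hl).symm
      have hec : c * e = e * c := hCE c hc e he
      have h6 : e * (c * k) * l = e * (k * c) * l := by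
        calc e * (c * k) * l = (e * c) * (k * l) := by group
          _ = (c * e) * (l * k) := by rw [hec, hKab k hk l hl]
          _ = c * (e * l) * k := by group
          _ = c * (l * e) * k := by rw [hel]
          _ = (c * l) * (e * k) := by group
          _ = (e * k) * (c * l) := hcl
          _ = e * (k * c) * l := by group
      exact mul_left_cancel (mul_right_cancel h6)
    rw [hyl]
    exact B.mul_mem (Subgroup.mem_sup_left (hCk k hk hk1 c hc hce)) (Subgroup.mem_sup_right hl)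
  haveI hBn : B.Normal := ⟨fun z hz s => by
    obtain ⟨p, hp, q, hq, rfl⟩ := exists_mul_of_mem_sup _ _ hVKc hz
    rw [show s * (p * q) * s⁻¹ = (s * p * s⁻¹) * (s * q * s⁻¹) by group]
    exact B.mul_mem (Subgroup.mem_sup_left (hVn.conj_mem p hp s)) (hconjB s q hq)⟩
  have hBab : ∀ x ∈ B, ∀ y ∈ B, x * y = y * x := by
    intro x hx y hy
    obtain ⟨p, hp, q, hq, rfl⟩ := exists_mul_of_mem_sup _ _ hVKc hx
    obtain ⟨p', hp', q', hq', rfl⟩ := exists_mul_of_mem_sup _ _ hVKc hy
    calc p * q * (p' * q') = p * (q * p') * q' := by group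
      _ = (p * p') * (q * q') := by rw [← hVKc p' hp' q hq]; group
      _ = (p' * p) * (q' * q) := by rw [hVab p hp p' hp', hKab q hq q' hq']
      _ = p' * (p * q') * q := by group
      _ = p' * q' * (p * q) := by rw [hVKc p hp q' hq']; group
  have hB2 : ∀ x ∈ B, x ^ 2 = 1 := by
    intro x hx
    obtain ⟨p, hp, q, hq, rfl⟩ := exists_mul_of_mem_sup _ _ hVKc hx
    rw [Commute.mul_pow (hVKc p hp q hq), hE2 p (hVE hp), hK2 q hq, one_mul]
  have hB16 : Nat.card B = 16 := by
    have hinj : Function.Injective (fun p : V × K => (⟨(p.1 : S) * (p.2 : S),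
        B.mul_mem (Subgroup.mem_sup_left p.1.2) (Subgroup.mem_sup_right p.2.2)⟩ : B)) := by
      rintro ⟨a, b⟩ ⟨a', b'⟩ e
      have e' : (a : S) * b = a' * b' := congrArg Subtype.val e
      have h1 : (a' : S)⁻¹ * a = b' * (b : S)⁻¹ := by
        rw [eq_mul_inv_iff_mul_eq, mul_assoc, e', inv_mul_cancel_left]
      have h2 := hmeet _ (hVE (V.mul_mem (V.inv_mem a'.2) a.2))
        (h1 ▸ K.mul_mem b'.2 (K.inv_mem b.2))
      obtain rfl : a' = a := Subtype.ext (inv_mul_eq_one.mp h2)
      exact Prod.ext rfl (Subtype.ext (mul_left_cancel e'))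
    have hsurj : Function.Surjective (fun p : V × K => (⟨(p.1 : S) * (p.2 : S),
        B.mul_mem (Subgroup.mem_sup_left p.1.2) (Subgroup.mem_sup_right p.2.2)⟩ : B)) := by
      rintro ⟨z, hz⟩
      obtain ⟨p, hp, q, hq, rfl⟩ := exists_mul_of_mem_sup _ _ hVKc hz
      exact ⟨(⟨p, hp⟩, ⟨q, hq⟩), rfl⟩
    rw [← Nat.card_congr (Equiv.ofBijective _ ⟨hinj, hsurj⟩), Nat.card_prod, hV4, hK4]
  exact finish hS hfix hD hnot B hBab hB2 hB16 le_sup_right hK4

end Cfsg.Agent.Fix4
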