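import Mathlib
import Cfsg.Agent.S0215
import Cfsg.Agent.RankOne.Inverted

/-!
# An isolated involution and a four-group with good centralisers (S3365)
-/

set_option autoImplicit false
set_option linter.unusedVariables false

namespace Cfsg.Agent.Fix4

/-- A Sylow 2-subgroup through an involution whose `K`-meeting conjugates are trivial lies in
`K`, provided `K` contains the centraliser of the involution. -/
theorem exists_sylow_le_of_isolated {X : Type*} [Group X] [Finite X] (K : Subgroup X) (z : X)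
    (hz : orderOf z = 2) (hzK : z ∈ K) (hC : ∀ g : X, g * z = z * g → g ∈ K)
    (hiso : ∀ g : X, g * z * g⁻¹ ∈ K → g * z * g⁻¹ = z) :
    ∃ Q : Sylow 2 X, z ∈ Q ∧ (Q : Subgroup X) ≤ K := by
  have : Fact (Nat.Prime 2) := ⟨Nat.prime_two⟩
  have hzp : IsPGroup 2 (Subgroup.zpowers (⟨z, hzK⟩ : K)) := by
    refine IsPGroup.of_card (n := 1) ?_
    rw [Nat.card_zpowers, pow_one, ← hz]
    exact orderOf_injective K.subtype Subtype.val_injective ⟨z, hzK⟩ |>.symm
  obtain ⟨P, hP⟩ := hzp.exists_le_sylow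
  set P1 : Subgroup X := (P : Subgroup K).map K.subtype with hP1
  have hP1p : IsPGroup 2 P1 := P.isPGroup'.map K.subtype
  have hP1K : P1 ≤ K := Subgroup.map_subtype_le _
  have hzP1 : z ∈ P1 := ⟨⟨z, hzK⟩, hP (Subgroup.mem_zpowers _), rfl⟩
  obtain ⟨Q, hQ⟩ := hP1p.exists_le_sylow
  refine ⟨Q, hQ hzP1, ?_⟩
  have hmax : ∀ R : Subgroup X, R ≤ K → IsPGroup 2 R → P1 ≤ R → R = P1 := by
    intro R hRK hRp hle
    have h := P.is_maximal' (hRp.comap_of_injective K.subtype Subtype.val_injective)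
      (fun x hx => hle ⟨x, hx, rfl⟩)
    refine le_antisymm (fun x hx => ?_) hle
    refine ⟨⟨x, hRK hx⟩, ?_, rfl⟩
    rw [← h]
    exact hx
  have hQP : (Q : Subgroup X) ≤ P1 := by
    by_contra hne
    have hnil : Group.IsNilpotent (Q : Subgroup X) := Q.isPGroup'.isNilpotent
    have hlt : P1.subgroupOf (Q : Subgroup X) < ⊤ := by
      rw [lt_top_iff_ne_top, Ne, Subgroup.subgroupOf_eq_top]
      exact hne
    obtain ⟨g, hgN, hg⟩ := SetLike.exists_of_lt
      (Group.normalizerCondition_of_isNilpotent (P1.subgroupOf (Q : Subgroup X)) hlt)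
    apply hg
    rw [Subgroup.mem_subgroupOf]
    have hzQ : z ∈ (Q : Subgroup X) := hQ hzP1
    have hconj : (g : X) * z * (g : X)⁻¹ ∈ P1 := by
      have h := (Subgroup.mem_normalizer_iff.mp hgN ⟨z, hzQ⟩).mp
        (Subgroup.mem_subgroupOf.mpr hzP1)
      simpa [Subgroup.mem_subgroupOf] using h
    have hgK : (g : X) ∈ K := hC _ (mul_inv_eq_iff_eq_mul.mp (hiso _ (hP1K hconj)))
    have hR := hmax ((Q : Subgroup X) ⊓ K) inf_le_right (Q.isPGroup'.to_le inf_le_left)
      (le_inf hQ hP1K)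
    rw [← hR]
    exact ⟨g.2, hgK⟩
  exact hQP.trans hP1K

/-- If inside `C(t)` the involution `z` is isolated in `H` and centralised by it, and the
four-group `⟨z, e⟩` has all three centralisers in `C(t)` inside `H`, then `C(t) ≤ H`. -/
theorem centralizer_le_of_isolated {G : Type*} [Group G] [Finite G] (H : Subgroup G) (t z e : G)
    (hz : orderOf z = 2) (hzt : z * t = t * z) (he : orderOf e = 2) (het : e * t = t * e)
    (hez : e * z = z * e) (hne : e ≠ z)
    (hzC : ∀ g : G, g * t = t * g → g * z = z * g → g ∈ H)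
    (heC : ∀ g : G, g * t = t * g → g * e = e * g → g ∈ H)
    (hzeC : ∀ g : G, g * t = t * g → g * (z * e) = (z * e) * g → g ∈ H)
    (hcen : ∀ g ∈ H, g * t = t * g → g * z = z * g)
    (hiso : ∀ g : G, g * t = t * g → g * z * g⁻¹ ∈ H → g * z * g⁻¹ = z) :
    Subgroup.centralizer ({t} : Set G) ≤ H := by
  set X := Subgroup.centralizer ({t} : Set G) with hX
  have hmem : ∀ g : G, g ∈ X ↔ g * t = t * g := fun g =>
    Subgroup.mem_centralizer_singleton_iff
  have hz2 : z * z = 1 := by rw [← pow_two, ← hz, pow_orderOf_eq_one]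
  have he2 : e * e = 1 := by rw [← pow_two, ← he, pow_orderOf_eq_one]
  have hzX : z ∈ X := (hmem z).2 hzt
  have heX : e ∈ X := (hmem e).2 het
  obtain ⟨Q, hzQ, hQK⟩ := exists_sylow_le_of_isolated (H.subgroupOf X) ⟨z, hzX⟩
    (by rw [← orderOf_injective X.subtype Subtype.val_injective ⟨z, hzX⟩]; exact hz)
    (Subgroup.mem_subgroupOf.2 (hzC z hzt rfl))
    (fun g hg => Subgroup.mem_subgroupOf.2
      (hzC g ((hmem _).1 g.2) (by simpa using congrArg Subtype.val hg)))
    (fun g hg => Subtype.ext (hiso g ((hmem _).1 g.2) (by simpa [Subgroup.mem_subgroupOf] using hg)))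
  obtain ⟨N, hNn, hNodd, hN⟩ := Cfsg.Agent.S0215.result Q ⟨z, hzX⟩
    (by rw [← orderOf_injective X.subtype Subtype.val_injective ⟨z, hzX⟩]; exact hz) hzQ
    (fun g hg => Subtype.ext (hiso g ((hmem _).1 g.2)
      (by simpa using Subgroup.mem_subgroupOf.1 (hQK hg))))
  set N0 : Subgroup G := N.map X.subtype with hN0
  have hN0odd : Odd (Nat.card N0) := by
    rwa [hN0, Subgroup.card_map_of_injective Subtype.val_injective]
  have hnorm : ∀ s ∈ X, s * s = 1 → ∀ x ∈ N0, s * x * s ∈ N0 := by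
    rintro s hs hs2 _ ⟨x, hx, rfl⟩
    refine ⟨⟨s, hs⟩ * x * (⟨s, hs⟩)⁻¹, hNn.conj_mem x hx _, ?_⟩
    simp [inv_eq_of_mul_eq_one_left hs2]
  have hN0X : N0 ≤ X := Subgroup.map_subtype_le _
  have hN0H : ∀ x ∈ N0, x ∈ H := fun x hx =>
    RankOne.mem_of_centralizers_le (t := z) hz2 hN0odd (hnorm z hzX hz2) (s := e) he2 hez
      (hnorm e heX he2) H
      (fun y hy hc => hzC y ((hmem y).1 (hN0X hy)) hc.symm)
      (fun y hy hc => heC y ((hmem y).1 (hN0X hy)) hc.symm)
      (fun y hy hc => hzeC y ((hmem y).1 (hN0X hy)) hc.symm) hx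
  intro g hg
  have hn : z * g * z⁻¹ * g⁻¹ ∈ N0 := ⟨_, hN ⟨g, hg⟩, by simp⟩
  set n := g * z * g⁻¹ * z with hn'
  have hnN : n ∈ N0 := by
    have h := N0.inv_mem hn
    have heq : (z * g * z⁻¹ * g⁻¹)⁻¹ = n := by
      rw [hn']
      simp [mul_assoc, inv_eq_of_mul_eq_one_left hz2]
    rwa [heq] at h
  have hninv : n ∈ Cfsg.invertedBy N0 z := by
    rw [RankOne.mem_invertedBy hz2]
    refine ⟨hnN, ?_⟩
    rw [hn']
    simp [mul_assoc, hz2, inv_eq_of_mul_eq_one_left hz2]
  set m := RankOne.sqr N0 n with hm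
  have hminv := RankOne.sqr_mem_invertedBy hz2 hN0odd (hnorm z hzX hz2) hninv
  rw [← hm, RankOne.mem_invertedBy hz2] at hminv
  have hmz : m * z = z * m⁻¹ := by
    calc m * z = z * (z * m * z) := by simp only [← mul_assoc, hz2, one_mul]
      _ = z * m⁻¹ := by rw [hminv.2]
  have hmm : m * m = n := RankOne.sqr_mul_self hN0odd hnN
  have hzm : z * m⁻¹ = m * z := hmz.symm
  have hconj : (m⁻¹ * g) * z = z * (m⁻¹ * g) := by
    have e1 : g * z = m * m * z * g := by
      rw [hmm, hn']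
      simp [mul_assoc, hz2]
    calc (m⁻¹ * g) * z = m⁻¹ * (g * z) := mul_assoc _ _ _
      _ = m⁻¹ * (m * m * z * g) := by rw [e1]
      _ = m * z * g := by simp [mul_assoc]
      _ = z * (m⁻¹ * g) := by rw [hmz, mul_assoc]
  have hmX : m ∈ X := hN0X hminv.1
  have h1 : m⁻¹ * g ∈ H :=
    hzC _ ((hmem _).1 (X.mul_mem (X.inv_mem hmX) hg)) hconj
  have h2 := H.mul_mem (hN0H m hminv.1) h1
  rwa [mul_inv_cancel_left] at h2

end Cfsg.Agent.Fix4
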