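import Mathlib
import Cfsg.Prelude.Def_CaseTheorems
import Cfsg.Agent.Harada.Basic
import Cfsg.Agent.TwoGroups.SectionalTwo
import Cfsg.Agent.Invol.FourGroup

/-!
# Sectional 2-rank at most four: elementary criteria (S3365)
-/

set_option autoImplicit false
set_option linter.style.haveILetI false
set_option maxHeartbeats 1000000

namespace Cfsg.Agent.Fix4

open Cfsg.Agent.Harada (Elem2 sectional_of_bound)

/-- The sectional 2-rank of a group is that of a Sylow 2-subgroup. -/
theorem sectional_of_sylow {G : Type*} [Group G] [Finite G] (S : Sylow 2 G) {k : ℕ}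
    (h : Cfsg.SectionalPRankLE 2 k (S : Subgroup G)) : Cfsg.SectionalPRankLE 2 k G := by
  haveI : Fact (Nat.Prime 2) := ⟨Nat.prime_two⟩
  intro H N _ A hA hA2
  let π : H →* H ⧸ N := QuotientGroup.mk' N
  let P : Subgroup H := A.comap π
  let f : P →* A := (π.comp P.subtype).codRestrict A fun x => x.2
  have hf : Function.Surjective f := by
    rintro ⟨a, ha⟩
    obtain ⟨y, rfl⟩ := QuotientGroup.mk'_surjective N a
    exact ⟨⟨y, ha⟩, rfl⟩
  obtain ⟨R⟩ : Nonempty (Sylow 2 P) := inferInstance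
  have hA2' : IsPGroup 2 A := fun a => ⟨1, Subtype.ext (by simpa using hA2 a a.2)⟩
  have hmap : (R : Subgroup P).map f = ⊤ := by
    rw [← Subgroup.index_eq_one]
    obtain ⟨e, he⟩ := hA2'.index ((R : Subgroup P).map f)
    rcases Nat.eq_zero_or_pos e with rfl | hepos
    · simpa using he
    · exfalso
      refine R.not_dvd_index ((dvd_pow_self 2 (by omega : e ≠ 0)).trans ?_)
      rw [← he]
      exact Subgroup.index_map_dvd _ hf
  let g : (R : Subgroup P) →* G := H.subtype.comp (P.subtype.comp (R : Subgroup P).subtype)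
  have hg : Function.Injective g :=
    H.subtype_injective.comp (P.subtype_injective.comp (R : Subgroup P).subtype_injective)
  have hgp : IsPGroup 2 g.range :=
    R.isPGroup'.of_surjective g.rangeRestrict g.rangeRestrict_surjective
  obtain ⟨S', hS'⟩ := hgp.exists_le_sylow
  have h' : Cfsg.SectionalPRankLE 2 k (S' : Subgroup G) :=
    Cfsg.Agent.TwoGroups.sectional_of_injective (Sylow.equiv S' S).toMonoidHom
      (Sylow.equiv S' S).injective h
  have hR : Cfsg.SectionalPRankLE 2 k (R : Subgroup P) :=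
    Cfsg.Agent.TwoGroups.sectional_of_injective
      ((Subgroup.inclusion hS').comp g.rangeRestrict)
      ((Subgroup.inclusion_injective hS').comp (fun a b hab => hg (congrArg (fun z : g.range => (z : G)) hab))) h'
  let f' : (R : Subgroup P) →* A := f.comp (R : Subgroup P).subtype
  have hf' : Function.Surjective f' := fun a => by
    have : a ∈ (R : Subgroup P).map f := hmap ▸ Subgroup.mem_top a
    obtain ⟨y, hy, rfl⟩ := this
    exact ⟨⟨y, hy⟩, rfl⟩
  let e := QuotientGroup.quotientKerEquivOfSurjective f' hf'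
  haveI := hA
  have h1 := Cfsg.Agent.TwoGroups.pRankLE_quotient hR f'.ker ⊤
    ⟨⟨fun a b => Subtype.ext (e.injective (by
      rw [Subgroup.coe_mul, Subgroup.coe_mul, map_mul, map_mul]
      exact hA.is_comm.comm _ _))⟩⟩
    (fun a _ => e.injective (by
      rw [map_pow, map_one]
      exact Subtype.ext (by simpa using hA2 (e a) (e a).2)))
  rwa [Subgroup.card_top, Nat.card_congr e.toEquiv] at h1

/-- The image of an elementary section is an elementary section. -/
theorem elem2_map {G T : Type*} [Group G] [Group T] {H N : Subgroup G} (e : Elem2 H N)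
    (f : G →* T) : Elem2 (H.map f) (N.map f) := by
  refine ⟨Subgroup.map_mono e.le, ?_, ?_⟩
  · rintro _ ⟨x, hx, rfl⟩
    exact ⟨x * x, e.sq x hx, map_mul f x x⟩
  · rintro _ ⟨x, hx, rfl⟩ _ ⟨y, hy, rfl⟩
    exact ⟨x * y * x⁻¹ * y⁻¹, e.comm x hx y hy, by simp⟩

/-- The trace of an elementary section on a subgroup is an elementary section. -/
theorem elem2_inf {G : Type*} [Group G] {H N : Subgroup G} (e : Elem2 H N) (K : Subgroup G) :
    Elem2 (H ⊓ K) (N ⊓ K) := by
  refine ⟨inf_le_inf_right K e.le, fun h hh => ⟨e.sq h hh.1, K.mul_mem hh.2 hh.2⟩,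
    fun g hg h hh => ⟨e.comm g hg.1 h hh.1, ?_⟩⟩
  exact K.mul_mem (K.mul_mem (K.mul_mem hg.2 hh.2) (K.inv_mem hg.2)) (K.inv_mem hh.2)

/-- The order of a subgroup from its image and its trace on the kernel. -/
theorem card_eq_map_mul_inf {G T : Type*} [Group G] [Group T] (f : G →* T) (H : Subgroup G) :
    Nat.card H = Nat.card (H.map f) * Nat.card ↥(H ⊓ f.ker) := by
  rw [Subgroup.card_eq_card_quotient_mul_card_subgroup (f.comp H.subtype).ker,
    Nat.card_congr (QuotientGroup.quotientKerEquivRange (f.comp H.subtype)).toEquiv,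
    MonoidHom.range_comp, Subgroup.range_subtype]
  congr 1
  rw [show (f.comp H.subtype).ker = (H ⊓ f.ker).subgroupOf H from ?_]
  · exact Nat.card_congr (Subgroup.subgroupOfEquivOfLe inf_le_left).toEquiv
  · ext x
    simp [Subgroup.mem_subgroupOf]

/-- A 2-group of permutations of four points is not elementary abelian of order eight. -/
theorem not_elementary_eight (K : Subgroup (Equiv.Perm (Fin 4))) (hK : Nat.card K = 8) :
    ∃ x ∈ K, x * x ≠ 1 := by
  haveI : Fact (Nat.Prime 2) := ⟨Nat.prime_two⟩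
  have hfac : (Nat.card (Equiv.Perm (Fin 4))).factorization 2 = 3 := by
    rw [Nat.card_perm, Nat.card_fin,
      show (4 : ℕ).factorial = 2 ^ 3 * 3 by decide, Nat.factorization_mul (by norm_num) (by norm_num),
      Nat.prime_two.factorization_pow, Nat.prime_three.factorization]
    simp
  set PK : Sylow 2 (Equiv.Perm (Fin 4)) :=
    Sylow.ofCard K (by rw [hK, hfac]; norm_num) with hPK
  set σ : Equiv.Perm (Fin 4) := finRotate 4 with hσ
  have hσ4 : σ ^ 4 = 1 := by rw [hσ]; decide
  have hσ2 : σ * σ ≠ 1 := by rw [hσ]; decide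
  have hp : IsPGroup 2 (Subgroup.zpowers σ) := by
    rintro ⟨x, hx⟩
    obtain ⟨i, rfl⟩ := hx
    refine ⟨2, Subtype.ext ?_⟩
    simp only [SubgroupClass.coe_pow, OneMemClass.coe_one]
    rw [← zpow_natCast, ← zpow_mul, mul_comm i, zpow_mul, zpow_natCast,
      show (2 : ℕ) ^ 2 = 4 by norm_num, hσ4, one_zpow]
  obtain ⟨Q, hQ⟩ := hp.exists_le_sylow
  have hσQ : σ ∈ (Q : Subgroup (Equiv.Perm (Fin 4))) := hQ (Subgroup.mem_zpowers σ)
  set e := Sylow.equiv Q PK with he
  refine ⟨(e ⟨σ, hσQ⟩ : Equiv.Perm (Fin 4)), ?_, fun h => hσ2 ?_⟩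
  · exact (e ⟨σ, hσQ⟩).2
  · have h1 : e (⟨σ, hσQ⟩ * ⟨σ, hσQ⟩) = e 1 := by
      rw [map_mul, map_one]
      exact Subtype.ext h
    exact congrArg Subtype.val (e.injective h1)

/-- Elementary sections of a 2-group acting faithfully on at most four points. -/
theorem section_le_of_perm {G : Type*} [Group G] {α : Type*} [Finite α]
    (hα : Nat.card α ≤ 4) (g : G →* Equiv.Perm α) {H N : Subgroup G} (e : Elem2 H N)
    (hH : IsPGroup 2 H) (hker : H ⊓ g.ker = ⊥) : Nat.card H ≤ 4 * Nat.card N := by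
  classical
  haveI : Fact (Nat.Prime 2) := ⟨Nat.prime_two⟩
  let emb : α ↪ Fin 4 := (Finite.equivFin α).toEmbedding.trans (Fin.castLEEmb hα)
  let φ : G →* Equiv.Perm (Fin 4) := (Equiv.Perm.viaEmbeddingHom emb).comp g
  have hkφ : H ⊓ φ.ker = ⊥ := by
    rw [← hker]
    congr 1
    ext x
    rw [MonoidHom.mem_ker, MonoidHom.mem_ker, MonoidHom.comp_apply,
      map_eq_one_iff _ (Equiv.Perm.viaEmbeddingHom_injective emb)]
  have hN : N ⊓ φ.ker = ⊥ := le_bot_iff.1 (hkφ ▸ inf_le_inf_right _ e.le)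
  have hc1 := card_eq_map_mul_inf φ H
  have hc2 := card_eq_map_mul_inf φ N
  rw [hkφ, Subgroup.card_bot, mul_one] at hc1
  rw [hN, Subgroup.card_bot, mul_one] at hc2
  rw [hc1, hc2]
  set H' := H.map φ with hH'
  have e' : Elem2 H' (N.map φ) := elem2_map e φ
  obtain ⟨j, hj⟩ := IsPGroup.iff_card.1 (hH.map φ)
  have hdvd : Nat.card H' ∣ 2 ^ 3 * 3 := by
    have h := H'.card_subgroup_dvd_card
    rwa [Nat.card_perm, Nat.card_fin, show (4 : ℕ).factorial = 2 ^ 3 * 3 by decide] at h
  have hdvd8 : Nat.card H' ∣ 2 ^ 3 :=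
    (hj ▸ Nat.Coprime.pow_left j (by norm_num) : Nat.Coprime (Nat.card H') 3).dvd_of_dvd_mul_right
      hdvd
  have hle : Nat.card H' ≤ 8 := by simpa using Nat.le_of_dvd (by norm_num) hdvd8
  have hpos : 0 < Nat.card (N.map φ) := Nat.card_pos
  rcases Nat.lt_or_ge (Nat.card (N.map φ)) 2 with hsm | hbig
  · rcases Nat.lt_or_ge 4 (Nat.card H') with h4 | h4
    · exfalso
      have h8 : Nat.card H' = 8 := by
        obtain ⟨i, hi, hi'⟩ := (Nat.dvd_prime_pow Nat.prime_two).1 hdvd8
        rw [hi'] at h4 ⊢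
        interval_cases i <;> (revert h4; norm_num)
      obtain ⟨x, hx, hx2⟩ := not_elementary_eight H' h8
      have hbot : N.map φ = ⊥ := Subgroup.card_eq_one.1 (by omega)
      have := e'.sq x hx
      rw [hbot, Subgroup.mem_bot] at this
      exact hx2 this
    · omega
  · omega

/-- An elementary section of a cyclic group has order at most two. -/
theorem section_le_of_cyclic {G : Type*} [Group G] [Finite G] (C D : Subgroup G) [IsCyclic C]
    (hsq : ∀ c ∈ C, c * c ∈ D) : Nat.card C ≤ 2 * Nat.card D := by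
  classical
  obtain ⟨⟨c, hc⟩, hgen⟩ := IsCyclic.exists_generator (α := C)
  have hC : C = Subgroup.zpowers c := by
    refine le_antisymm (fun x hx => ?_) (Subgroup.zpowers_le.2 hc)
    obtain ⟨i, hi⟩ := hgen ⟨x, hx⟩
    exact ⟨i, congrArg Subtype.val hi⟩
  have h1 : Nat.card C = orderOf c := by rw [hC, Nat.card_zpowers]
  have h2 : orderOf (c * c) ≤ Nat.card D := by
    rw [← Nat.card_zpowers]
    exact Nat.card_le_card_of_injective _
      (Subgroup.inclusion_injective (Subgroup.zpowers_le.2 (hsq c hc)))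
  have h3 : orderOf c ≤ 2 * orderOf (c * c) := by
    refine Nat.le_of_dvd (Nat.mul_pos two_pos (orderOf_pos _)) (orderOf_dvd_of_pow_eq_one ?_)
    rw [pow_mul, pow_two, pow_orderOf_eq_one]
  omega

/-- A 2-group embedded in the product of two permutation groups on at most four points. -/
theorem sectional_of_two_four_sets {S : Type*} [Group S] [Finite S] (hS : IsPGroup 2 S)
    {α β : Type*} [Finite α] [Finite β] (hα : Nat.card α ≤ 4) (hβ : Nat.card β ≤ 4)
    (f : S →* Equiv.Perm α) (g : S →* Equiv.Perm β) (hker : f.ker ⊓ g.ker = ⊥) :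
    Cfsg.SectionalPRankLE 2 4 S := by
  refine sectional_of_bound fun H N e => ?_
  have h1 : Nat.card (H.map f) ≤ 4 * Nat.card (N.map f) := by
    refine section_le_of_perm hα (MonoidHom.id (Equiv.Perm α)) (elem2_map e f)
      ((hS.to_subgroup H).map f) ?_
    rw [(MonoidHom.ker_eq_bot_iff _).2 Function.injective_id, inf_bot_eq]
  have h2 : Nat.card ↥(H ⊓ f.ker) ≤ 4 * Nat.card ↥(N ⊓ f.ker) := by
    refine section_le_of_perm hβ g (elem2_inf e f.ker) (hS.to_subgroup _) ?_
    rw [inf_assoc, hker, inf_bot_eq]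
  rw [card_eq_map_mul_inf f H, card_eq_map_mul_inf f N]
  calc Nat.card (H.map f) * Nat.card ↥(H ⊓ f.ker)
      ≤ (4 * Nat.card (N.map f)) * (4 * Nat.card ↥(N ⊓ f.ker)) := Nat.mul_le_mul h1 h2
    _ = 2 ^ 4 * (Nat.card (N.map f) * Nat.card ↥(N ⊓ f.ker)) := by ring

/-- In a normal subgroup without a four-group normal in the whole 2-group, a self-centralizing
cyclic normal subgroup has index at most two. -/
theorem exists_cyclic_index_two {S : Type*} [Group S] [Finite S] (hS : IsPGroup 2 S)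
    (Q : Subgroup S) [Q.Normal]
    (hno : ∀ F : Subgroup S, F.Normal → F ≤ Q → (∀ a ∈ F, a ^ 2 = 1) → Nat.card F ≠ 4) :
    ∃ A : Subgroup S, A ≤ Q ∧ IsCyclic A ∧ Nat.card Q ≤ 2 * Nat.card A := by
  classical
  haveI : Fact (Nat.Prime 2) := ⟨Nat.prime_two⟩
  obtain ⟨⟨A, hAn, hAQ, hAc⟩, hmax⟩ : ∃ A : {A : Subgroup S // A.Normal ∧ A ≤ Q ∧ IsMulCommutative A},
      ∀ B : {A : Subgroup S // A.Normal ∧ A ≤ Q ∧ IsMulCommutative A},
        Nat.card B.1 ≤ Nat.card A.1 := by
    haveI : Nonempty {A : Subgroup S // A.Normal ∧ A ≤ Q ∧ IsMulCommutative A} :=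
      ⟨⟨⊥, inferInstance, bot_le, inferInstance⟩⟩
    exact Finite.exists_max fun A : {A : Subgroup S // A.Normal ∧ A ≤ Q ∧ IsMulCommutative A} =>
      Nat.card A.1
  simp only at hmax
  haveI := hAn
  have hcommA : ∀ a ∈ A, ∀ c ∈ A, a * c = c * a := fun a ha c hc =>
    congrArg Subtype.val (hAc.is_comm.comm ⟨a, ha⟩ ⟨c, hc⟩)
  -- self-centralizing
  have hCA : ∀ x ∈ Q, (∀ a ∈ A, a * x = x * a) → x ∈ A := by
    intro x hxQ hx
    by_contra hxA
    set C := Q ⊓ Subgroup.centralizer (A : Set S) with hC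
    have hAC : A ≤ C := fun a ha =>
      ⟨hAQ ha, Subgroup.mem_centralizer_iff.2 fun c hc => hcommA c hc a ha⟩
    have hne : A ≠ C := fun h => hxA (h ▸ ⟨hxQ, Subgroup.mem_centralizer_iff.2 hx⟩)
    obtain ⟨c, hc, hcA, hc2, hcs⟩ := Cfsg.Agent.Harada.exists_step hS A C hAC hne
    obtain ⟨D, hDn, hAD, hcD, hDc, hmem⟩ := Cfsg.Agent.Harada.exists_double A hcA hc2 hcs
    have hcc : ∀ a ∈ A, a * c = c * a := Subgroup.mem_centralizer_iff.1 hc.2
    have hform : ∀ d ∈ D, d ∈ A ∨ ∃ a ∈ A, d = c * a := fun d hd =>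
      ((hmem d).1 hd).imp id fun h => ⟨_, h, by group⟩
    have hDQ : D ≤ Q := by
      intro d hd
      rcases hform d hd with h | ⟨a, ha, rfl⟩
      · exact hAQ h
      · exact Q.mul_mem hc.1 (hAQ ha)
    have hA' : ∀ a ∈ A, ∀ d ∈ D, a * d = d * a := by
      intro a ha d hd
      rcases hform d hd with h | ⟨a', ha', rfl⟩
      · exact hcommA a ha d h
      · rw [← mul_assoc, hcc a ha, mul_assoc, hcommA a ha a' ha', mul_assoc]
    have hc' : ∀ d ∈ D, c * d = d * c := by
      intro d hd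
      rcases hform d hd with h | ⟨a, ha, rfl⟩
      · exact (hcc d h).symm
      · rw [mul_assoc, hcc a ha]
    have hDcomm : IsMulCommutative D := ⟨⟨fun x y => Subtype.ext (by
      show (x : S) * y = y * x
      rcases hform x x.2 with h | ⟨a, ha, h⟩
      · exact hA' _ h _ y.2
      · rw [h, mul_assoc, hA' a ha _ y.2, ← mul_assoc, hc' _ y.2, mul_assoc])⟩⟩
    have : Nat.card D ≤ Nat.card A := hmax ⟨D, hDn, hDQ, hDcomm⟩
    have hpos : 0 < Nat.card A := Nat.card_pos
    omega
  -- one involution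
  have huniq : ∀ a ∈ A, ∀ c ∈ A, orderOf a = 2 → orderOf c = 2 → a = c := by
    intro a ha c hc hao hco
    by_contra hne
    let Ω : Subgroup S :=
      { carrier := {x | x ∈ A ∧ x * x = 1}
        one_mem' := ⟨one_mem A, one_mul 1⟩
        mul_mem' := fun {x y} hx hy => ⟨mul_mem hx.1 hy.1, by
          calc x * y * (x * y) = x * (y * x) * y := by group
            _ = x * (x * y) * y := by rw [hcommA y hy.1 x hx.1]
            _ = x * x * (y * y) := by group
            _ = 1 := by rw [hx.2, hy.2, one_mul]⟩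
        inv_mem' := fun {x} hx => ⟨inv_mem hx.1, by rw [← mul_inv_rev, hx.2, inv_one]⟩ }
    haveI hΩn : Ω.Normal := ⟨fun x hx g => ⟨hAn.conj_mem x hx.1 g, by
      calc g * x * g⁻¹ * (g * x * g⁻¹) = g * (x * x) * g⁻¹ := by group
        _ = 1 := by rw [hx.2]; group⟩⟩
    have h2 : ∀ y : S, orderOf y = 2 → y ≠ 1 ∧ y * y = 1 := fun y hy =>
      ⟨fun h => by simp [h] at hy, by rw [← pow_two, ← hy, pow_orderOf_eq_one]⟩
    have h4 : 2 ^ 2 ≤ Nat.card Ω := by
      have h3 : 2 < Nat.card Ω := by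
        have hset : ({1, a, c} : Set S) ⊆ (Ω : Set S) := by
          rintro y (rfl | rfl | rfl)
          · exact Ω.one_mem
          · exact ⟨ha, (h2 _ hao).2⟩
          · exact ⟨hc, (h2 _ hco).2⟩
        have := Set.ncard_le_ncard hset (Set.toFinite _)
        rw [Set.ncard_insert_of_notMem (by simp [(h2 _ hao).1.symm, (h2 _ hco).1.symm]),
          Set.ncard_pair hne, ← Nat.card_coe_set_eq] at this
        exact this
      obtain ⟨j, hj⟩ := IsPGroup.iff_card.1 (hS.to_subgroup Ω)
      rw [hj] at h3 ⊢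
      rcases Nat.lt_or_ge j 2 with hj2 | hj2
      · interval_cases j <;> simp at h3
      · exact Nat.pow_le_pow_right two_pos hj2
    obtain ⟨F, hFn, hFΩ, hFc⟩ := Cfsg.Agent.Harada.exists_normal_card hS Ω 2 h4
    exact hno F hFn (fun x hx => hAQ (hFΩ hx).1) (fun x hx => by rw [pow_two]; exact (hFΩ hx).2)
      (by simpa using hFc)
  obtain ⟨z₀, hz₀⟩ : ∃ z : S, ∀ a ∈ A, orderOf a = 2 → a = z := by
    by_cases h : ∃ a ∈ A, orderOf a = 2
    · obtain ⟨a, ha, hao⟩ := h
      exact ⟨a, fun c hc hco => huniq c hc a ha hco hao⟩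
    · exact ⟨1, fun c hc hco => absurd ⟨c, hc, hco⟩ h⟩
  haveI hAcyc : IsCyclic A := Cfsg.Agent.Invol.isCyclic_of_unique_involution hS A hAc z₀ hz₀
  refine ⟨A, hAQ, hAcyc, ?_⟩
  obtain ⟨⟨b, hb⟩, hgen⟩ := IsCyclic.exists_generator (α := A)
  have hpowA : ∀ a ∈ A, ∃ i : ℤ, b ^ i = a := fun a ha => by
    obtain ⟨i, hi⟩ := hgen ⟨a, ha⟩
    exact ⟨i, congrArg Subtype.val hi⟩
  set n := orderOf b with hn
  haveI : NeZero n := ⟨(orderOf_pos b).ne'⟩
  choose r hr using fun s : S => hpowA _ (hAn.conj_mem b hb s)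
  have heq : ∀ i j : ℤ, b ^ i = b ^ j ↔ (i : ZMod n) = (j : ZMod n) := fun i j => by
    rw [zpow_eq_zpow_iff_modEq, ZMod.intCast_eq_intCast_iff]
  let φ : S →* ZMod n :=
    { toFun := fun s => (r s : ZMod n)
      map_one' := by
        rw [← Int.cast_one, ← heq, hr, zpow_one]; group
      map_mul' := fun s t => by
        rw [← Int.cast_mul, ← heq, zpow_mul, hr, hr s, conj_zpow, hr t]; group }
  have hφ : ∀ s t : S, φ s = φ t → s * b * s⁻¹ = t * b * t⁻¹ := fun s t h => by
    rw [← hr, ← hr, heq]; exact h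
  have hφA : ∀ s ∈ Q, φ s = 1 → s ∈ A := by
    intro s hs h
    have h1 := hφ s 1 (by rw [h, map_one])
    have h2 : Commute s b := by
      refine Cfsg.Agent.Invol.commute_iff_conj.2 ?_
      rw [h1]; group
    exact hCA s hs fun a ha => by
      obtain ⟨i, rfl⟩ := hpowA a ha
      exact (h2.zpow_right i).eq.symm
  -- the elements of `Q` induce at most two automorphisms
  have key : ∃ x : ZMod n, ∀ s ∈ Q, φ s = 1 ∨ φ s = x := by
    obtain ⟨M, hM⟩ : ∃ M, n = 2 ^ M := IsPGroup.iff_orderOf.1 hS b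
    have hsmallcase : n = 1 ∨ n = 2 ∨ n = 4 →
        ∃ x : ZMod n, ∀ s ∈ Q, φ s = 1 ∨ φ s = x := by
      intro hcases
      refine ⟨-1, fun s _ => ?_⟩
      have hu : IsUnit (φ s) := (Group.isUnit s).map φ
      revert hu
      generalize φ s = y
      clear_value n
      rcases hcases with rfl | rfl | rfl <;> revert y <;> decide
    rcases Nat.lt_or_ge M 3 with hM3 | hM3
    · apply hsmallcase
      interval_cases M <;> simp_all
    obtain ⟨m, rfl⟩ : ∃ m, M = m + 3 := ⟨M - 3, by omega⟩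
    clear_value n
    subst hM
    set h : ℕ := 2 ^ (m + 2) with hhdef
    set u : ZMod (2 ^ (m + 3)) := 1 + (h : ZMod (2 ^ (m + 3))) with hu
    have hh2 : (2 : ℕ) ^ (m + 3) = 2 * h := by rw [hhdef, ← pow_succ']
    have hnot : ∀ g ∈ Q, φ g ≠ u := by
      intro g hgQ hg
      -- the involution of `A`
      set z := b ^ h with hz
      have hzo : orderOf z = 2 := by
        rw [hz, orderOf_pow' _ (by positivity), ← hn, hh2, Nat.gcd_mul_left_left,
          Nat.mul_div_cancel _ (by positivity)]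
      have hzA : z ∈ A := A.pow_mem hb h
      have hzS : ∀ s : S, s * z * s⁻¹ = z := fun s =>
        huniq _ (hAn.conj_mem z hzA s) z hzA
          (by rw [← hzo]; exact (MulAut.conj s).orderOf_eq z) hzo
      have hgb : g * b * g⁻¹ = b ^ ((1 : ℤ) + h) := by
        rw [← hr g, heq]
        push_cast
        exact hg
      have hgpow : ∀ i : ℤ, g * b ^ i * g⁻¹ = b ^ ((1 + (h : ℤ)) * i) := fun i => by
        rw [zpow_mul, ← hgb, conj_zpow]
      have hu2 : u * u = 1 := by
        rw [hu]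
        have h0 : ((2 * h : ℕ) : ZMod (2 ^ (m + 3))) = 0 := by rw [← hh2]; exact ZMod.natCast_self _
        have h1 : (h : ZMod (2 ^ (m + 3))) * h = 0 := by
          have : h * h = 2 * h * 2 ^ (m + 1) := by rw [hhdef]; ring
          rw [← Nat.cast_mul, this, Nat.cast_mul, h0, zero_mul]
        push_cast at h0
        linear_combination h0 + h1
      have hggA : g * g ∈ A := hφA _ (Q.mul_mem hgQ hgQ) (by rw [map_mul, hg, hu2])
      obtain ⟨k, hk⟩ := hpowA _ hggA
      -- `k` is even
      have hdiv : ∀ i j : ℤ, b ^ i = b ^ j ↔ (2 * (h : ℤ)) ∣ j - i := fun i j => by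
        rw [zpow_eq_zpow_iff_modEq, Int.modEq_iff_dvd, ← hn, hh2]
        push_cast
        rfl
      obtain ⟨k', rfl⟩ : ∃ k', k = 2 * k' := by
        have h1 : b ^ k = b ^ ((1 + (h : ℤ)) * k) := by
          rw [← hgpow, hk]; group
        obtain ⟨d, hd⟩ := (hdiv _ _).1 h1
        refine ⟨d, mul_left_cancel₀ (show (h : ℤ) ≠ 0 by positivity) ?_⟩
        linarith [show (h : ℤ) * (2 * d) = 2 * h * d by ring,
          show (1 + (h : ℤ)) * k - k = h * k by ring]
      set t : ℤ := 2 ^ (m + 1) with ht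
      have hht : (h : ℤ) = 2 * t := by rw [hhdef, ht]; push_cast; ring
      set i : ℤ := -k' * (1 - t) with hi
      have hsq : ∀ j : ℤ, g * b ^ j * (g * b ^ j) = b ^ ((1 + (h : ℤ)) * j + 2 * k' +
          j) := fun j => by
        rw [zpow_add, zpow_add, ← hgpow j, hk]
        group
      set e := g * b ^ i with he
      have he2 : e * e = 1 := by
        rw [he, hsq, ← zpow_zero b, hdiv]
        refine ⟨-k' * 2 ^ m, ?_⟩
        rw [hi, hht, ht]
        ring
      have hgA : g ∉ A := fun hgA => by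
        have h1 : b ^ ((1 : ℤ) + h) = b ^ (1 : ℤ) := by
          rw [← hgb, hcommA g hgA b hb, zpow_one, mul_inv_cancel_right]
        obtain ⟨d, hd⟩ := (hdiv _ _).1 h1
        have : (0 : ℤ) < h := by positivity
        rcases le_or_gt 0 d with hd0 | hd0 <;> nlinarith
      have heA : e ∉ A := fun h' => hgA (by
        simpa [he] using A.mul_mem h' (A.inv_mem (A.zpow_mem hb i)))
      have heQ : e ∈ Q := Q.mul_mem hgQ (hAQ (A.zpow_mem hb i))
      have heo : orderOf e = 2 :=
        orderOf_eq_prime (by rw [pow_two, he2]) fun h' => heA (h' ▸ A.one_mem)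
      have hne : e ≠ z := fun h' => heA (h' ▸ hzA)
      have hcomm : Commute z e := by
        have := hzS e
        rw [mul_inv_eq_iff_eq_mul] at this
        exact this.symm
      have hφe : φ e = u := by
        rw [he, map_mul, hg]
        have : φ (b ^ i) = 1 := by
          show ((r (b ^ i) : ℤ) : ZMod (2 ^ (m + 3))) = 1
          rw [← Int.cast_one, ← heq, hr, zpow_one,
            hcommA _ (A.zpow_mem hb i) b hb, mul_inv_cancel_right]
        rw [this, mul_one]
      have hconj : ∀ s : S, s * e * s⁻¹ = e ∨ s * e * s⁻¹ = z * e := by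
        intro s
        set x := s * e * s⁻¹ with hx
        have hxQ : x ∈ Q := Subgroup.Normal.conj_mem inferInstance e heQ s
        have hφx : φ x = u := by
          rw [hx, map_mul, map_mul, hφe, mul_right_comm, ← map_mul, mul_inv_cancel, map_one,
            one_mul]
        have hx2 : x * x = 1 := by
          calc x * x = s * (e * e) * s⁻¹ := by rw [hx]; group
            _ = 1 := by rw [he2]; group
        have ha : e * x ∈ A := hφA _ (Q.mul_mem heQ hxQ) (by rw [map_mul, hφe, hφx, hu2])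
        obtain ⟨j, hj⟩ := hpowA _ ha
        have hxj : x = e * b ^ j := by rw [hj, ← mul_assoc, he2, one_mul]
        have hebj : e * b ^ j * e⁻¹ = b ^ ((1 + (h : ℤ)) * j) := by
          rw [← hgpow, he]; group
        have h1 : b ^ ((1 + (h : ℤ)) * j + j) = b ^ (0 : ℤ) := by
          rw [zpow_zero, zpow_add, ← hebj, inv_eq_of_mul_eq_one_left he2, ← hx2, hxj]
          group
        obtain ⟨d, hd⟩ := (hdiv _ _).1 h1
        -- `j` is a multiple of `h`
        have hjd : (h : ℤ) ∣ j := by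
          refine ⟨-d + 2 ^ m * j + t * d, ?_⟩
          have ht2 : (t : ℤ) * t = h * 2 ^ m := by rw [hht, ht]; ring
          have h3 : (1 + t) * j = -((h : ℤ) * d) := by
            refine mul_left_cancel₀ (two_ne_zero (α := ℤ)) ?_
            linear_combination (-1) * hd - j * hht
          linear_combination (1 - t) * h3 + j * ht2
        obtain ⟨q, hq⟩ := hjd
        have hzq : b ^ j = 1 ∨ b ^ j = z := by
          rcases Int.even_or_odd q with ⟨p, hp⟩ | ⟨p, hp⟩
          · left
            rw [← zpow_zero b, hdiv]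
            exact ⟨-p, by rw [hq, hp]; ring⟩
          · right
            rw [hz, ← zpow_natCast, hdiv]
            exact ⟨-p, by rw [hq, hp]; ring⟩
        rcases hzq with hh | hh
        · exact Or.inl (by rw [hxj, hh, mul_one])
        · exact Or.inr (by rw [hxj, hh, hcomm.eq])
      obtain ⟨hF4, hF2⟩ := Cfsg.Agent.Invol.fourGroup_props z e hzo heo hne hcomm
      refine hno _ (Cfsg.Agent.Invol.fourGroup_normal z e hzo heo hcomm hzS hconj) ?_ hF2 hF4
      rintro y (rfl | rfl | rfl | rfl)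
      · exact Q.one_mem
      · exact hAQ hzA
      · exact heQ
      · exact Q.mul_mem (hAQ hzA) heQ
    have h8dvd : (8 : ℕ) ∣ 2 ^ (m + 3) := ⟨2 ^ m, by ring⟩
    let π : ZMod (2 ^ (m + 3)) →+* ZMod 8 := ZMod.castHom h8dvd (ZMod 8)
    have hsq8 : ∀ y : ZMod 8, IsUnit y → y * y = 1 := by decide
    have hπh : π (h : ZMod (2 ^ (m + 3))) = 4 ∨ π (h : ZMod (2 ^ (m + 3))) = 0 := by
      rw [map_natCast, hhdef]
      rcases Nat.eq_zero_or_pos m with rfl | hm
      · exact Or.inl (by decide)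
      · right
        obtain ⟨m', rfl⟩ : ∃ m', m = m' + 1 := ⟨m - 1, by omega⟩
        push_cast
        rw [show m' + 1 + 2 = m' + 3 by omega, pow_add, show (2 : ZMod 8) ^ 3 = 0 by decide,
          mul_zero]
    have hroot : ∀ s ∈ Q, φ s * φ s = 1 := by
      intro s hs
      by_contra hne
      have hex : ∃ j, φ s ^ 2 ^ j = 1 := by
        obtain ⟨j, hj⟩ := hS s
        exact ⟨j, by rw [← map_pow, hj, map_one]⟩
      let j := Nat.find hex
      have hj : φ s ^ 2 ^ j = 1 := Nat.find_spec hex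
      obtain ⟨i, hi⟩ : ∃ i, j = i + 2 := by
        refine ⟨j - 2, ?_⟩
        rcases Nat.lt_or_ge j 2 with hlt | hge
        · exfalso
          apply hne
          interval_cases hjj : j
          · rw [pow_zero, pow_one] at hj
            rw [hj, one_mul]
          · rw [pow_one, pow_two] at hj
            exact hj
        · omega
      have hy1 : φ s ^ 2 ^ (i + 1) ≠ 1 := Nat.find_min hex (show i + 1 < j by omega)
      set w := φ (s ^ 2 ^ i) with hw
      have hy : φ s ^ 2 ^ (i + 1) = w * w := by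
        rw [hw, map_pow, show (2 : ℕ) ^ (i + 1) = 2 ^ i * 2 from pow_succ 2 i, pow_mul, pow_two]
      rw [hy] at hy1
      have hyy : w * w * (w * w) = 1 := by
        rw [hw, map_pow, ← pow_two, ← pow_two, ← pow_mul, ← pow_mul,
          show 2 ^ i * (2 * 2) = 2 ^ j by rw [hi]; ring]
        exact hj
      have h81 : π (w * w) = 1 := by
        rw [map_mul]
        exact hsq8 _ (((Group.isUnit _).map φ).map π)
      rcases Cfsg.Agent.Invol.roots_mod_two_pow m _ hyy with h1 | h1 | h1 | h1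
      · exact hy1 h1
      · rw [h1, map_neg, map_one] at h81
        exact absurd h81 (by decide)
      · refine hnot ((s ^ 2 ^ i) * (s ^ 2 ^ i)) (Q.mul_mem (Q.pow_mem hs _) (Q.pow_mem hs _)) ?_
        rw [map_mul, ← hw, h1]
      · rw [h1, map_add, map_neg, map_one] at h81
        rcases hπh with hp | hp <;> rw [← hhdef, hp] at h81 <;> exact absurd h81 (by decide)
    by_cases hall : ∀ s ∈ Q, φ s = 1
    · exact ⟨1, fun s hs => Or.inl (hall s hs)⟩
    push Not at hall
    obtain ⟨s₀, hs₀, hs₀1⟩ := hall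
    refine ⟨φ s₀, fun s hs => ?_⟩
    by_contra hcon
    push Not at hcon
    have hprod : φ (s * s₀) ≠ u := hnot _ (Q.mul_mem hs hs₀)
    rw [map_mul] at hprod
    have h0 : ((2 * h : ℕ) : ZMod (2 ^ (m + 3))) = 0 := by rw [← hh2]; exact ZMod.natCast_self _
    push_cast at h0
    rcases Cfsg.Agent.Invol.roots_mod_two_pow m _ (hroot s hs) with h1 | h1 | h1 | h1
    · exact hcon.1 h1
    · rcases Cfsg.Agent.Invol.roots_mod_two_pow m _ (hroot s₀ hs₀) with h2 | h2 | h2 | h2
      · exact hs₀1 h2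
      · exact hcon.2 (h1.trans h2.symm)
      · exact hnot s₀ hs₀ h2
      · apply hprod
        rw [h1, h2, hu, ← hhdef]
        linear_combination (-1 : ZMod (2 ^ (m + 3))) * h0
    · exact hnot s hs h1
    · rcases Cfsg.Agent.Invol.roots_mod_two_pow m _ (hroot s₀ hs₀) with h2 | h2 | h2 | h2
      · exact hs₀1 h2
      · apply hprod
        rw [h1, h2, hu, ← hhdef]
        linear_combination (-1 : ZMod (2 ^ (m + 3))) * h0
      · exact hnot s₀ hs₀ h2
      · exact hcon.2 (h1.trans h2.symm)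
  obtain ⟨x, hx⟩ := key
  have hb2 : ∀ p ∈ Q, ∀ q ∈ Q, decide (φ p = 1) = decide (φ q = 1) → p⁻¹ * q ∈ A := by
    intro p hp q hq hpq
    refine hφA _ (Q.mul_mem (Q.inv_mem hp) hq) ?_
    have hpq' : φ p = φ q := by
      simp only [decide_eq_decide] at hpq
      rcases hx p hp with h1 | h1
      · rw [h1, hpq.1 h1]
      · rcases hx q hq with h2 | h2
        · rw [h2, hpq.2 h2]
        · rw [h1, h2]
    rw [map_mul, ← hpq', ← map_mul, inv_mul_cancel, map_one]
  have := Cfsg.Agent.Harada.card_le_mul_inter Q A (fun s => decide (φ s = 1)) hb2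
  rwa [inf_eq_right.2 hAQ, Nat.card_eq_fintype_card (α := Bool), Fintype.card_bool] at this

/-- If the kernel of an action on at most four points contains no four-group normal in the
whole 2-group, the sectional rank is at most four. -/
theorem sectional_of_no_normal_four {S : Type*} [Group S] [Finite S] (hS : IsPGroup 2 S)
    {α : Type*} [Finite α] (hα : Nat.card α ≤ 4) (f : S →* Equiv.Perm α)
    (hno : ∀ F : Subgroup S, F.Normal → F ≤ f.ker → (∀ a ∈ F, a ^ 2 = 1) → Nat.card F ≠ 4) :
    Cfsg.SectionalPRankLE 2 4 S := by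
  obtain ⟨A, hAQ, hA, hAc⟩ := exists_cyclic_index_two hS f.ker hno
  refine sectional_of_bound fun H N e => ?_
  have h1 : Nat.card (H.map f) ≤ 4 * Nat.card (N.map f) := by
    refine section_le_of_perm hα (MonoidHom.id (Equiv.Perm α)) (elem2_map e f)
      ((hS.to_subgroup H).map f) ?_
    rw [(MonoidHom.ker_eq_bot_iff _).2 Function.injective_id, inf_bot_eq]
  have h2 : Nat.card ↥(H ⊓ f.ker) ≤ 4 * Nat.card ↥(N ⊓ f.ker) := by
    set X := H ⊓ f.ker with hX
    haveI : IsCyclic ↥(X ⊓ A) := by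
      haveI := hA
      exact isCyclic_of_injective (Subgroup.inclusion (inf_le_right : X ⊓ A ≤ A))
        (Subgroup.inclusion_injective _)
    have e2 := elem2_inf (elem2_inf e f.ker) A
    have hcyc : Nat.card ↥(X ⊓ A) ≤ 2 * Nat.card ↥(N ⊓ f.ker ⊓ A) :=
      section_le_of_cyclic _ _ fun c hc => e2.sq c hc
    have hidx : Nat.card X ≤ 2 * Nat.card ↥(X ⊓ A) := by
      have hrel : (X ⊓ A).relIndex X ≤ A.relIndex f.ker := by
        rw [Subgroup.inf_relIndex_left]
        exact Subgroup.relIndex_le_of_le_right inf_le_right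
          Subgroup.index_ne_zero_of_finite
      have h3 : Nat.card f.ker = Nat.card A * A.relIndex f.ker := by
        rw [← (A.subgroupOf f.ker).card_mul_index,
          Nat.card_congr (Subgroup.subgroupOfEquivOfLe hAQ).toEquiv]
        rfl
      have h4 : A.relIndex f.ker ≤ 2 := by
        have hpos : 0 < Nat.card A := Nat.card_pos
        nlinarith
      have h5 : Nat.card X = Nat.card ↥(X ⊓ A) * (X ⊓ A).relIndex X := by
        rw [← ((X ⊓ A).subgroupOf X).card_mul_index,
          Nat.card_congr (Subgroup.subgroupOfEquivOfLe inf_le_left).toEquiv]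
        rfl
      rw [h5, Nat.mul_comm 2]
      exact Nat.mul_le_mul_left _ (hrel.trans h4)
    have hle : Nat.card ↥(N ⊓ f.ker ⊓ A) ≤ Nat.card ↥(N ⊓ f.ker) :=
      Nat.card_le_card_of_injective _ (Subgroup.inclusion_injective inf_le_left)
    omega
  rw [card_eq_map_mul_inf f H, card_eq_map_mul_inf f N]
  calc Nat.card (H.map f) * Nat.card ↥(H ⊓ f.ker)
      ≤ (4 * Nat.card (N.map f)) * (4 * Nat.card ↥(N ⊓ f.ker)) := Nat.mul_le_mul h1 h2
    _ = 2 ^ 4 * (Nat.card (N.map f) * Nat.card ↥(N ⊓ f.ker)) := by ring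

end Cfsg.Agent.Fix4
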