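import Cfsg.Agent.Fix4.FourBase
import Cfsg.Agent.Fix4.TwoRank
import Cfsg.Agent.Fix4.Count
import Cfsg.Agent.Fix4.Involution
import Cfsg.Agent.Fix4.Isolated
import Cfsg.Agent.Invol.StronglyEmbedded
import Cfsg.Agent.S0501
import Cfsg.Agent.Recog.FixityTwo

/-!
# Involutions fixing four points (S3365)
-/

set_option autoImplicit false
set_option linter.unusedSectionVars false

namespace Cfsg.Agent.Fix4

open MulAction
open scoped Pointwise

section TwoGroup

variable {S Ω : Type*} [Group S] [Finite S] [MulAction S Ω] [Finite Ω]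

/-- A pointwise stabiliser of a four-set has order dividing the number of remaining points. -/
theorem card_fixing_dvd (hfix : FixAtMostFour S Ω) {D : Set Ω} (hD : D.ncard = 4) :
    Nat.card ↥(fixingSubgroup S D) ∣ Nat.card Ω - 4 := by
  classical
  set K := fixingSubgroup S D with hK
  have := Fintype.ofFinite Ω
  have := Fintype.ofFinite K
  have := Fintype.ofFinite (Quotient (orbitRel K Ω))
  have hsum := MulAction.sum_card_fixedBy_eq_card_orbits_mul_card_group K Ω
  rw [← Finset.add_sum_erase _ _ (Finset.mem_univ (1 : K))] at hsum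
  have h1 : Fintype.card (fixedBy Ω (1 : K)) = Nat.card Ω := by
    rw [← Nat.card_eq_fintype_card, Nat.card_coe_set_eq, fixedBy_one_eq_univ, Set.ncard_univ]
  have h4 : ∀ k ∈ (Finset.univ : Finset K).erase 1, Fintype.card (fixedBy Ω k) = 4 := by
    intro k hk
    have hk1 : (k : S) ≠ 1 := fun e => Finset.ne_of_mem_erase hk (Subtype.ext e)
    rw [← Nat.card_eq_fintype_card, Nat.card_coe_set_eq, ← hD]
    exact congrArg Set.ncard (fixedBy_eq hfix hk1 hD k.2)
  rw [h1, Finset.sum_congr rfl h4, Finset.sum_const, smul_eq_mul,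
    Finset.card_erase_of_mem (Finset.mem_univ _), Finset.card_univ] at hsum
  rw [Nat.card_eq_fintype_card (α := K)]
  have hge : 4 ≤ Nat.card Ω := hD ▸ Set.ncard_le_card _
  have hpos : 0 < Fintype.card K := Fintype.card_pos
  refine (Nat.dvd_add_left (a := Fintype.card K) (c := 4 * Fintype.card K) (Dvd.intro_left _ rfl)).1 ?_
  refine ⟨Fintype.card (Quotient (orbitRel K Ω)), ?_⟩
  obtain ⟨c, hc⟩ : ∃ c, Fintype.card K = c + 1 := ⟨_, (Nat.succ_pred_eq_of_pos hpos).symm⟩
  rw [hc, Nat.add_sub_cancel] at hsum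
  rw [hc]
  nlinarith [Nat.sub_add_cancel hge]

/-- A subgroup fixing a four-set pointwise and acting faithfully on another has order at most
four. -/
theorem card_fixing_le (hS : IsPGroup 2 S) (hfix : FixAtMostFour S Ω) {D E : Set Ω}
    (hD : D.ncard = 4) (hE : E.ncard = 4) (hinv : ∀ s : S, s • D = D)
    (hne : E ≠ D) : Nat.card ↥(fixingSubgroup S E) ≤ 4 := by
  classical
  set K := fixingSubgroup S E with hK
  have : Fact (Nat.Prime 2) := ⟨Nat.prime_two⟩
  have hfaith : ∀ k ∈ K, (∀ x ∈ D, k • x = x) → k = 1 := by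
    intro k hk hx
    by_contra h1
    exact hne (eq_of_fixing hfix h1 hE hD hk ((mem_fixingSubgroup_iff S).2 hx))
  by_cases hc : ∃ k ∈ K, k ≠ 1 ∧ ∃ c ∈ D, k • c = c
  · obtain ⟨k, hk, hk1, c, hcD, hkc⟩ := hc
    have hcE : c ∈ E := by
      rw [← fixedBy_eq hfix hk1 hE hk]
      exact hkc
    have hallc : ∀ l ∈ K, l • c = c := fun l hl => (mem_fixingSubgroup_iff S).1 hl c hcE
    let P : SubMulAction K Ω :=
      { carrier := D \ {c}
        smul_mem' := by
          rintro l x ⟨hx, hxc⟩
          refine ⟨?_, fun e => hxc ?_⟩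
          · have : (l : S) • x ∈ (l : S) • D := Set.smul_mem_smul_set hx
            rwa [hinv] at this
          · have e' : (l : S) • x = (l : S) • c := by rw [hallc l l.2]; exact e
            exact MulAction.injective (l : S) e' }
    let φ : K →* Equiv.Perm P := MulAction.toPermHom K P
    have hφ : Function.Injective φ := by
      rw [injective_iff_map_eq_one]
      intro l hl
      refine Subtype.ext (hfaith l l.2 fun x hx => ?_)
      by_cases hxc : x = c
      · rw [hxc]; exact hallc l l.2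
      · have := congrArg (fun σ : Equiv.Perm P => ((σ ⟨x, hx, hxc⟩ : P) : Ω)) hl
        exact this
    have h3 : Nat.card P = 3 := by
      change Nat.card ↥(D \ {c}) = 3
      rw [Nat.card_coe_set_eq, Set.ncard_sdiff_singleton_of_mem hcD, hD]
    have hdvd := Subgroup.card_dvd_of_injective φ hφ
    rw [Nat.card_perm, h3] at hdvd
    obtain ⟨j, hj⟩ := IsPGroup.iff_card.1 (hS.to_subgroup K)
    rw [hj] at hdvd ⊢
    have h6 : 2 ^ j ≤ 6 := Nat.le_of_dvd (by norm_num) hdvd
    rcases j with _ | _ | _ | j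
    · norm_num
    · norm_num
    · norm_num
    · exfalso
      rw [pow_succ, pow_succ, pow_succ] at h6
      have := Nat.one_le_two_pow (n := j)
      omega
  · push Not at hc
    obtain ⟨c, hcD⟩ : D.Nonempty := Set.nonempty_of_ncard_ne_zero (by omega)
    have hinj : Function.Injective (fun l : K => (⟨(l : S) • c, by
        have : (l : S) • c ∈ (l : S) • D := Set.smul_mem_smul_set hcD
        rwa [hinv] at this⟩ : D)) := by
      intro l l' h
      have e : (l : S) • c = (l' : S) • c := congrArg Subtype.val h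
      by_contra hne'
      refine hc _ (mul_mem (inv_mem l.2) l'.2) ?_ c hcD ?_
      · intro e1
        exact hne' (Subtype.ext (inv_mul_eq_one.1 e1))
      · rw [mul_smul, ← e, inv_smul_smul]
    have := Nat.card_le_card_of_injective _ hinj
    rwa [Nat.card_coe_set_eq, hD] at this

/-- The action on an invariant set. -/
def invariantHom (E : Set Ω) (hinv : ∀ s : S, s • E = E) : S →* Equiv.Perm E where
  toFun s :=
    { toFun := fun x => ⟨s • (x : Ω), by
        have h := Set.smul_mem_smul_set (a := s) x.2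
        rwa [hinv] at h⟩
      invFun := fun x => ⟨s⁻¹ • (x : Ω), by
        have h := Set.smul_mem_smul_set (a := s⁻¹) x.2
        rwa [hinv] at h⟩
      left_inv := fun x => Subtype.ext (inv_smul_smul s (x : Ω))
      right_inv := fun x => Subtype.ext (smul_inv_smul s (x : Ω)) }
  map_one' := Equiv.ext fun x => Subtype.ext (one_smul S (x : Ω))
  map_mul' s t := Equiv.ext fun x => Subtype.ext (mul_smul s t (x : Ω))

theorem mem_invariantHom_ker {E : Set Ω} {hinv : ∀ s : S, s • E = E} {s : S} :
    s ∈ (invariantHom E hinv).ker ↔ s ∈ fixingSubgroup S E := by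
  rw [MonoidHom.mem_ker, mem_fixingSubgroup_iff]
  refine ⟨fun h x hx => congrArg Subtype.val (congrArg (fun σ => σ ⟨x, hx⟩) h),
    fun h => Equiv.ext fun x => Subtype.ext (h x x.2)⟩

/-- A normal elementary subgroup of order eight above a normal four-group. -/
theorem exists_eight (hS : IsPGroup 2 S) (F : Subgroup S) [F.Normal] (hF2 : ∀ a ∈ F, a ^ 2 = 1)
    (hF4 : Nat.card F = 4) (A : Subgroup S) [A.Normal] (hA : IsMulCommutative A)
    (hA2 : ∀ a ∈ A, a ^ 2 = 1) (hA8 : 4 < Nat.card A) :
    ∃ E : Subgroup S, E.Normal ∧ F ≤ E ∧ Nat.card E = 8 ∧ (∀ a ∈ E, a ^ 2 = 1) ∧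
      ∀ a ∈ E, ∀ b ∈ E, a * b = b * a := by
  classical
  have : Fact (Nat.Prime 2) := ⟨Nat.prime_two⟩
  have elem : ∀ (W : Subgroup S), (∀ a ∈ W, a ^ 2 = 1) → ∀ a ∈ W, ∀ b ∈ W, a * b = b * a := by
    intro W hW a ha b hb
    have h1 := hW _ (mul_mem ha hb)
    have ha1 : a⁻¹ = a := inv_eq_of_mul_eq_one_left (by rw [← pow_two]; exact hW a ha)
    have hb1 : b⁻¹ = b := inv_eq_of_mul_eq_one_left (by rw [← pow_two]; exact hW b hb)
    rw [pow_two] at h1
    rw [eq_inv_of_mul_eq_one_left h1, mul_inv_rev, ha1, hb1]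
  have hFc := elem F hF2
  have hAc : ∀ a ∈ A, ∀ b ∈ A, a * b = b * a := fun a ha b hb =>
    congrArg Subtype.val (hA.is_comm.comm ⟨a, ha⟩ ⟨b, hb⟩)
  have hcom : ∀ a ∈ A, ∀ y ∈ F, a * y * a⁻¹ * y⁻¹ ∈ A ⊓ F := by
    intro a ha y hy
    refine ⟨?_, F.mul_mem ((inferInstance : F.Normal).conj_mem y hy _) (F.inv_mem hy)⟩
    rw [mul_assoc a y, mul_assoc a]
    exact mul_mem ha ((inferInstance : A.Normal).conj_mem _ (inv_mem ha) y)
  set A' : Subgroup S := A ⊓ Subgroup.centralizer (F : Set S) with hA'
  have hA'F : ¬ A' ≤ F := by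
    intro hle
    by_cases hFA : F ≤ A
    · have : A ≤ A' := le_inf le_rfl fun a ha =>
        Subgroup.mem_centralizer_iff.2 fun y hy => hAc y (hFA hy) a ha
      have := Subgroup.card_le_of_le (this.trans hle)
      omega
    obtain ⟨f, hfF, hfA⟩ := SetLike.not_le_iff_exists.1 hFA
    have hI2 : Nat.card (A ⊓ F : Subgroup S) ≤ 2 := by
      have hlt : Nat.card (A ⊓ F : Subgroup S) ≠ 4 := fun e => hFA
        ((Subgroup.eq_of_le_of_card_ge (inf_le_right : A ⊓ F ≤ F) (by rw [e, hF4])).ge.trans
          inf_le_left)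
      have hd : Nat.card (A ⊓ F : Subgroup S) ∣ 2 ^ 2 := by
        have := Subgroup.card_dvd_of_le (inf_le_right : A ⊓ F ≤ F)
        rwa [hF4] at this
      obtain ⟨i, hi, he⟩ := (Nat.dvd_prime_pow Nat.prime_two (m := 2)).1 hd
      interval_cases i <;> omega
    -- commutation with `f` gives centralisation of `F`
    have hgen : ∀ a ∈ A, a * f = f * a → a ∈ A' := by
      intro a ha haf
      refine ⟨ha, Subgroup.mem_centralizer_iff.2 fun y hy => ?_⟩
      by_cases hyA : y ∈ A
      · exact hAc y hyA a ha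
      by_cases hI : Nat.card (A ⊓ F : Subgroup S) = 2
      · have hidx : ((A ⊓ F).subgroupOf F).index = 2 := by
          have e := ((A ⊓ F).subgroupOf F).card_mul_index
          rw [Nat.card_congr (Subgroup.subgroupOfEquivOfLe (inf_le_right : A ⊓ F ≤ F)).toEquiv,
            hI, hF4] at e
          omega
        have hyf : y * f ∈ A := by
          have h := (Subgroup.mul_mem_iff_of_index_two hidx (a := ⟨y, hy⟩) (b := ⟨f, hfF⟩)).2
            ⟨fun h => absurd h.1 hyA, fun h => absurd h.1 hfA⟩
          exact h.1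
        have e1 : (y * f) * a = a * (y * f) := hAc _ hyf a ha
        refine mul_right_cancel (b := f) ?_
        rw [mul_assoc y a f, haf, ← mul_assoc, e1, mul_assoc]
      · have hb : A ⊓ F = ⊥ := Subgroup.eq_bot_of_card_eq _ (by
          have := Nat.card_pos (α := (A ⊓ F : Subgroup S))
          omega)
        have h := hcom a ha y hy
        rw [hb, Subgroup.mem_bot, mul_inv_eq_one, mul_inv_eq_iff_eq_mul] at h
        exact h.symm
    let ψ : A → (A ⊓ F : Subgroup S) := fun a => ⟨(a : S) * f * (a : S)⁻¹ * f⁻¹, hcom a a.2 f hfF⟩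
    -- injectivity on pairs (value, quotient in `A'`)
    have hsec : ∀ a : A, ∃ b : A, ψ b = ψ a := fun a => ⟨a, rfl⟩
    let rep : (A ⊓ F : Subgroup S) → A := fun v =>
      if h : ∃ b : A, ψ b = v then h.choose else 1
    have hrep : ∀ a : A, ψ (rep (ψ a)) = ψ a := fun a => by
      simp only [rep, dif_pos (hsec a)]
      exact (hsec a).choose_spec
    let Φ : A → (A ⊓ F : Subgroup S) × A' := fun a =>
      (ψ a, ⟨((rep (ψ a) : A) : S)⁻¹ * a, hgen _ (mul_mem (inv_mem (rep (ψ a)).2) a.2) (by
        set b := rep (ψ a)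
        have h' : (a : S) * f * (a : S)⁻¹ = (b : S) * f * (b : S)⁻¹ :=
          (mul_right_cancel (congrArg Subtype.val (hrep a))).symm
        have := mul_inv_eq_iff_eq_mul.1 h'
        rw [mul_assoc (b : S)⁻¹, this]
        group)⟩)
    have hΦ : Function.Injective Φ := by
      intro a b h
      have h1 : ψ a = ψ b := congrArg Prod.fst h
      have h2 : ((rep (ψ a) : A) : S)⁻¹ * a = ((rep (ψ b) : A) : S)⁻¹ * b :=
        congrArg (fun q => ((Prod.snd q : A') : S)) h
      rw [h1] at h2
      exact Subtype.ext (mul_left_cancel h2)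
    have hc := Nat.card_le_card_of_injective Φ hΦ
    rw [Nat.card_prod] at hc
    have hA'I : Nat.card A' ≤ 2 := le_trans
      (Subgroup.card_le_of_le (le_inf inf_le_left hle : A' ≤ A ⊓ F)) hI2
    have := Nat.mul_le_mul hI2 hA'I
    omega
  have hA'n : A'.Normal := Subgroup.normal_inf_normal _ _
  set π := QuotientGroup.mk' F
  have hTn : (A'.map π).Normal := hA'n.map π (QuotientGroup.mk'_surjective F)
  have hTb : A'.map π ≠ ⊥ := fun e => hA'F (by
    rwa [Subgroup.map_eq_bot_iff, QuotientGroup.ker_mk'] at e)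
  obtain ⟨z, ⟨x, hxA', rfl⟩, hzc, hzo⟩ :=
    TwoGroups.exists_central_involution_of_normal (hS.to_quotient F) (A'.map π) hTb
  have hxF : x ∉ F := fun h => by
    have : π x = 1 := (QuotientGroup.eq_one_iff x).2 h
    rw [this, orderOf_one] at hzo
    exact absurd hzo (by norm_num)
  have hx2 : x * x = 1 := by rw [← pow_two]; exact hA2 x hxA'.1
  have hxc : ∀ y ∈ F, y * x = x * y := fun y hy => Subgroup.mem_centralizer_iff.1 hxA'.2 y hy
  let E : Subgroup S :=
    { carrier := {y | y ∈ F ∨ x * y ∈ F}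
      one_mem' := Or.inl (one_mem F)
      mul_mem' := by
        rintro a b (ha | ha) (hb | hb)
        · exact Or.inl (mul_mem ha hb)
        · refine Or.inr ?_
          rw [← mul_assoc, ← hxc a ha, mul_assoc]
          exact mul_mem ha hb
        · refine Or.inr ?_
          rw [← mul_assoc]
          exact mul_mem ha hb
        · refine Or.inl ?_
          have h := mul_mem ha hb
          have e : x * a * (x * b) = a * b := by
            have hax : a * x = x * a := by
              have := hxc _ ha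
              have e2 : x * a * x = x * (x * a) := this
              rw [mul_assoc] at e2
              exact mul_left_cancel e2
            rw [mul_assoc, ← mul_assoc a, hax, mul_assoc x a, ← mul_assoc, hx2, one_mul]
          rwa [e] at h
      inv_mem' := by
        rintro a (ha | ha)
        · exact Or.inl (inv_mem ha)
        · refine Or.inr ?_
          have hxx : x⁻¹ = x := inv_eq_of_mul_eq_one_left hx2
          have h' : a⁻¹ * x ∈ F := by simpa [mul_inv_rev, hxx] using inv_mem ha
          have e : x * a⁻¹ = x * (a⁻¹ * x) * x := by simp [mul_assoc, hx2]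
          rw [e, ← hxc _ h']
          simpa [mul_assoc, hx2] using h' }
  have hmemE : ∀ y, y ∈ E ↔ y ∈ F ∨ x * y ∈ F := fun _ => Iff.rfl
  have hFE : F ≤ E := fun y hy => Or.inl hy
  have hE2 : ∀ a ∈ E, a ^ 2 = 1 := by
    intro a ha
    rcases ha with h | h
    · exact hF2 a h
    · have e : a = x * (x * a) := by rw [← mul_assoc, hx2, one_mul]
      rw [e, pow_two, mul_assoc x (x * a), ← mul_assoc (x * a) x, hxc _ h, mul_assoc x (x * a),
        ← mul_assoc x, hx2, one_mul, ← pow_two]
      exact hF2 _ h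
  refine ⟨E, ⟨fun a ha s => ?_⟩, hFE, ?_, hE2, elem E hE2⟩
  · rcases ha with h | h
    · exact Or.inl (Subgroup.Normal.conj_mem inferInstance a h s)
    · refine Or.inr ?_
      have e1 : s * x * s⁻¹ * x⁻¹ ∈ F := by
        rw [← QuotientGroup.eq_one_iff]
        have := Subgroup.mem_center_iff.1 hzc (π s)
        change π (s * x * s⁻¹ * x⁻¹) = 1
        rw [map_mul, map_mul, map_mul, this, map_inv, map_inv, mul_inv_cancel_right,
          mul_inv_cancel]
      have e2 := Subgroup.Normal.conj_mem inferInstance (x * a) h s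
      have e3 : x * (s * a * s⁻¹) = (s * x * s⁻¹ * x⁻¹)⁻¹ * (s * (x * a) * s⁻¹) := by
        simp [mul_assoc]
      rw [e3]
      exact mul_mem (inv_mem e1) e2
  · have hidx : (F.subgroupOf E).index = 2 := by
      rw [Subgroup.index_eq_two_iff]
      refine ⟨⟨x, Or.inr (by rw [hx2]; exact one_mem F)⟩, fun y => ?_⟩
      simp only [Subgroup.mem_subgroupOf, Subgroup.coe_mul]
      rcases y.2 with h | h
      · exact Or.inr ⟨h, fun h' => hxF (by
          have := mul_mem (inv_mem h) h'
          rwa [inv_mul_cancel_left] at this)⟩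
      · refine Or.inl ⟨?_, fun h' => hxF ?_⟩
        · have := hxc _ h
          have e2 : x * (y : S) * x = x * (x * y) := this
          rw [mul_assoc] at e2
          rw [mul_left_cancel e2]
          exact h
        · have := mul_mem h (inv_mem h')
          rwa [mul_inv_cancel_right] at this
    have e := (F.subgroupOf E).card_mul_index
    rw [Nat.card_congr (Subgroup.subgroupOfEquivOfLe hFE).toEquiv, hidx, hF4] at e
    omega

end TwoGroup

section Simple

variable {G Ω : Type*} [Group G] [Finite G] [IsSimpleGroup G] [MulAction G Ω] [FaithfulSMul G Ω]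
  [Finite Ω]

/-- Some involution of the Sylow subgroup fixes four points. -/
theorem exists_involution_in_sylow (S : Sylow 2 G)
    (hf' : ∃ g : G, orderOf g = 2 ∧ Nat.card (fixedBy Ω g) = 4) :
    ∃ u ∈ (S : Subgroup G), orderOf u = 2 ∧ (fixedBy Ω u).ncard = 4 := by
  have : Fact (Nat.Prime 2) := ⟨Nat.prime_two⟩
  obtain ⟨g, hg, h4⟩ := hf'
  have hp : IsPGroup 2 (Subgroup.zpowers g) :=
    IsPGroup.of_card (n := 1) (by rw [Nat.card_zpowers, hg, pow_one])
  obtain ⟨T, hT⟩ := hp.exists_le_sylow
  obtain ⟨x, hx⟩ := MulAction.exists_smul_eq G T S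
  refine ⟨x * g * x⁻¹, ?_, ?_, ?_⟩
  · rw [← hx, Sylow.coe_subgroup_smul, Subgroup.mem_pointwise_smul_iff_inv_smul_mem]
    simpa [mul_assoc] using hT (Subgroup.mem_zpowers g)
  · rw [← hg]
    exact orderOf_injective (MulAut.conj x).toMonoidHom (MulAut.conj x).injective g
  · rw [fixedBy_conj, Set.ncard_smul_set, ← Nat.card_coe_set_eq, h4]

/-- The set of orbit points is invariant. -/
theorem smul_orbit_eq (S : Subgroup G) (b : Ω) (s : S) :
    s • orbit S b = orbit S b := MulAction.smul_orbit s b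

/-- Without small orbits the sectional rank is at most four. -/
theorem rank_of_no_small_orbit (hna : ¬ IsMulCommutative G) (hfix : FixAtMostFour G Ω)
    (S : Sylow 2 G) (hf' : ∃ g : G, orderOf g = 2 ∧ Nat.card (fixedBy Ω g) = 4)
    (hbig : ∀ b : Ω, 4 < Nat.card (orbit (S : Subgroup G) b)) :
    Cfsg.SectionalPRankLE 2 4 (S : Subgroup G) := by
  classical
  have : Fact (Nat.Prime 2) := ⟨Nat.prime_two⟩
  obtain ⟨u, huS, hu, hD⟩ := exists_involution_in_sylow (Ω := Ω) S hf'
  set D := fixedBy Ω u
  have hfixS := hfix.restrict (S : Subgroup G)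
  -- eight divides the degree
  have h8 : 8 ∣ Nat.card Ω := by
    have := Fintype.ofFinite Ω
    have := Fintype.ofFinite (Quotient (orbitRel (S : Subgroup G) Ω))
    rw [Nat.card_congr (MulAction.selfEquivSigmaOrbits (S : Subgroup G) Ω), Nat.card_sigma]
    refine Finset.dvd_sum fun q _ => ?_
    obtain ⟨j, hj⟩ := S.isPGroup'.card_orbit (Quotient.out q)
    have h := hbig (Quotient.out q)
    rw [hj] at h ⊢
    have h3 : 3 ≤ j := by
      by_contra hlt
      interval_cases j <;> simp at h
    exact Nat.pow_dvd_pow 2 h3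
  set K := fixingSubgroup (S : Subgroup G) D with hK
  have hKdvd : Nat.card K ∣ Nat.card Ω - 4 := card_fixing_dvd hfixS hD
  obtain ⟨j, hj⟩ := IsPGroup.iff_card.1 (S.isPGroup'.to_subgroup K)
  have hj2 : j ≤ 2 := by
    by_contra hlt
    have h := (Nat.pow_dvd_pow 2 (show 3 ≤ j by omega)).trans (hj ▸ hKdvd)
    have hge : 4 ≤ Nat.card Ω := hD ▸ Set.ncard_le_card _
    norm_num at h
    omega
  refine sectional_of_involution S.isPGroup' hfixS ⟨u, huS⟩ (by rw [Subgroup.orderOf_mk]; exact hu)
    D hD ((mem_fixingSubgroup_iff _).2 fun x hx => hx) ?_ ?_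
  · rw [← hK, hj]
    exact Nat.pow_le_pow_right (by norm_num) hj2
  · intro htop
    obtain ⟨a, ha⟩ : D.Nonempty := Set.nonempty_of_ncard_ne_zero (by omega)
    have hle : orbit (S : Subgroup G) a ⊆ D := by
      rintro _ ⟨s, rfl⟩
      have hs : s ∈ stabilizer (S : Subgroup G) D := htop ▸ Subgroup.mem_top s
      rw [← hs]
      exact Set.smul_mem_smul_set ha
    have := Set.ncard_le_ncard hle (Set.toFinite _)
    have := hbig a
    rw [Nat.card_coe_set_eq] at this
    omega

/-- A small orbit has exactly four points. -/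
theorem card_small_orbit (h4n : 4 ∣ Nat.card Ω) (htrans : IsPretransitive G Ω) (S : Sylow 2 G)
    (b : Ω) (hb : Nat.card (orbit (S : Subgroup G) b) ≤ 4) :
    (orbit (S : Subgroup G) b).ncard = 4 := by
  have : Fact (Nat.Prime 2) := ⟨Nat.prime_two⟩
  set T := stabilizer (S : Subgroup G) b
  have h1 : Nat.card (orbit (S : Subgroup G) b) * Nat.card T = Nat.card (S : Subgroup G) := by
    rw [← Nat.card_prod]
    exact Nat.card_congr (MulAction.orbitProdStabilizerEquivGroup (S : Subgroup G) b)
  have h2 : Nat.card T ∣ Nat.card (stabilizer G b) := by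
    refine Subgroup.card_dvd_of_injective (MonoidHom.mk' (fun x : T =>
      (⟨((x : (S : Subgroup G)) : G), x.2⟩ : stabilizer G b)) fun _ _ => rfl) ?_
    intro x y h
    exact Subtype.ext (Subtype.ext (congrArg (fun z : stabilizer G b => (z : G)) h))
  have h3 : 4 * Nat.card T ∣ Nat.card G := by
    have e := (stabilizer G b).index_mul_card
    rw [MulAction.index_stabilizer_of_transitive] at e
    rw [← e]
    exact mul_dvd_mul h4n h2
  obtain ⟨i, hi⟩ := IsPGroup.iff_card.1 (S.isPGroup'.to_subgroup T)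
  have h4 : 4 * Nat.card T ∣ Nat.card (S : Subgroup G) := by
    rw [Sylow.card_eq_multiplicity]
    rw [hi, show 4 * 2 ^ i = 2 ^ (i + 2) by ring] at h3 ⊢
    exact Nat.pow_dvd_pow 2 ((Nat.prime_two.pow_dvd_iff_le_factorization Nat.card_pos.ne').1 h3)
  have h5 := Nat.le_of_dvd Nat.card_pos h4
  rw [← h1, Nat.card_coe_set_eq] at h5
  rw [Nat.card_coe_set_eq] at hb
  have := Nat.le_of_mul_le_mul_right h5 Nat.card_pos
  omega

/-- An involution outside the kernel of a small orbit with fixed points bounds the rank. -/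
theorem rank_of_outside (hfix : FixAtMostFour G Ω) (S : Sylow 2 G) (D : Set Ω) (hD : D.ncard = 4)
    (hinv : ∀ s : (S : Subgroup G), s • D = D) (u : G) (huS : u ∈ (S : Subgroup G))
    (hu : orderOf u = 2) (hE : (fixedBy Ω u).ncard = 4) (huD : u ∉ fixingSubgroup G D) :
    Cfsg.SectionalPRankLE 2 4 (S : Subgroup G) := by
  set E := fixedBy Ω u
  have hne : E ≠ D := fun e => huD (e ▸ mem_fixing_fixedBy u)
  have hfixS := hfix.restrict (S : Subgroup G)
  have hu1 : (⟨u, huS⟩ : (S : Subgroup G)) ∈ fixingSubgroup (S : Subgroup G) E :=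
    (mem_fixingSubgroup_iff _).2 fun x hx => hx
  by_cases hst : stabilizer (S : Subgroup G) E = ⊤
  · have hinvE : ∀ s : (S : Subgroup G), s • E = E := fun s =>
      (hst ▸ Subgroup.mem_top s : s ∈ stabilizer (S : Subgroup G) E)
    refine sectional_of_two_four_sets S.isPGroup' (α := D) (β := E)
      (le_of_eq (by rw [Nat.card_coe_set_eq, hD])) (le_of_eq (by rw [Nat.card_coe_set_eq, hE]))
      (invariantHom D hinv) (invariantHom E hinvE) ?_
    rw [Subgroup.eq_bot_iff_forall]
    rintro s ⟨h1, h2⟩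
    have h1 : s ∈ (invariantHom D hinv).ker := h1
    have h2 : s ∈ (invariantHom E hinvE).ker := h2
    rw [mem_invariantHom_ker] at h1 h2
    by_contra h
    exact hne (eq_of_fixing hfixS h hE hD h2 h1)
  · exact sectional_of_involution S.isPGroup' hfixS ⟨u, huS⟩
      (by rw [Subgroup.orderOf_mk]; exact hu) E hE hu1
      (card_fixing_le S.isPGroup' hfixS hD hE hinv hne) hst

/-- A four-group in the pointwise stabiliser centralised by a free involution makes it good. -/
theorem good_of_four (hfix : FixAtMostFour G Ω) {D : Set Ω} (hD : D.ncard = 4) {t : G}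
    (ht : orderOf t = 2) (htD : t • D = D) (htfree : ∀ a : Ω, t • a ≠ a)
    (hno : ∀ x ∈ stabilizer G D, orderOf x = 2 → ∀ a : Ω, x • a = a → x ∈ fixingSubgroup G D)
    (W : Subgroup G) (hW : W ≤ fixingSubgroup G D) (hW2 : ∀ w ∈ W, w ^ 2 = 1)
    (hW4 : 4 ≤ Nat.card W) (hcomm : ∀ w ∈ W, w * t = t * w) :
    Subgroup.centralizer ({t} : Set G) ≤ stabilizer G D := by
  classical
  refine centralizer_le_stabilizer hfix D hD t ht htD (fun a _ => htfree a) hno ?_
  let F : {w : W // w ≠ 1} → {x : G // orderOf x = 2 ∧ x ∈ fixingSubgroup G D ∧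
      x ∈ Subgroup.centralizer ({t} : Set G)} := fun w =>
    ⟨((w.1 : W) : G), orderOf_eq_prime (hW2 _ w.1.2) (fun e => w.2 (Subtype.ext e)), hW w.1.2,
      Subgroup.mem_centralizer_singleton_iff.2 (hcomm _ w.1.2)⟩
  have hF : Function.Injective F := fun a b h => by
    have h' := congrArg Subtype.val h
    exact Subtype.ext (Subtype.ext h')
  have hc : Nat.card {w : W // w ≠ 1} = Nat.card W - 1 := by
    have := Fintype.ofFinite W
    rw [Nat.card_eq_fintype_card, Nat.card_eq_fintype_card, Fintype.card_subtype_compl,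
      Fintype.card_subtype_eq]
  have h := Nat.card_le_card_of_injective F hF
  omega

/-- In an elementary group of order eight normalised by an involution at least four elements
are fixed. -/
theorem four_le_fixed {S : Type*} [Group S] [Finite S] (E : Subgroup S) [hEn : E.Normal]
    (h8 : Nat.card E = 8) (hE2 : ∀ a ∈ E, a ^ 2 = 1) (hEc : ∀ a ∈ E, ∀ b ∈ E, a * b = b * a)
    {t : S} (ht : orderOf t = 2) :
    4 ≤ Nat.card (E ⊓ Subgroup.centralizer ({t} : Set S) : Subgroup S) := by
  have htt : t * t = 1 := by rw [← pow_two, ← ht, pow_orderOf_eq_one]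
  have hti : t⁻¹ = t := inv_eq_of_mul_eq_one_left htt
  let ψ : E →* E := MonoidHom.mk' (fun e => ⟨(e : S) * (t * e * t⁻¹),
    mul_mem e.2 (hEn.conj_mem _ e.2 t)⟩) (by
      intro a b
      refine Subtype.ext ?_
      simp only [Subgroup.coe_mul]
      rw [show t * ((a : S) * b) * t⁻¹ = (t * a * t⁻¹) * (t * b * t⁻¹) by group]
      have hc := hEc (b : S) b.2 _ (hEn.conj_mem _ a.2 t)
      rw [mul_assoc (a : S) (b : S), ← mul_assoc (b : S), hc]
      simp [mul_assoc])
  have hker : ∀ e : E, e ∈ ψ.ker → (e : S) * t = t * e := by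
    intro e he
    have h : (e : S) * (t * e * t⁻¹) = 1 := congrArg Subtype.val he
    have he1 : (e : S)⁻¹ = e := inv_eq_of_mul_eq_one_left (by rw [← pow_two]; exact hE2 _ e.2)
    have h' : t * e * t⁻¹ = (e : S) := (eq_inv_of_mul_eq_one_right h).trans he1
    rw [mul_inv_eq_iff_eq_mul] at h'
    exact h'.symm
  have hrk : ψ.range ≤ ψ.ker := by
    rintro _ ⟨e, rfl⟩
    refine Subtype.ext ?_
    change (e : S) * (t * e * t⁻¹) * (t * ((e : S) * (t * e * t⁻¹)) * t⁻¹) = 1
    have hE1 : (e : S) * (t * e * t⁻¹) ∈ E := mul_mem e.2 (hEn.conj_mem _ e.2 t)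
    have hfix : t * ((e : S) * (t * e * t⁻¹)) * t⁻¹ = (e : S) * (t * e * t⁻¹) := by
      calc t * ((e : S) * (t * e * t⁻¹)) * t⁻¹
          = (t * e * t⁻¹) * ((t * t) * e * (t * t)⁻¹) := by group
        _ = (t * e * t⁻¹) * e := by simp [htt]
        _ = (e : S) * (t * e * t⁻¹) := hEc _ (hEn.conj_mem _ e.2 t) _ e.2
    rw [hfix, ← pow_two]
    exact hE2 _ hE1
  have h1 := Subgroup.card_mul_index ψ.ker
  rw [Subgroup.index_ker, h8] at h1
  have h2 := Subgroup.card_le_of_le hrk
  have h3 : Nat.card ψ.ker ≤ Nat.card (E ⊓ Subgroup.centralizer ({t} : Set S) : Subgroup S) :=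
    Nat.card_le_card_of_injective (fun e => (⟨((e : E) : S), (e : E).2,
      Subgroup.mem_centralizer_singleton_iff.2 (hker _ e.2)⟩ :
        (E ⊓ Subgroup.centralizer ({t} : Set S) : Subgroup S)))
      fun a b h => Subtype.ext (Subtype.ext (congrArg (fun z :
        (E ⊓ Subgroup.centralizer ({t} : Set S) : Subgroup S) => (z : S)) h))
  by_contra hlt
  have hk : Nat.card ψ.ker ≤ 3 := by omega
  interval_cases hh : Nat.card ψ.ker <;> omega

/-- A four-element orbit of the Sylow subgroup whose kernel contains all involutions with fixed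
points gives a strongly embedded subgroup or rank at most four. -/
theorem embedded_or_rank (hfix : FixAtMostFour G Ω) (hn : 4 < Nat.card Ω)
    (htrans : IsPretransitive G Ω) (S : Sylow 2 G) (D : Set Ω) (hD : D.ncard = 4)
    (hinv : ∀ s : (S : Subgroup G), s • D = D) (z₀ : G) (hz₀S : z₀ ∈ (S : Subgroup G))
    (hz₀D : z₀ ∈ fixingSubgroup G D) (hz₀1 : z₀ ≠ 1)
    (hA2 : ∀ u ∈ (S : Subgroup G), orderOf u = 2 → ∀ a : Ω, u • a = a →
      u ∈ fixingSubgroup G D) :
    (∃ H : Subgroup G, Cfsg.IsStronglyEmbedded H) ∨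
      Cfsg.SectionalPRankLE 2 4 (S : Subgroup G) := by
  classical
  have : Fact (Nat.Prime 2) := ⟨Nat.prime_two⟩
  set H := stabilizer G D with hH
  have hSH : (S : Subgroup G) ≤ H := fun s hs => hinv ⟨s, hs⟩
  have hQH : fixingSubgroup G D ≤ H := fun g hg => by
    rw [hH, mem_stabilizer_iff]
    refine (Set.image_congr fun x hx => (mem_fixingSubgroup_iff G).1 hg x hx).trans ?_
    exact Set.image_id' D
  -- conjugating involutions of `H` into `S`
  have hconj : ∀ i ∈ H, orderOf i = 2 → ∃ h ∈ H, h * i * h⁻¹ ∈ (S : Subgroup G) := by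
    intro i hi hi2
    have hp : IsPGroup 2 (Subgroup.zpowers (⟨i, hi⟩ : H)) :=
      IsPGroup.of_card (n := 1) (by rw [Nat.card_zpowers, Subgroup.orderOf_mk, hi2, pow_one])
    obtain ⟨T, hT⟩ := hp.exists_le_sylow
    obtain ⟨h, hh⟩ := MulAction.exists_smul_eq H T (S.subtype hSH)
    refine ⟨h, h.2, ?_⟩
    have hm : h * ⟨i, hi⟩ * h⁻¹ ∈ (S.subtype hSH : Subgroup H) := by
      rw [← hh, Sylow.coe_subgroup_smul, Subgroup.mem_pointwise_smul_iff_inv_smul_mem]
      simpa [mul_assoc] using hT (Subgroup.mem_zpowers _)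
    exact hm
  have horder : ∀ (h i : G), orderOf i = 2 → orderOf (h * i * h⁻¹) = 2 := fun h i hi => by
    rw [← hi]
    exact orderOf_injective (MulAut.conj h).toMonoidHom (MulAut.conj h).injective i
  have hno : ∀ x ∈ stabilizer G D, orderOf x = 2 → ∀ a : Ω, x • a = a →
      x ∈ fixingSubgroup G D := by
    intro x hx hx2 a hax
    obtain ⟨h, hh, hS⟩ := hconj x hx hx2
    have hm := hA2 _ hS (horder h x hx2) (h • a) (by simp [mul_smul, hax])
    rw [mem_fixingSubgroup_iff] at hm ⊢
    intro y hy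
    have hy' : h • y ∈ D := by
      rw [← (hh : h • D = D)]
      exact Set.smul_mem_smul_set hy
    have := hm _ hy'
    simpa [mul_smul] using this
  let f : (S : Subgroup G) →* Equiv.Perm D := invariantHom D hinv
  have hker : ∀ s : (S : Subgroup G), s ∈ f.ker ↔ (s : G) ∈ fixingSubgroup G D := fun s => by
    rw [mem_invariantHom_ker, mem_fixingSubgroup_iff, mem_fixingSubgroup_iff]
    exact Iff.rfl
  by_cases hF : ∃ F : Subgroup (S : Subgroup G), F.Normal ∧ F ≤ f.ker ∧
      (∀ a ∈ F, a ^ 2 = 1) ∧ Nat.card F = 4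
  swap
  · push Not at hF
    exact Or.inr (sectional_of_no_normal_four S.isPGroup' (α := D)
      (le_of_eq (by rw [Nat.card_coe_set_eq, hD])) f hF)
  obtain ⟨F, hFn, hFQ, hF2, hF4⟩ := hF
  by_cases hE8 : ∀ A : Subgroup (S : Subgroup G), A.Normal → IsMulCommutative A →
      (∀ a ∈ A, a ^ 2 = 1) → Nat.card A ≤ 4
  · exact Or.inr (S0501.result S.isPGroup' hE8)
  push Not at hE8
  obtain ⟨A, hAn, hAc, hA2', hA8⟩ := hE8
  obtain ⟨E, hEn, hFE, hE8, hE2, hEc⟩ := exists_eight S.isPGroup' F hF2 hF4 A hAc hA2' hA8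
  refine Or.inl ⟨H, ?_⟩
  -- the map of subgroups of `S` into `G`
  set F' : Subgroup G := F.map (S : Subgroup G).subtype with hF'
  have hF'4 : Nat.card F' = 4 := by
    rw [hF', Subgroup.card_map_of_injective Subtype.val_injective, hF4]
  have hF'Q : F' ≤ fixingSubgroup G D := by
    rintro _ ⟨w, hw, rfl⟩
    exact (hker w).1 (hFQ hw)
  have hF'2 : ∀ w ∈ F', w ^ 2 = 1 := by
    rintro _ ⟨w, hw, rfl⟩
    have := hF2 w hw
    exact congrArg Subtype.val this
  -- free involutions of `S` have centraliser in `H`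
  have hfree : ∀ t ∈ (S : Subgroup G), orderOf t = 2 → (∀ a : Ω, t • a ≠ a) →
      Subgroup.centralizer ({t} : Set G) ≤ H := by
    intro t htS ht htf
    have htD : t • D = D := hinv ⟨t, htS⟩
    set tS : (S : Subgroup G) := ⟨t, htS⟩
    have htS2 : orderOf tS = 2 := by rw [Subgroup.orderOf_mk]; exact ht
    by_cases hcF : ∀ w ∈ F, w * tS = tS * w
    · refine good_of_four hfix hD ht htD htf hno F' hF'Q hF'2 hF'4.ge ?_
      rintro _ ⟨w, hw, rfl⟩
      exact congrArg Subtype.val (hcF w hw)
    have hC4 := four_le_fixed E hE8 hE2 hEc htS2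
    set C : Subgroup (S : Subgroup G) :=
      E ⊓ Subgroup.centralizer ({tS} : Set (S : Subgroup G)) with hC
    by_cases hEQ : E ≤ f.ker
    · refine good_of_four hfix hD ht htD htf hno (C.map (S : Subgroup G).subtype) ?_ ?_ ?_ ?_
      · rintro _ ⟨w, hw, rfl⟩
        exact (hker w).1 (hEQ hw.1)
      · rintro _ ⟨w, hw, rfl⟩
        exact congrArg Subtype.val (hE2 w hw.1)
      · rwa [Subgroup.card_map_of_injective Subtype.val_injective]
      · rintro _ ⟨w, hw, rfl⟩
        exact congrArg Subtype.val (Subgroup.mem_centralizer_singleton_iff.1 hw.2)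
    have hEF : ∀ w ∈ E, w ∈ f.ker → w ∈ F := by
      intro w hwE hwk
      by_contra hwF
      have hlt : F < E ⊓ f.ker := lt_of_le_of_ne (le_inf hFE hFQ) fun e => hwF (e ▸ ⟨hwE, hwk⟩)
      have hd := Subgroup.card_dvd_of_le (inf_le_left : E ⊓ f.ker ≤ E)
      have hgt : 4 < Nat.card (E ⊓ f.ker : Subgroup (S : Subgroup G)) := by
        by_contra h
        exact hlt.ne (Subgroup.eq_of_le_of_card_ge hlt.le (by omega))
      rw [hE8] at hd
      have hle8 := Nat.le_of_dvd (by norm_num) hd
      have h8' : Nat.card (E ⊓ f.ker : Subgroup (S : Subgroup G)) = 8 := by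
        interval_cases hk : Nat.card (E ⊓ f.ker : Subgroup (S : Subgroup G)) <;> omega
      exact hEQ ((Subgroup.eq_of_le_of_card_ge (inf_le_left : E ⊓ f.ker ≤ E)
        (by rw [h8', hE8])).ge.trans inf_le_right)
    -- an element of `C` outside `F` and one of `F` centralised by `t`
    obtain ⟨e, heC, heF⟩ : ∃ e ∈ C, e ∉ F := by
      by_contra hall
      push Not at hall
      apply hcF
      have heq := Subgroup.eq_of_le_of_card_ge (show C ≤ F from hall) (by rw [hF4]; exact hC4)
      intro w hw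
      rw [← heq] at hw
      exact Subgroup.mem_centralizer_singleton_iff.1 hw.2
    have htt : tS * tS = 1 := by
      have := pow_orderOf_eq_one tS
      rwa [htS2, pow_two] at this
    obtain ⟨w, hw, hwne⟩ := by push Not at hcF; exact hcF
    set z : (S : Subgroup G) := w * (tS * w * tS) with hzdef
    have hti : tS⁻¹ = tS := inv_eq_of_mul_eq_one_left htt
    have hw' : tS * w * tS ∈ F := by
      have := hFn.conj_mem w hw tS
      rwa [hti] at this
    have hwe : w ∈ E := hFE hw
    have hw'e : tS * w * tS ∈ E := hFE hw'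
    have hzF : z ∈ F := mul_mem hw hw'
    have hzt : z * tS = tS * z := by
      calc z * tS = tS * w * tS * w * tS := by rw [hzdef, hEc _ hwe _ hw'e]
        _ = tS * z := by rw [hzdef]; simp only [mul_assoc]
    have hz1 : z ≠ 1 := by
      intro e1
      apply hwne
      have h1 : w⁻¹ = tS * w * tS := inv_eq_of_mul_eq_one_right e1
      have hwi : w⁻¹ = w := inv_eq_of_mul_eq_one_left (by rw [← pow_two]; exact hF2 w hw)
      rw [hwi] at h1
      conv_lhs => rw [h1, mul_assoc, htt, mul_one]
    -- move to `G`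
    have hord : ∀ x : (S : Subgroup G), x ^ 2 = 1 → x ≠ 1 → orderOf (x : G) = 2 := fun x h2 h1 =>
      orderOf_eq_prime (congrArg Subtype.val h2) fun e => h1 (Subtype.ext e)
    have hz2 := hord z (hF2 z hzF) hz1
    have hzQ : (z : G) ∈ fixingSubgroup G D := (hker z).1 (hFQ hzF)
    have hzG1 : (z : G) ≠ 1 := fun e => hz1 (Subtype.ext e)
    -- centralisers of the free members of `E`
    have hgoodE : ∀ x ∈ E, x ∉ F → Subgroup.centralizer ({(x : G)} : Set G) ≤ H := by
      intro x hx hxF
      have hx2 := hord x (hE2 x hx) fun e => hxF (e ▸ one_mem F)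
      refine good_of_four hfix hD hx2 (hinv x) ?_ hno F' hF'Q hF'2 hF'4.ge ?_
      · intro a ha
        exact hxF (hEF x hx ((hker x).2 (hA2 _ x.2 hx2 a ha)))
      · rintro _ ⟨v, hv, rfl⟩
        exact congrArg Subtype.val (hEc v (hFE hv) x hx)
    have heE : e ∈ E := heC.1
    have het : e * tS = tS * e := Subgroup.mem_centralizer_singleton_iff.1 heC.2
    have he2 := hord e (hE2 e heE) fun e1 => heF (e1 ▸ one_mem F)
    by_cases hm : 3 ≤ Nat.card {x : G // orderOf x = 2 ∧ x ∈ fixingSubgroup G D ∧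
        x ∈ Subgroup.centralizer ({t} : Set G)}
    · exact centralizer_le_stabilizer hfix D hD t ht htD (fun a _ => htf a) hno hm
    -- `z` is the only involution of the pointwise stabiliser centralising `t`
    have hztG : (z : G) * t = t * (z : G) := congrArg Subtype.val hzt
    have huniq : ∀ x : G, orderOf x = 2 → x ∈ fixingSubgroup G D → x * t = t * x →
        x = (z : G) := by
      intro x hx hxQ hxt
      by_contra hne
      apply hm
      let P := {x : G // orderOf x = 2 ∧ x ∈ fixingSubgroup G D ∧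
        x ∈ Subgroup.centralizer ({t} : Set G)}
      have hxzt : ((z : G) * x * (z : G)⁻¹) * t = t * ((z : G) * x * (z : G)⁻¹) := by
        have hzi : (z : G)⁻¹ * t = t * (z : G)⁻¹ := (Commute.inv_left hztG).eq
        rw [mul_assoc _ (z : G)⁻¹ t, hzi, ← mul_assoc, mul_assoc (z : G) x t, hxt,
          ← mul_assoc (z : G), hztG]
        simp only [mul_assoc]
      let p₁ : P := ⟨z, hz2, hzQ, Subgroup.mem_centralizer_singleton_iff.2 hztG⟩
      let p₂ : P := ⟨x, hx, hxQ, Subgroup.mem_centralizer_singleton_iff.2 hxt⟩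
      have hzz : (z : G) * z = 1 := by
        have := pow_orderOf_eq_one (z : G)
        rwa [hz2, pow_two] at this
      have hxx : x * x = 1 := by
        have := pow_orderOf_eq_one x
        rwa [hx, pow_two] at this
      by_cases hcm : (z : G) * x * (z : G)⁻¹ = x
      · rw [mul_inv_eq_iff_eq_mul] at hcm
        let p₃ : P := ⟨(z : G) * x, orderOf_eq_prime (by
            rw [pow_two, mul_assoc, ← mul_assoc x, ← hcm, mul_assoc (z : G) x, hxx, mul_one, hzz])
            (fun e1 => hne (by
              have := eq_inv_of_mul_eq_one_right e1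
              rwa [inv_eq_of_mul_eq_one_left hzz] at this)),
          mul_mem hzQ hxQ, mul_mem (Subgroup.mem_centralizer_singleton_iff.2 hztG)
            (Subgroup.mem_centralizer_singleton_iff.2 hxt)⟩
        have h12 : p₁ ≠ p₂ := fun h => hne (congrArg Subtype.val h).symm
        have h13 : p₁ ≠ p₃ := fun h => by
          have := left_eq_mul.1 (congrArg Subtype.val h)
          simp [this] at hx
        have h23 : p₂ ≠ p₃ := fun h => hzG1 (right_eq_mul.1 (congrArg Subtype.val h))
        have : Fintype P := Fintype.ofFinite P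
        rw [Nat.card_eq_fintype_card]
        exact Fintype.two_lt_card_iff.2 ⟨p₁, p₂, p₃, h12, h13, h23⟩
      · let p₃ : P := ⟨(z : G) * x * (z : G)⁻¹, horder _ _ hx,
          mul_mem (mul_mem hzQ hxQ) (inv_mem hzQ), Subgroup.mem_centralizer_singleton_iff.2 hxzt⟩
        have h12 : p₁ ≠ p₂ := fun h => hne (congrArg Subtype.val h).symm
        have h13 : p₁ ≠ p₃ := fun h => by
          have h' : (z : G) = (z : G) * x * (z : G)⁻¹ := congrArg Subtype.val h
          rw [eq_mul_inv_iff_mul_eq] at h'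
          exact hne (mul_left_cancel h').symm
        have h23 : p₂ ≠ p₃ := fun h => hcm (congrArg Subtype.val h).symm
        have : Fintype P := Fintype.ofFinite P
        rw [Nat.card_eq_fintype_card]
        exact Fintype.two_lt_card_iff.2 ⟨p₁, p₂, p₃, h12, h13, h23⟩
    have hze : (z * e) ∉ F := fun h => heF (by
      have := mul_mem (inv_mem hzF) h
      rwa [inv_mul_cancel_left] at this)
    refine centralizer_le_of_isolated H t (z : G) (e : G) hz2 hztG he2
      (congrArg Subtype.val het) (congrArg Subtype.val (hEc e heE z (hFE hzF)))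
      (fun h => heF (by rw [show e = z from Subtype.ext h]; exact hzF))
      (fun g _ hg => smul_of_commute hfix hD hzG1 hzQ hg)
      (fun g _ hg => hgoodE e heE heF (Subgroup.mem_centralizer_singleton_iff.2 hg))
      (fun g _ hg => hgoodE (z * e) (mul_mem (hFE hzF) heE) hze
        (Subgroup.mem_centralizer_singleton_iff.2 hg)) ?_ ?_
    · intro g hg hgt
      have hcl : (g * z * g⁻¹) * t = t * (g * z * g⁻¹) := by
        have hgi : g⁻¹ * t = t * g⁻¹ := (Commute.inv_left hgt).eq
        rw [mul_assoc _ g⁻¹ t, hgi, ← mul_assoc, mul_assoc g (z : G) t, hztG, ← mul_assoc g,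
          hgt]
        simp only [mul_assoc]
      have hQ' : g * z * g⁻¹ ∈ fixingSubgroup G D := by
        rw [mem_fixingSubgroup_iff]
        intro y hy
        have hy' : g⁻¹ • y ∈ D := by
          rw [← (inv_mem hg : g⁻¹ • D = D)]
          exact Set.smul_mem_smul_set hy
        rw [mul_smul, mul_smul, (mem_fixingSubgroup_iff G).1 hzQ _ hy', smul_inv_smul]
      have := huniq _ (horder g _ hz2) hQ' hcl
      rwa [mul_inv_eq_iff_eq_mul] at this
    · intro g hgt hgH
      have hcl : (g * z * g⁻¹) * t = t * (g * z * g⁻¹) := by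
        have hgi : g⁻¹ * t = t * g⁻¹ := (Commute.inv_left hgt).eq
        rw [mul_assoc _ g⁻¹ t, hgi, ← mul_assoc, mul_assoc g (z : G) t, hztG, ← mul_assoc g,
          hgt]
        simp only [mul_assoc]
      obtain ⟨a, ha⟩ : D.Nonempty := Set.nonempty_of_ncard_ne_zero (by omega)
      refine huniq _ (horder g _ hz2) (hno _ hgH (horder g _ hz2) (g • a) ?_) hcl
      rw [mul_smul, mul_smul, inv_smul_smul, (mem_fixingSubgroup_iff G).1 hzQ a ha]
  -- centralisers of all involutions of `H`
  have hC : ∀ i ∈ H, orderOf i = 2 → Subgroup.centralizer ({i} : Set G) ≤ H := by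
    intro i hi hi2 c hc
    rw [Subgroup.mem_centralizer_singleton_iff] at hc
    by_cases hfx : ∃ a : Ω, i • a = a
    · obtain ⟨a, ha⟩ := hfx
      exact smul_of_commute hfix hD (fun e => by simp [e] at hi2) (hno i hi hi2 a ha) hc
    · push Not at hfx
      obtain ⟨h, hh, hS⟩ := hconj i hi hi2
      have hfree' : ∀ a : Ω, (h * i * h⁻¹) • a ≠ a := fun a ha => hfx (h⁻¹ • a) (by
        rw [mul_smul, mul_smul] at ha
        exact (eq_inv_smul_iff).2 ha)
      have hm := hfree _ hS (horder h i hi2) hfree' (x := h * c * h⁻¹)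
        (Subgroup.mem_centralizer_singleton_iff.2 (by
          simp only [mul_assoc, inv_mul_cancel_left]
          rw [← mul_assoc c, hc]
          simp only [mul_assoc]))
      simpa [mul_assoc] using mul_mem (mul_mem (inv_mem hh) hm) hh
  -- every involution of `H` commutes with one fixing `D` pointwise
  obtain ⟨z, hzQ, hzc, hz2⟩ : ∃ z : (S : Subgroup G), z ∈ f.ker ∧
      z ∈ Subgroup.center (S : Subgroup G) ∧ orderOf z = 2 := by
    refine TwoGroups.exists_central_involution_of_normal S.isPGroup' f.ker fun e => hz₀1 ?_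
    have := (hker ⟨z₀, hz₀S⟩).2 hz₀D
    rw [e, Subgroup.mem_bot] at this
    exact congrArg Subtype.val this
  have hev : Even (Nat.card H) := by
    have h2 := orderOf_dvd_natCard (⟨(z : G), hSH z.2⟩ : H)
    rw [Subgroup.orderOf_mk, Subgroup.orderOf_coe, hz2] at h2
    exact even_iff_two_dvd.2 h2
  have hne : H ≠ ⊤ := by
    intro e
    obtain ⟨a, ha⟩ : D.Nonempty := Set.nonempty_of_ncard_ne_zero (by omega)
    have huniv : D = Set.univ := by
      rw [Set.eq_univ_iff_forall]
      intro x
      obtain ⟨g, rfl⟩ := MulAction.exists_smul_eq G a x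
      have hg : g ∈ H := e ▸ Subgroup.mem_top g
      rw [← (hg : g • D = D)]
      exact Set.smul_mem_smul_set ha
    rw [huniv, Set.ncard_univ] at hD
    omega
  refine Invol.isStronglyEmbedded_of_forall hne hev fun g i hi2 hiH hgi => ?_
  -- an involution commuting with `i` that fixes `D`
  obtain ⟨h, hh, hS⟩ := hconj i hiH hi2
  set z' : G := h⁻¹ * (z : G) * h with hz'
  have hz'2 : orderOf z' = 2 := by
    have := horder h⁻¹ (z : G) (by rw [Subgroup.orderOf_coe]; exact hz2)
    rwa [inv_inv] at this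
  have hz'Q : z' ∈ fixingSubgroup G D := by
    rw [mem_fixingSubgroup_iff]
    intro y hy
    have hy' : h • y ∈ D := by
      rw [← (hh : h • D = D)]
      exact Set.smul_mem_smul_set hy
    rw [hz', mul_smul, mul_smul, (mem_fixingSubgroup_iff G).1 ((hker z).1 hzQ) _ hy', inv_smul_smul]
  have hz'i : z' * i = i * z' := by
    have e1 : (z : G) * (h * i * h⁻¹) = (h * i * h⁻¹) * z :=
      (congrArg Subtype.val (Subgroup.mem_center_iff.1 hzc ⟨_, hS⟩)).symm
    calc z' * i = h⁻¹ * ((z : G) * (h * i * h⁻¹)) * h := by simp [hz', mul_assoc]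
      _ = h⁻¹ * ((h * i * h⁻¹) * z) * h := by rw [e1]
      _ = i * z' := by simp [hz', mul_assoc]
  set w : G := g⁻¹ * z' * g with hwdef
  have hw2 : orderOf w = 2 := by
    have := horder g⁻¹ z' hz'2
    rwa [inv_inv] at this
  have hwH : w ∈ H := by
    refine hC _ hgi (by have := horder g⁻¹ i hi2; rwa [inv_inv] at this)
      (Subgroup.mem_centralizer_singleton_iff.2 ?_)
    calc w * (g⁻¹ * i * g) = g⁻¹ * (z' * i) * g := by simp [hwdef, mul_assoc]
      _ = g⁻¹ * (i * z') * g := by rw [hz'i]
      _ = g⁻¹ * i * g * w := by simp [hwdef, mul_assoc]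
  obtain ⟨a, ha⟩ : D.Nonempty := Set.nonempty_of_ncard_ne_zero (by omega)
  have hwQ := hno w hwH hw2 (g⁻¹ • a) (by
    rw [hwdef, mul_smul, mul_smul, smul_inv_smul, (mem_fixingSubgroup_iff G).1 hz'Q a ha])
  have h1 := fixedBy_eq hfix (fun e => by simp [e] at hw2) hD hwQ
  have h2 := fixedBy_eq hfix (fun e => by simp [e] at hz'2) hD hz'Q
  have h3 : fixedBy Ω w = g⁻¹ • fixedBy Ω z' := by
    have := fixedBy_conj (Ω := Ω) z' g⁻¹
    rwa [inv_inv] at this
  rw [h1, h2] at h3
  have : g⁻¹ ∈ H := h3.symm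
  simpa using inv_mem this

/-- Simple groups of fixity four with involutions fixing four points. -/
theorem fixity_four (hna : ¬ IsMulCommutative G) (htrans : IsPretransitive G Ω)
    (hfix : FixAtMostFour G Ω) (hn : 4 < Nat.card Ω) (S : Sylow 2 G)
    (hf' : ∃ g : G, orderOf g = 2 ∧ Nat.card (fixedBy Ω g) = 4) :
    (∃ H : Subgroup G, Cfsg.IsStronglyEmbedded H) ∨ Cfsg.SectionalPRankLE 2 4 G := by
  by_cases hbig : ∀ b : Ω, 4 < Nat.card (orbit (S : Subgroup G) b)
  · exact Or.inr (sectional_of_sylow S (rank_of_no_small_orbit hna hfix S hf' hbig))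
  push Not at hbig
  obtain ⟨b, hb⟩ := hbig
  have hD := card_small_orbit (four_dvd_card hna hf') htrans S b hb
  set D := orbit (S : Subgroup G) b
  have hinv : ∀ s : (S : Subgroup G), s • D = D := fun s => smul_orbit_eq _ b s
  by_cases hout : ∃ u ∈ (S : Subgroup G), orderOf u = 2 ∧ (∃ a : Ω, u • a = a) ∧
      u ∉ fixingSubgroup G D
  · obtain ⟨u, huS, hu, ⟨a, ha⟩, huD⟩ := hout
    exact Or.inr (sectional_of_sylow S (rank_of_outside hfix S D hD hinv u huS hu
      (card_fixed_four hna hfix hf' hu ha) huD))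
  push Not at hout
  obtain ⟨u, huS, hu, hE⟩ := exists_involution_in_sylow (Ω := Ω) S hf'
  obtain ⟨a, ha⟩ : (fixedBy Ω u).Nonempty := Set.nonempty_of_ncard_ne_zero (by omega)
  rcases embedded_or_rank hfix hn htrans S D hD hinv u huS (hout u huS hu ⟨a, ha⟩)
    (fun e => by simp [e] at hu) (fun u hu hu2 a ha => hout u hu hu2 ⟨a, ha⟩) with h | h
  · exact Or.inl h
  · exact Or.inr (sectional_of_sylow S h)

end Simple

end Cfsg.Agent.Fix4
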