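import Cfsg.Agent.Fix4.Basic

/-!
# Involutions fixing four points: elementary facts (S3365)
-/

set_option autoImplicit false
set_option linter.unusedSectionVars false

namespace Cfsg.Agent.Fix4

open MulAction
open scoped Pointwise

variable {G Ω : Type*} [Group G] [Finite G] [MulAction G Ω] [Finite Ω]

/-- In a non-abelian simple group all permutations are even. -/
theorem sign_eq_one [IsSimpleGroup G] (hna : ¬ IsMulCommutative G) [Fintype Ω] [DecidableEq Ω]
    (g : G) : Equiv.Perm.sign (MulAction.toPermHom G Ω g) = 1 := by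
  set φ : G →* ℤˣ := Equiv.Perm.sign.comp (MulAction.toPermHom G Ω) with hφ
  rcases (MonoidHom.normal_ker φ).eq_bot_or_eq_top with h | h
  · exfalso
    apply hna
    have hinj := (MonoidHom.ker_eq_bot_iff φ).1 h
    exact ⟨⟨fun a b => hinj (by rw [map_mul, map_mul, mul_comm])⟩⟩
  · have : g ∈ φ.ker := h ▸ Subgroup.mem_top g
    exact this

/-- An involution fixes as many points as the degree, modulo four. -/
theorem fix_mod_four [IsSimpleGroup G] (hna : ¬ IsMulCommutative G) [FaithfulSMul G Ω] {g : G}
    (hg : orderOf g = 2) : Nat.card (fixedBy Ω g) % 4 = Nat.card Ω % 4 := by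
  classical
  have := Fintype.ofFinite Ω
  set σ : Equiv.Perm Ω := MulAction.toPermHom G Ω g with hσ
  have hσ2 : orderOf σ = 2 := by
    rw [hσ, orderOf_injective _ MulAction.toPerm_injective g, hg]
  obtain ⟨k, hk⟩ := Equiv.Perm.cycleType_prime_order (σ := σ) (by rw [hσ2]; exact Nat.prime_two)
  rw [hσ2] at hk
  have hs : Equiv.Perm.sign σ = 1 := sign_eq_one hna g
  rw [Equiv.Perm.sign_of_cycleType, hk] at hs
  simp only [Multiset.sum_replicate, smul_eq_mul, Multiset.card_replicate] at hs
  have heven : Even (k + 1) := by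
    by_contra hodd
    rw [Nat.not_even_iff_odd] at hodd
    have : Odd ((k + 1) * 2 + (k + 1)) := Even.add_odd ⟨k + 1, by ring⟩ hodd
    rw [this.neg_one_pow] at hs
    exact absurd hs (by decide)
  have hsupp : σ.support.card = (k + 1) * 2 := by
    rw [← Equiv.Perm.sum_cycleType, hk, Multiset.sum_replicate, smul_eq_mul]
  have hfix : Nat.card (fixedBy Ω g) = Nat.card Ω - σ.support.card := by
    rw [Nat.card_coe_set_eq, Nat.card_eq_fintype_card, ← Finset.card_compl,
      ← Set.ncard_coe_finset]
    congr 1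
    ext x
    simp [hσ, Equiv.Perm.mem_support]
  have hle : σ.support.card ≤ Nat.card Ω := by
    rw [Nat.card_eq_fintype_card]; exact Finset.card_le_univ _
  obtain ⟨j, hj⟩ := heven
  omega

/-- When some involution fixes four points, involutions fix none or four. -/
theorem card_fixed_four [IsSimpleGroup G] (hna : ¬ IsMulCommutative G) [FaithfulSMul G Ω]
    (hfix : FixAtMostFour G Ω)
    (hf' : ∃ g : G, orderOf g = 2 ∧ Nat.card (fixedBy Ω g) = 4) {g : G} (hg : orderOf g = 2)
    {a : Ω} (ha : g • a = a) : (fixedBy Ω g).ncard = 4 := by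
  obtain ⟨g₀, hg₀, h4⟩ := hf'
  have h1 := fix_mod_four (Ω := Ω) hna hg
  have h2 := fix_mod_four (Ω := Ω) hna hg₀
  have h3 := hfix g (fun e => by simp [e] at hg)
  have h0 : 0 < (fixedBy Ω g).ncard := (Set.ncard_pos (Set.toFinite _)).2 ⟨a, ha⟩
  rw [Nat.card_coe_set_eq] at h1 h3
  omega

/-- The degree is divisible by four. -/
theorem four_dvd_card [IsSimpleGroup G] (hna : ¬ IsMulCommutative G) [FaithfulSMul G Ω]
    (hf' : ∃ g : G, orderOf g = 2 ∧ Nat.card (fixedBy Ω g) = 4) : 4 ∣ Nat.card Ω := by
  obtain ⟨g₀, hg₀, h4⟩ := hf'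
  have h2 := fix_mod_four (Ω := Ω) hna hg₀
  omega

/-- An element is in the pointwise stabiliser of its fixed point set. -/
theorem mem_fixing_fixedBy (g : G) : g ∈ fixingSubgroup G (fixedBy Ω g) :=
  (mem_fixingSubgroup_iff G).2 fun _ hx => hx

/-- The centraliser of an element preserves its fixed point set. -/
theorem smul_fixedBy_of_commute {g c : G} (h : c * g = g * c) :
    c • fixedBy Ω g = fixedBy Ω g := by
  rw [← fixedBy_conj, h, mul_inv_cancel_right]

/-- The centraliser of a nontrivial element fixing a four-set pointwise stabilises the set. -/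
theorem smul_of_commute (hfix : FixAtMostFour G Ω) {D : Set Ω} (hD : D.ncard = 4) {z c : G}
    (hz1 : z ≠ 1) (hz : z ∈ fixingSubgroup G D) (h : c * z = z * c) : c • D = D := by
  have e := fixedBy_eq hfix hz1 hD hz
  rw [← e]
  exact smul_fixedBy_of_commute h

end Cfsg.Agent.Fix4
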