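import Mathlib

/-!
# Maximal class 3-groups with a quotient isomorphic to the wreath product (S3365)
-/

set_option autoImplicit false
set_option linter.style.haveILetI false

namespace Cfsg.Agent.Fix4

namespace NoQuot

/-- The nine points. -/
abbrev Pt : Type := ZMod 3 × ZMod 3

/-- The permutation `(i, j) ↦ (i + s, j + v i)`. -/
def pt (v : ZMod 3 → ZMod 3) (s : ZMod 3) : Equiv.Perm Pt where
  toFun q := (q.1 + s, q.2 + v q.1)
  invFun q := (q.1 - s, q.2 - v (q.1 - s))
  left_inv q := by simp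
  right_inv q := by simp

theorem pt_mul (v w : ZMod 3 → ZMod 3) (s t : ZMod 3) :
    pt v s * pt w t = pt (fun i => w i + v (i + t)) (s + t) := by
  refine Equiv.ext fun q => Prod.ext ?_ ?_ <;>
    simp [pt, Equiv.Perm.mul_apply] <;> abel

theorem pt_zero : pt 0 0 = 1 := by
  refine Equiv.ext fun q => ?_
  simp [pt]

theorem pt_inj {v w : ZMod 3 → ZMod 3} {s t : ZMod 3} (h : pt v s = pt w t) : v = w ∧ s = t := by
  have h0 : ∀ q : Pt, pt v s q = pt w t q := fun q => by rw [h]
  refine ⟨funext fun i => ?_, ?_⟩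
  · simpa [pt] using congrArg Prod.snd (h0 (i, 0))
  · simpa [pt] using congrArg Prod.fst (h0 (0, 0))

/-- The wreath product of two groups of order three. -/
def Wr : Subgroup (Equiv.Perm Pt) where
  carrier := {g | ∃ v s, g = pt v s}
  one_mem' := ⟨0, 0, pt_zero.symm⟩
  mul_mem' := by
    rintro _ _ ⟨v, s, rfl⟩ ⟨w, t, rfl⟩
    exact ⟨_, _, pt_mul v w s t⟩
  inv_mem' := by
    rintro _ ⟨v, s, rfl⟩
    refine ⟨fun i => - v (i - s), -s, inv_eq_of_mul_eq_one_right ?_⟩
    rw [pt_mul, ← pt_zero]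
    congr 1
    · funext i; simp [sub_eq_add_neg]
    · simp

/-- The element of `Wr` with the given coordinates. -/
def wr (v : ZMod 3 → ZMod 3) (s : ZMod 3) : Wr := ⟨pt v s, v, s, rfl⟩

theorem exists_wr (g : Wr) : ∃ v s, g = wr v s := by
  obtain ⟨v, s, h⟩ := g.2
  exact ⟨v, s, Subtype.ext h⟩

theorem wr_mul (v w : ZMod 3 → ZMod 3) (s t : ZMod 3) :
    wr v s * wr w t = wr (fun i => w i + v (i + t)) (s + t) := Subtype.ext (pt_mul v w s t)

theorem wr_zero : wr 0 0 = 1 := Subtype.ext pt_zero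

theorem wr_inj {v w : ZMod 3 → ZMod 3} {s t : ZMod 3} (h : wr v s = wr w t) : v = w ∧ s = t :=
  pt_inj (congrArg Subtype.val h)

theorem card_Wr : Nat.card Wr = 81 := by
  have h : Function.Bijective (fun q : (ZMod 3 → ZMod 3) × ZMod 3 => wr q.1 q.2) := by
    refine ⟨fun a b hab => ?_, fun g => ?_⟩
    · obtain ⟨h1, h2⟩ := wr_inj hab
      exact Prod.ext h1 h2
    · obtain ⟨v, s, rfl⟩ := exists_wr g
      exact ⟨(v, s), rfl⟩
  rw [← Nat.card_eq_of_bijective _ h]
  simp [Nat.card_eq_fintype_card]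

/-- The base of the wreath product. -/
def base : Subgroup Wr where
  carrier := {g | ∃ v, g = wr v 0}
  one_mem' := ⟨0, wr_zero.symm⟩
  mul_mem' := by
    rintro _ _ ⟨v, rfl⟩ ⟨w, rfl⟩
    exact ⟨w + v, by rw [wr_mul]; simp [Pi.add_def]⟩
  inv_mem' := by
    rintro _ ⟨v, rfl⟩
    refine ⟨-v, inv_eq_of_mul_eq_one_right ?_⟩
    rw [wr_mul, ← wr_zero]
    simp [Pi.zero_def]

theorem base_comm {a b : Wr} (ha : a ∈ base) (hb : b ∈ base) : a * b = b * a := by
  obtain ⟨v, rfl⟩ := ha
  obtain ⟨w, rfl⟩ := hb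
  rw [wr_mul, wr_mul]
  simp [add_comm]

theorem base_cube {a : Wr} (ha : a ∈ base) : a ^ 3 = 1 := by
  obtain ⟨v, rfl⟩ := ha
  rw [pow_succ, pow_two, wr_mul, wr_mul, ← wr_zero]
  congr 1
  · funext i
    simp only [add_zero, Pi.zero_apply]
    generalize v i = a
    revert a
    decide

theorem card_base : Nat.card base = 27 := by
  have h : Function.Bijective (fun v : ZMod 3 → ZMod 3 => (⟨wr v 0, v, rfl⟩ : base)) := by
    refine ⟨fun a b hab => (wr_inj (congrArg Subtype.val hab)).1, fun g => ?_⟩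
    obtain ⟨v, hv⟩ := g.2
    exact ⟨v, Subtype.ext hv.symm⟩
  rw [← Nat.card_eq_of_bijective _ h]
  simp [Nat.card_eq_fintype_card]

theorem cube_wr (v : ZMod 3 → ZMod 3) :
    (wr v 1) ^ 3 = wr (fun _ => v 0 + v 1 + v 2) 0 := by
  rw [pow_succ, pow_two, wr_mul, wr_mul]
  have e : (1 + 1 + 1 : ZMod 3) = 0 := by decide
  rw [e]
  congr 1
  funext i
  revert v
  revert i
  decide

theorem closure_cube_ne : Subgroup.closure {w : Wr | w ^ 3 ≠ 1} = ⊤ := by
  set S := Subgroup.closure {w : Wr | w ^ 3 ≠ 1}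
  have hmem : ∀ v : ZMod 3 → ZMod 3, v 0 + v 1 + v 2 ≠ 0 → wr v 1 ∈ S := fun v hv => by
    refine Subgroup.subset_closure ?_
    show (wr v 1) ^ 3 ≠ 1
    rw [cube_wr, ← wr_zero]
    exact fun h => hv (congrFun (wr_inj h).1 0)
  have hb : ∀ d : ZMod 3 → ZMod 3, wr d 0 ∈ S := fun d => by
    obtain ⟨v, h1, h2⟩ : ∃ v : ZMod 3 → ZMod 3, v 0 + v 1 + v 2 ≠ 0 ∧
        (v 0 + d 0) + (v 1 + d 1) + (v 2 + d 2) ≠ 0 := by
      revert d
      decide
    have h3 : wr (fun i => v i + d (i + 1)) 1 = wr d 0 * wr v 1 := by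
      rw [wr_mul]; simp
    have hsum : (v 0 + d (0 + 1)) + (v 1 + d (1 + 1)) + (v 2 + d (2 + 1)) ≠ 0 := by
      have e : (2 + 1 : ZMod 3) = 0 := by decide
      have e' : (1 + 1 : ZMod 3) = 2 := by decide
      rw [e, e', zero_add]
      convert h2 using 1
      ring
    have := S.mul_mem (hmem (fun i => v i + d (i + 1)) hsum) (S.inv_mem (hmem v h1))
    rwa [h3, mul_inv_cancel_right] at this
  have h1 : wr 0 1 ∈ S := by
    have e : wr (fun i => - (if i - 1 = 0 then (1 : ZMod 3) else 0)) 0 *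
        wr (fun i => if i = 0 then 1 else 0) 1 = wr 0 1 := by
      rw [wr_mul]
      congr 1
      · decide
    rw [← e]
    exact S.mul_mem (hb _) (hmem _ (by decide))
  rw [eq_top_iff]
  intro g _
  obtain ⟨v, s, rfl⟩ := exists_wr g
  have key : ∀ v, wr v s ∈ S := by
    have h0 := hb
    have h1' : ∀ v, wr v 1 ∈ S := fun v => by
      have e : wr v 0 * wr 0 1 = wr (fun i => v (i + 1)) 1 := by rw [wr_mul]; simp
      have e2 : wr (fun i => v (i - 1)) 0 * wr 0 1 = wr v 1 := by rw [wr_mul]; simp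
      exact e2 ▸ S.mul_mem (hb _) h1
    intro v
    have h3 : ∀ x : ZMod 3, x = 0 ∨ x = 1 ∨ x = 2 := by decide
    rcases h3 s with rfl | rfl | rfl
    · exact hb v
    · exact h1' v
    · have e : wr v 1 * wr 0 1 = wr (fun i => v (i + 1)) (1 + 1) := by rw [wr_mul]; simp
      have e2 : wr (fun i => v (i - 1)) 1 * wr 0 1 = wr v 2 := by
        rw [wr_mul]; simp [show (1 + 1 : ZMod 3) = 2 by decide]
      exact e2 ▸ S.mul_mem (h1' _) h1
  exact key v

theorem exists_equiv (W : Sylow 3 (Equiv.Perm (Fin 9))) :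
    Nonempty (↥(W : Subgroup (Equiv.Perm (Fin 9))) ≃* Wr) := by
  classical
  haveI : Fact (Nat.Prime 3) := ⟨Nat.prime_three⟩
  have e : Pt ≃ Fin 9 := Fintype.equivFinOfCardEq (by simp)
  let H : Subgroup (Equiv.Perm (Fin 9)) := Wr.map e.permCongrHom.toMonoidHom
  have hH : Nat.card H = 3 ^ 4 := by
    rw [Subgroup.card_map_of_injective e.permCongrHom.injective, card_Wr]
    norm_num
  have hfac : (Nat.card (Equiv.Perm (Fin 9))).factorization 3 = 4 := by
    rw [Nat.card_perm, Nat.card_fin, show Nat.factorial 9 = 3 ^ 4 * 4480 by decide,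
      Nat.factorization_mul (by norm_num) (by norm_num), Finsupp.add_apply,
      Nat.Prime.factorization_pow Nat.prime_three, Finsupp.single_eq_same,
      Nat.factorization_eq_zero_of_not_dvd (by norm_num : ¬ 3 ∣ 4480)]
  let Q : Sylow 3 (Equiv.Perm (Fin 9)) := Sylow.ofCard H (by rw [hH, hfac])
  exact ⟨(Sylow.equiv W Q).trans
    ((MulEquiv.subgroupMap e.permCongrHom Wr).symm)⟩

theorem card_centralizer_image_le {P Q : Type*} [Group P] [Finite P] [Group Q] (f : P →* Q)
    (hf : Function.Surjective f) (x : P) :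
    Nat.card (Subgroup.centralizer ({f x} : Set Q)) ≤
      Nat.card (Subgroup.centralizer ({x} : Set P)) := by
  classical
  haveI : Fintype P := Fintype.ofFinite P
  set K : Subgroup P := (Subgroup.centralizer ({f x} : Set Q)).comap f with hKdef
  have hK : Nat.card K = Nat.card (Subgroup.centralizer ({f x} : Set Q)) * Nat.card f.ker := by
    have h1 := (Subgroup.centralizer ({f x} : Set Q)).index_comap_of_surjective hf
    have h2 := Subgroup.card_mul_index K
    have h3 := Subgroup.card_mul_index (Subgroup.centralizer ({f x} : Set Q))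
    have h4 := Subgroup.card_mul_index f.ker
    rw [Subgroup.index_ker, MonoidHom.range_eq_top.2 hf, Subgroup.card_top] at h4
    haveI : Finite Q := Finite.of_surjective f hf
    have h5 : 0 < (Subgroup.centralizer ({f x} : Set Q)).index :=
      Nat.pos_of_ne_zero Subgroup.index_ne_zero_of_finite
    rw [← hKdef] at h1
    rw [h1] at h2
    apply Nat.eq_of_mul_eq_mul_right h5
    rw [h2, ← h4, ← h3]
    ring
  let κ : K → f.ker := fun k => ⟨(k : P) * x * (k : P)⁻¹ * x⁻¹, by
    have := Subgroup.mem_centralizer_singleton_iff.1 (Subgroup.mem_comap.1 k.2)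
    rw [MonoidHom.mem_ker, map_mul, map_mul, map_mul, map_inv, map_inv, this]
    group⟩
  let r : f.ker → K := Function.invFun κ
  let ι : K → f.ker × Subgroup.centralizer ({x} : Set P) := fun k =>
    ⟨κ k, ⟨((r (κ k) : K) : P)⁻¹ * k, by
      have h : κ (r (κ k)) = κ k := Function.invFun_eq ⟨k, rfl⟩
      have h' := congrArg Subtype.val h
      simp only [κ] at h'
      rw [Subgroup.mem_centralizer_singleton_iff]
      have h'' := mul_right_cancel h'
      calc ((r (κ k) : K) : P)⁻¹ * k * x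
          = ((r (κ k) : K) : P)⁻¹ * ((k : P) * x * (k : P)⁻¹) * k := by group
        _ = ((r (κ k) : K) : P)⁻¹ * (((r (κ k) : K) : P) * x * ((r (κ k) : K) : P)⁻¹) * k := by
          rw [h'']
        _ = x * (((r (κ k) : K) : P)⁻¹ * k) := by group⟩⟩
  have hι : Function.Injective ι := by
    intro a b hab
    obtain ⟨h1, h2⟩ := Prod.mk.inj hab
    have h3 := congrArg Subtype.val h2
    simp only at h3
    rw [h1] at h3
    exact Subtype.ext (mul_left_cancel h3)
  have h := Nat.card_le_card_of_injective ι hι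
  rw [Nat.card_prod, hK, mul_comm] at h
  exact Nat.le_of_mul_le_mul_left h Nat.card_pos

/-- A nontrivial normal subgroup of a 3-group contains a central element of order three. -/
theorem exists_central_of_normal {P : Type*} [Group P] [Finite P] (hP : IsPGroup 3 P)
    (K : Subgroup P) [K.Normal] (hK : K ≠ ⊥) :
    ∃ z : P, orderOf z = 3 ∧ z ∈ K ∧ z ∈ Subgroup.center P := by
  haveI : Fact (Nat.Prime 3) := ⟨Nat.prime_three⟩
  haveI : Nontrivial K := (Subgroup.nontrivial_iff_ne_bot _).2 hK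
  obtain ⟨m, hm⟩ := (hP.to_subgroup K).exists_card_eq
  have hdvd : 3 ∣ Nat.card K := by
    rcases m with _ | m
    · simp at hm; exact absurd hm hK
    · exact hm ▸ dvd_pow_self 3 (Nat.succ_ne_zero m)
  have hconj : IsPGroup 3 (ConjAct P) := fun g => hP (ConjAct.ofConjAct g)
  obtain ⟨z, hz, hz1⟩ := hconj.exists_fixed_point_of_prime_dvd_card_of_fixed_point K hdvd
    (a := 1) (by intro g; simp)
  have hzc : (z : P) ∈ Subgroup.center P := by
    rw [Subgroup.mem_center_iff]
    intro g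
    have := congrArg Subtype.val (hz (ConjAct.toConjAct g))
    rw [ConjAct.Subgroup.val_conj_smul, ConjAct.smul_def, ConjAct.ofConjAct_toConjAct] at this
    calc g * (z : P) = g * (z : P) * g⁻¹ * g := by group
      _ = (z : P) * g := by rw [this]
  have hne : (z : P) ≠ 1 := fun h => hz1 (Subtype.ext h.symm)
  obtain ⟨j, hj⟩ := IsPGroup.iff_orderOf.1 hP (z : P)
  have hj0 : j ≠ 0 := fun h => hne (orderOf_eq_one_iff.1 (by rw [hj, h, pow_zero]))
  refine ⟨(z : P) ^ 3 ^ (j - 1), ?_, K.pow_mem z.2 _, Subgroup.pow_mem _ hzc _⟩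
  rw [orderOf_pow' _ (by positivity), hj]
  obtain ⟨i, rfl⟩ := Nat.exists_eq_succ_of_ne_zero hj0
  rw [Nat.succ_sub_one, pow_succ, Nat.gcd_eq_right (dvd_mul_right _ _),
    Nat.mul_div_cancel_left _ (by positivity)]

/-- The core case: a kernel of order three. -/
theorem core_false {P : Type*} [Group P] [Finite P] (hP : IsPGroup 3 P) (x : P)
    (hx : x ^ 3 = 1) (hC : Nat.card (Subgroup.centralizer ({x} : Set P)) ≤ 9)
    (f : P →* Wr) (hf : Function.Surjective f) (hcard : Nat.card P = 243) : False := by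
  classical
  haveI : Fintype P := Fintype.ofFinite P
  haveI : Fact (Nat.Prime 3) := ⟨Nat.prime_three⟩
  have hker : Nat.card f.ker = 3 := by
    have h4 := Subgroup.card_mul_index f.ker
    rw [Subgroup.index_ker, MonoidHom.range_eq_top.2 hf, Subgroup.card_top, card_Wr, hcard] at h4
    omega
  have hZc : ∀ z ∈ f.ker, ∀ g : P, z * g = g * z := by
    intro z hz g
    have hcyc : IsCyclic f.ker := isCyclic_of_prime_card hker
    let ψ : P →* MulAut f.ker := MulAut.conjNormal
    have h1 : Nat.card ψ.range ∣ 2 := by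
      have h := Subgroup.card_subgroup_dvd_card ψ.range
      rwa [IsCyclic.card_mulAut, hker, Nat.totient_prime Nat.prime_three] at h
    obtain ⟨n, hn⟩ := hP.exists_card_eq
    have h2 : Nat.card ψ.range ∣ 3 ^ n := hn ▸ Subgroup.card_range_dvd ψ
    have h3 : Nat.card ψ.range = 1 :=
      Nat.eq_one_of_dvd_one ((Nat.Coprime.pow_right n (by norm_num : Nat.Coprime 2 3)) ▸
        Nat.dvd_gcd h1 h2)
    have h4 : ψ g = 1 := by
      have := (Subgroup.card_eq_one.1 h3).le ⟨g, rfl⟩
      exact Subgroup.mem_bot.1 this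
    have h5 := congrArg (fun e : MulAut f.ker => ((e ⟨z, hz⟩ : f.ker) : P)) h4
    simp only [ψ, MulAut.conjNormal_apply, MulAut.one_apply] at h5
    calc z * g = g * z * g⁻¹ * g := by rw [h5]
      _ = g * z := by group
  have hxA : f x ∉ base := by
    intro h
    have h1 : base ≤ Subgroup.centralizer ({f x} : Set Wr) := fun b hb =>
      Subgroup.mem_centralizer_singleton_iff.2 (base_comm hb h)
    have h2 := Subgroup.card_le_card_group base
    have h3 := Nat.le_of_dvd Nat.card_pos (Subgroup.card_dvd_of_le h1)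
    rw [card_base] at h3
    have h4 := card_centralizer_image_le f hf x
    omega
  have hbn : base.Normal := by
    refine Subgroup.normal_of_index_eq_minFac_card ?_
    have h := Subgroup.card_mul_index base
    rw [card_base, card_Wr] at h
    rw [card_Wr]
    norm_num
    omega
  set A : Subgroup P := base.comap f with hAdef
  haveI hAn : A.Normal := hbn.comap f
  have hZA : f.ker ≤ A := fun z hz => by
    rw [hAdef, Subgroup.mem_comap, MonoidHom.mem_ker.1 hz]
    exact base.one_mem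
  have hcardA : Nat.card A = 81 := by
    have h1 := base.index_comap_of_surjective hf
    have h := Subgroup.card_mul_index base
    have h2 := Subgroup.card_mul_index A
    rw [card_base, card_Wr] at h
    rw [hcard, hAdef, h1] at h2
    rw [hAdef]
    have : base.index = 3 := by omega
    rw [this] at h2
    omega
  -- the centraliser of `x` in `A` is the kernel
  have hCA : ∀ a ∈ A, a * x = x * a → a ∈ f.ker := by
    intro a ha hax
    have hle : (f.ker ⊔ Subgroup.zpowers a) ≤ Subgroup.centralizer ({x} : Set P) ⊓ A := by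
      refine sup_le (fun z hz => ⟨?_, hZA hz⟩) ?_
      · exact Subgroup.mem_centralizer_singleton_iff.2 (hZc z hz x)
      · rw [Subgroup.zpowers_le]
        exact ⟨Subgroup.mem_centralizer_singleton_iff.2 hax, ha⟩
    by_contra hna
    have hlt : f.ker < Subgroup.centralizer ({x} : Set P) ⊓ A :=
      lt_of_lt_of_le (left_lt_sup.2 (by rwa [Subgroup.zpowers_le])) hle
    have hlt2 : Subgroup.centralizer ({x} : Set P) ⊓ A < Subgroup.centralizer ({x} : Set P) := by
      refine inf_lt_left.2 fun h => hxA ?_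
      exact h (Subgroup.mem_centralizer_singleton_iff.2 rfl)
    have e1 := Subgroup.card_dvd_of_le hlt.le
    have e2 := Subgroup.card_dvd_of_le hlt2.le
    have e3 : Nat.card f.ker ≠ Nat.card (Subgroup.centralizer ({x} : Set P) ⊓ A : Subgroup P) :=
      fun h => hlt.ne (Subgroup.eq_of_le_of_card_ge hlt.le h.ge)
    have e4 : Nat.card (Subgroup.centralizer ({x} : Set P) ⊓ A : Subgroup P) ≠
        Nat.card (Subgroup.centralizer ({x} : Set P)) :=
      fun h => hlt2.ne (Subgroup.eq_of_le_of_card_ge hlt2.le h.ge)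
    rw [hker] at e1 e3
    obtain ⟨u, hu⟩ := e1
    obtain ⟨v, hv⟩ := e2
    rw [hu] at hv e3 e4
    have hu0 : 2 ≤ u := by
      rcases u with _ | _ | u
      · rw [mul_zero] at hu; exact absurd hu Nat.card_pos.ne'
      · omega
      · omega
    have hv0 : 2 ≤ v := by
      rcases v with _ | _ | v
      · rw [mul_zero] at hv; exact absurd hv Nat.card_pos.ne'
      · omega
      · omega
    have : 3 * 2 * 2 ≤ 3 * u * v := Nat.mul_le_mul (Nat.mul_le_mul le_rfl hu0) hv0
    omega
  let d : P → P := fun a => a⁻¹ * (x * a * x⁻¹)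
  have hdA : ∀ a ∈ A, d a ∈ A := fun a ha => A.mul_mem (A.inv_mem ha) (hAn.conj_mem a ha x)
  have hfib : ∀ a b : P, d a = d b → (b * a⁻¹) * x = x * (b * a⁻¹) := by
    intro a b h
    simp only [d] at h
    calc b * a⁻¹ * x = b * (a⁻¹ * (x * a * x⁻¹)) * x * a⁻¹ := by group
      _ = b * (b⁻¹ * (x * b * x⁻¹)) * x * a⁻¹ := by rw [h]
      _ = x * (b * a⁻¹) := by group
  have hcount : ∀ T : Finset P,
      ((Finset.univ : Finset P).filter fun a => a ∈ A ∧ d a ∈ T).card ≤ 3 * T.card := by
    intro T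
    refine Finset.card_le_mul_card_image_of_maps_to (f := d)
      (fun a ha => (Finset.mem_filter.1 ha).2.2) 3 fun c _ => ?_
    rcases Finset.eq_empty_or_nonempty (((Finset.univ : Finset P).filter fun a =>
      a ∈ A ∧ d a ∈ T).filter fun a => d a = c) with h | ⟨a, ha⟩
    · simp [h]
    · have hK : ((Finset.univ : Finset P).filter fun z => z ∈ f.ker).card = 3 := by
        have h := hker
        rw [Nat.card_eq_fintype_card, Fintype.card_subtype] at h
        convert h
      refine le_trans (Finset.card_le_card_of_injOn (fun b => b * a⁻¹) (fun b hb => ?_)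
        (fun b _ b' _ h => mul_right_cancel h)) hK.le
      simp only [Finset.coe_filter, Finset.mem_univ, true_and, Set.mem_ofPred_eq,
        Finset.mem_filter] at ha hb ⊢
      exact hCA _ (A.mul_mem hb.1.1 (A.inv_mem ha.1.1)) (hfib a b (ha.2.trans hb.2.symm))
  obtain ⟨a1, ha1, ha3⟩ : ∃ a ∈ A, d (d a) ∉ f.ker := by
    by_contra hcon
    push Not at hcon
    set K0 := (Finset.univ : Finset P).filter fun z => z ∈ f.ker with hK0
    set K1 := (Finset.univ : Finset P).filter fun a => a ∈ A ∧ d a ∈ K0 with hK1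
    have h1 := hcount K0
    have h2 := hcount K1
    have h3 : ((Finset.univ : Finset P).filter fun a => a ∈ A ∧ d a ∈ K1).card = 81 := by
      rw [← hcardA, Nat.card_eq_fintype_card, Fintype.card_subtype]
      refine congrArg _ (Finset.filter_congr fun a _ => ⟨fun h => h.1, fun h => ⟨h, ?_⟩⟩)
      simp only [hK1, hK0, Finset.mem_filter, Finset.mem_univ, true_and]
      exact ⟨hdA a h, hcon a h⟩
    have h4 : K0.card = 3 := by
      have h := hker
      rw [Nat.card_eq_fintype_card, Fintype.card_subtype] at h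
      rw [hK0]
      convert h
    rw [← hK1] at h1
    omega
  obtain ⟨a2, ha2def⟩ : ∃ a, a = d a1 := ⟨_, rfl⟩
  obtain ⟨a3, ha3def⟩ : ∃ a, a = d a2 := ⟨_, rfl⟩
  obtain ⟨w, hwdef⟩ : ∃ a, a = d a3 := ⟨_, rfl⟩
  rw [← ha2def, ← ha3def] at ha3
  have hA2 : a2 ∈ A := ha2def ▸ hdA _ ha1
  have hA3 : a3 ∈ A := ha3def ▸ hdA _ hA2
  have hfd : ∀ a, f (d a) = (f a)⁻¹ * (f x * f a * (f x)⁻¹) := fun a => by simp [d]
  -- `w` is a nontrivial element of the kernel
  have hw : w ∈ f.ker := by
    rw [MonoidHom.mem_ker]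
    set g := f x
    set a := f a1
    have hb : ∀ b ∈ base, g * b * g⁻¹ ∈ base := fun b hb => hbn.conj_mem b hb g
    have ha : a ∈ base := ha1
    have hg3 : g ^ 3 = 1 := by rw [← map_pow, hx, map_one]
    set b := g * a * g⁻¹ with hbdef
    set c := g * b * g⁻¹ with hcdef
    have hbb : b ∈ base := hb a ha
    have hcc : c ∈ base := hb b hbb
    have hca : g * c * g⁻¹ = a := by
      calc g * c * g⁻¹ = g ^ 3 * a * (g ^ 3)⁻¹ := by rw [hcdef, hbdef, pow_succ, pow_two]; group
        _ = a := by rw [hg3]; group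
    let _ : CommGroup base := { base.toGroup with mul_comm := fun u v => Subtype.ext (base_comm u.2 v.2) }
    have e2 : f a2 = a⁻¹ * b := ha2def ▸ hfd a1
    have e3 : f a3 = (a⁻¹ * b)⁻¹ * (b⁻¹ * c) := by
      rw [ha3def, hfd, e2]
      congr 1
      rw [hbdef, hcdef, hbdef]
      group
    have e4 : f w = ((a⁻¹ * b)⁻¹ * (b⁻¹ * c))⁻¹ * ((b⁻¹ * c)⁻¹ * (c⁻¹ * a)) := by
      rw [hwdef, hfd, e3]
      congr 1
      calc g * ((a⁻¹ * b)⁻¹ * (b⁻¹ * c)) * g⁻¹
          = ((g * a * g⁻¹)⁻¹ * (g * b * g⁻¹))⁻¹ * ((g * b * g⁻¹)⁻¹ * (g * c * g⁻¹)) := by group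
        _ = (b⁻¹ * c)⁻¹ * (c⁻¹ * a) := by rw [hca]
    rw [e4]
    have key : ∀ u v t : base, ((u⁻¹ * v)⁻¹ * (v⁻¹ * t))⁻¹ * ((v⁻¹ * t)⁻¹ * (t⁻¹ * u)) = 1 := by
      intro u v t
      have h1 : v ^ 3 = 1 := Subtype.ext (base_cube v.2)
      have h2 : t ^ 3 = 1 := Subtype.ext (base_cube t.2)
      calc ((u⁻¹ * v)⁻¹ * (v⁻¹ * t))⁻¹ * ((v⁻¹ * t)⁻¹ * (t⁻¹ * u)) = v ^ 3 * (t ^ 3)⁻¹ := by
            simp only [mul_inv_rev, inv_inv, pow_succ, pow_zero, one_mul]
            apply Additive.ofMul.injective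
            simp only [ofMul_mul, ofMul_inv]
            abel
        _ = 1 := by rw [h1, h2, inv_one, one_mul]
    exact congrArg Subtype.val (key ⟨a, ha⟩ ⟨b, hbb⟩ ⟨c, hcc⟩)
  have hw1 : w ≠ 1 := by
    intro h
    refine ha3 (hCA a3 hA3 ?_)
    have : a3⁻¹ * (x * a3 * x⁻¹) = 1 := hwdef.symm.trans h
    calc a3 * x = a3 * (a3⁻¹ * (x * a3 * x⁻¹)) * x := by rw [this, mul_one]
      _ = x * a3 := by group
  -- the action of `x`
  let φ : MulAut P := MulAut.conj x
  have f1 : φ a1 = a1 * a2 := by simp [φ, ha2def, d]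
  have f2 : φ a2 = a2 * a3 := by simp [φ, ha3def, d]
  have f3 : φ a3 = a3 * w := by simp [φ, hwdef, d]
  have fz : ∀ z ∈ f.ker, φ z = z := fun z hz => by
    simp only [φ, MulAut.conj_apply]
    rw [← hZc z hz x, mul_inv_cancel_right]
  have hker3 : ∀ z ∈ f.ker, z ^ 3 = 1 := fun z hz => by
    have := pow_card_eq_one' (x := (⟨z, hz⟩ : f.ker))
    rw [hker] at this
    exact congrArg Subtype.val this
  have hcomm : ∀ a ∈ A, ∀ b ∈ A, a * b * a⁻¹ * b⁻¹ ∈ f.ker := fun a ha b hb => by
    rw [MonoidHom.mem_ker, map_mul, map_mul, map_mul, map_inv, map_inv,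
      base_comm (a := f a) (b := f b) ha hb]
    group
  have hcube : ∀ a ∈ A, a ^ 3 ∈ f.ker := fun a ha => by
    rw [MonoidHom.mem_ker, map_pow]
    exact base_cube ha
  have h23 : a2 * a3 = a3 * a2 := by
    obtain ⟨c, hcdef⟩ : ∃ c, c = a1 * a3 * a1⁻¹ * a3⁻¹ := ⟨_, rfl⟩
    have hc : c ∈ f.ker := hcdef ▸ hcomm _ ha1 _ hA3
    have e : a1 * a3 = c * (a3 * a1) := by rw [hcdef]; group
    have e' := congrArg φ e
    rw [map_mul, map_mul, map_mul, fz c hc, f1, f3] at e'
    have l : a1 * a2 * (a3 * w) = (a1 * (a2 * a3)) * w := by group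
    have r : c * (a3 * w * (a1 * a2)) = (c * (a3 * a1) * a2) * w := by
      rw [show a3 * w = w * a3 from (hZc w hw a3).symm]
      rw [show c * (w * a3 * (a1 * a2)) = (c * w) * (a3 * a1 * a2) by group, hZc c hc w,
        show w * c * (a3 * a1 * a2) = w * (c * (a3 * a1) * a2) by group, hZc w hw]
    rw [l, r, ← e] at e'
    have := mul_right_cancel e'
    rw [mul_assoc a1 a3 a2] at this
    exact mul_left_cancel this
  have hpow : ∀ a ∈ A, ∀ b ∈ A, (a * b) ^ 3 = a ^ 3 * b ^ 3 := by
    intro a ha b hb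
    obtain ⟨c, hcdef⟩ : ∃ c, c = b * a * b⁻¹ * a⁻¹ := ⟨_, rfl⟩
    have hc : c ∈ f.ker := hcdef ▸ hcomm _ hb _ ha
    have e : b * a = c * (a * b) := by rw [hcdef]; group
    have hcc : ∀ g, g * c = c * g := fun g => (hZc c hc g).symm
    have e2 : b * b * a = c * c * (a * (b * b)) := by
      calc b * b * a = b * (b * a) := mul_assoc _ _ _
        _ = b * c * (a * b) := by rw [e, ← mul_assoc]
        _ = c * (b * a) * b := by rw [hcc b]; group
        _ = c * (c * (a * b)) * b := by rw [e]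
        _ = c * c * (a * (b * b)) := by group
    calc (a * b) ^ 3 = a * (b * a) * b * a * b := by rw [pow_succ, pow_two]; group
      _ = a * c * (a * (b * b * a) * b) := by rw [e]; group
      _ = c * a * (a * (c * c * (a * (b * b))) * b) := by rw [hcc a, e2]
      _ = c * a * ((a * (c * c)) * a * b * b * b) := by group
      _ = c * a * (((c * c) * a) * a * b * b * b) := by rw [hZc (c * c) (f.ker.mul_mem hc hc) a]
      _ = c * (a * (c * c)) * (a * a * b * b * b) := by group
      _ = c * ((c * c) * a) * (a * a * b * b * b) := by rw [hZc (c * c) (f.ker.mul_mem hc hc) a]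
      _ = c ^ 3 * (a ^ 3 * b ^ 3) := by rw [pow_succ, pow_two, pow_succ, pow_two, pow_succ b, pow_two]; group
      _ = a ^ 3 * b ^ 3 := by rw [hker3 c hc, one_mul]
  have h3 : a3 ^ 3 = 1 := by
    have e := fz _ (hcube _ hA2)
    rw [map_pow, f2, hpow _ hA2 _ hA3] at e
    exact mul_eq_left.1 e
  have h2 : a2 ^ 3 = 1 := by
    have e := fz _ (hcube _ ha1)
    rw [map_pow, f1, hpow _ ha1 _ hA2] at e
    exact mul_eq_left.1 e
  have e3 : φ (φ (φ a1)) = a1 := by
    simp only [φ, MulAut.conj_apply]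
    calc x * (x * (x * a1 * x⁻¹) * x⁻¹) * x⁻¹ = x ^ 3 * a1 * (x ^ 3)⁻¹ := by
          rw [pow_succ, pow_two]; group
      _ = a1 := by rw [hx]; group
  rw [f1, map_mul, f1, f2, map_mul, map_mul, map_mul, f1, f2, f3] at e3
  refine hw1 ?_
  have hpow23 : (a2 * a3) * (a2 * a3) = (a2 * a2) * (a3 * a3) := by
    rw [mul_assoc, ← mul_assoc a3 a2 a3, ← h23, mul_assoc a2 a3 a3, ← mul_assoc]
  have key : a1 * a2 * (a2 * a3) * (a2 * a3 * (a3 * w)) = a1 * (a2 ^ 3 * a3 ^ 3) * w := by
    calc a1 * a2 * (a2 * a3) * (a2 * a3 * (a3 * w))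
        = a1 * a2 * ((a2 * a3) * (a2 * a3)) * a3 * w := by group
      _ = a1 * (a2 ^ 3 * a3 ^ 3) * w := by
          rw [hpow23, pow_succ' a2, pow_two, pow_succ a3, pow_two]; group
  rw [key, h2, h3, one_mul, mul_one] at e3
  exact mul_eq_left.1 e3

theorem card_le_aux : ∀ (n : ℕ) {P : Type*} [Group P] [Finite P], Nat.card P = n → IsPGroup 3 P →
    ∀ (x : P), x ^ 3 = 1 → Nat.card (Subgroup.centralizer ({x} : Set P)) ≤ 9 →
      ∀ (f : P →* Wr), Function.Surjective f → Nat.card P ≤ 81 := by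
  intro n
  induction n using Nat.strong_induction_on with
  | _ n ih =>
    intro P _ _ hn hP x hx hC f hf
    haveI : Fact (Nat.Prime 3) := ⟨Nat.prime_three⟩
    by_contra hlt
    obtain ⟨k, hk⟩ := hP.exists_card_eq
    have hk5 : 5 ≤ k := by
      by_contra h
      have : 3 ^ k ≤ 3 ^ 4 := Nat.pow_le_pow_right (by norm_num) (by omega)
      omega
    rcases eq_or_lt_of_le hk5 with h5 | h5
    · exact core_false hP x hx hC f hf (by rw [hk, ← h5]; norm_num)
    · have hne : f.ker ≠ ⊥ := by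
        intro h
        have h4 := Subgroup.card_mul_index f.ker
        rw [Subgroup.index_ker, MonoidHom.range_eq_top.2 hf, Subgroup.card_top, card_Wr, h,
          Subgroup.card_bot, one_mul] at h4
        omega
      obtain ⟨z, hz, hzker⟩ : ∃ z : P, orderOf z = 3 ∧ z ∈ f.ker ∧ z ∈ Subgroup.center P :=
        exists_central_of_normal hP f.ker hne
      let N : Subgroup P := Subgroup.zpowers z
      haveI : N.Normal := ⟨fun y hy g => by
        have hyc : y ∈ Subgroup.center P := (Subgroup.zpowers_le.2 hzker.2) hy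
        rwa [Subgroup.mem_center_iff.1 hyc g, mul_inv_cancel_right]⟩
      have hNk : N ≤ f.ker := by rw [Subgroup.zpowers_le]; exact hzker.1
      let f' : P ⧸ N →* Wr := QuotientGroup.lift N f hNk
      have hf' : Function.Surjective f' := QuotientGroup.lift_surjective_of_surjective N f hf _
      have hN : Nat.card N = 3 := by rw [Nat.card_zpowers, hz]
      have hq : Nat.card (P ⧸ N) * 3 = 3 ^ k := by
        rw [← hk, Subgroup.card_eq_card_quotient_mul_card_subgroup N, hN]
      have h243 : 3 ^ 5 * 3 ≤ 3 ^ k := by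
        calc 3 ^ 5 * 3 = 3 ^ 6 := by norm_num
          _ ≤ 3 ^ k := Nat.pow_le_pow_right (by norm_num) h5
      have := ih (Nat.card (P ⧸ N)) (by omega) rfl (hP.to_quotient N) (x : P ⧸ N)
        (by rw [← QuotientGroup.mk_pow, hx]; rfl)
        ((card_centralizer_image_le (QuotientGroup.mk' N) (QuotientGroup.mk'_surjective N) x).trans
          hC) f' hf'
      omega

end NoQuot

open NoQuot in
/-- A 3-group with an element of order 3 whose centraliser has order 9 maps onto a Sylow
3-subgroup of the symmetric group of degree 9 only isomorphically. -/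
theorem card_le_of_wreath_quotient {P : Type*} [Group P] [Finite P] (hP : IsPGroup 3 P) (x : P)
    (hx : orderOf x = 3) (hC : Nat.card ↥(Subgroup.centralizer ({x} : Set P)) = 9)
    (W : Sylow 3 (Equiv.Perm (Fin 9))) (f : P →* ↥(W : Subgroup (Equiv.Perm (Fin 9))))
    (hf : Function.Surjective f) : Nat.card P ≤ 81 := by
  obtain ⟨e⟩ := exists_equiv W
  refine card_le_aux (Nat.card P) rfl hP x ?_ hC.le (e.toMonoidHom.comp f) (e.surjective.comp hf)
  rw [← hx, pow_orderOf_eq_one]

/-- The elements of order greater than three generate a Sylow 3-subgroup of degree nine. -/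
theorem closure_order_nine (W : Sylow 3 (Equiv.Perm (Fin 9))) :
    Subgroup.closure {w : ↥(W : Subgroup (Equiv.Perm (Fin 9))) | w ^ 3 ≠ 1} = ⊤ := by
  obtain ⟨e⟩ := NoQuot.exists_equiv W
  rw [eq_top_iff]
  intro g _
  have h : e g ∈ (Subgroup.closure {w : ↥(W : Subgroup (Equiv.Perm (Fin 9))) | w ^ 3 ≠ 1}).map
      e.toMonoidHom := by
    rw [MonoidHom.map_closure]
    have : e.toMonoidHom '' {w | w ^ 3 ≠ 1} = {w : NoQuot.Wr | w ^ 3 ≠ 1} := by
      ext y
      constructor
      · rintro ⟨w, hw, rfl⟩ h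
        exact hw (e.injective (by simpa using h))
      · intro hy
        refine ⟨e.symm y, fun h => hy ?_, e.apply_symm_apply y⟩
        simpa using congrArg e h
    rw [this, NoQuot.closure_cube_ne]
    exact Subgroup.mem_top _
  obtain ⟨g', hg', hgg'⟩ := h
  exact e.injective hgg' ▸ hg'

end Cfsg.Agent.Fix4
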