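import Cfsg.Agent.Fix4.Basic
import Cfsg.Agent.Recog.FixityTwo
import Cfsg.Agent.SmallGroups.Basic
import Cfsg.Agent.Invol.StronglyEmbedded

/-!
# Involutions fixing at most three points (S3365)
-/

set_option autoImplicit false
set_option linter.unusedSectionVars false

namespace Cfsg.Agent.Fix4

open MulAction
open scoped Pointwise

/-- In a non-commutative simple group every element is an even permutation. -/
private theorem small_sign {G Ω : Type*} [Group G] [IsSimpleGroup G]
    (hna : ¬ IsMulCommutative G) [MulAction G Ω] [Fintype Ω] [DecidableEq Ω] (g : G) :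
    Equiv.Perm.sign (toPermHom G Ω g) = 1 := by
  let φ : G →* ℤˣ := Equiv.Perm.sign.comp (toPermHom G Ω)
  rcases (inferInstance : φ.ker.Normal).eq_bot_or_eq_top with h | h
  · have hinj := φ.ker_eq_bot_iff.1 h
    exact absurd ⟨⟨fun x y => hinj (by rw [map_mul, map_mul, mul_comm])⟩⟩ hna
  · have : g ∈ φ.ker := by rw [h]; trivial
    exact this

/-- An involution of a non-commutative simple group moves a multiple of four points. -/
private theorem four_dvd_moved {G Ω : Type*} [Group G] [IsSimpleGroup G]
    (hna : ¬ IsMulCommutative G) [MulAction G Ω] [FaithfulSMul G Ω] [Finite Ω]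
    {t : G} (ht : orderOf t = 2) :
    4 ∣ Nat.card Ω - Nat.card (fixedBy Ω t) ∧ Nat.card (fixedBy Ω t) ≤ Nat.card Ω := by
  classical
  have := Fintype.ofFinite Ω
  set σ : Equiv.Perm Ω := toPermHom G Ω t with hσ
  have hord : (orderOf σ).Prime := by
    rw [hσ, orderOf_injective (toPermHom G Ω) MulAction.toPerm_injective, ht]
    exact Nat.prime_two
  have ho : orderOf σ = 2 := by
    rw [hσ, orderOf_injective (toPermHom G Ω) MulAction.toPerm_injective, ht]
  obtain ⟨k, hk⟩ := Equiv.Perm.cycleType_prime_order hord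
  rw [ho] at hk
  have hsum : σ.support.card = (k + 1) * 2 := by
    rw [← Equiv.Perm.sum_cycleType, hk, Multiset.sum_replicate, smul_eq_mul]
  have hs := small_sign (Ω := Ω) hna t
  rw [← hσ, Equiv.Perm.sign_of_cycleType, Equiv.Perm.sum_cycleType, hsum, hk,
    Multiset.card_replicate] at hs
  have hk1 : Even (k + 1) := by
    by_contra h
    rw [Nat.not_even_iff_odd] at h
    have hodd : Odd ((k + 1) * 2 + (k + 1)) :=
      (even_iff_two_dvd.2 (dvd_mul_left 2 (k + 1))).add_odd h
    rw [hodd.neg_one_pow] at hs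
    exact absurd hs (by decide)
  have hc : σ.supportᶜ.card = Nat.card (fixedBy Ω t) := by
    rw [Nat.card_coe_set_eq, ← Set.ncard_coe_finset]
    congr 1
    ext x
    simp [hσ, fixedBy]
  rw [Finset.card_compl] at hc
  have hle : σ.support.card ≤ Fintype.card Ω := Finset.card_le_univ _
  rw [Nat.card_eq_fintype_card (α := Ω), ← hc]
  obtain ⟨m, hm⟩ := hk1
  refine ⟨⟨m, ?_⟩, Nat.sub_le _ _⟩
  omega

/-- A set which is the exact fixed point set of every involution of its stabiliser has a
strongly embedded stabiliser. -/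
private theorem stronglyEmbedded_of_fix {G Ω : Type*} [Group G] [Finite G] [MulAction G Ω]
    [Finite Ω] (htrans : IsPretransitive G Ω) (D : Set Ω) (hne : D.Nonempty)
    (hD : D.ncard < Nat.card Ω) {z : G} (hz : orderOf z = 2) (hzD : fixedBy Ω z = D)
    (h : ∀ t ∈ stabilizer G D, orderOf t = 2 → fixedBy Ω t = D) :
    Cfsg.IsStronglyEmbedded (stabilizer G D) := by
  refine Invol.isStronglyEmbedded_of_forall ?_ ?_ ?_
  · intro htop
    obtain ⟨a, ha⟩ := hne
    have huniv : D = Set.univ := by
      refine Set.eq_univ_of_forall fun x => ?_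
      obtain ⟨g, rfl⟩ := MulAction.exists_smul_eq G a x
      have hg : g ∈ stabilizer G D := by rw [htop]; trivial
      rw [← mem_stabilizer_iff.1 hg]
      exact Set.smul_mem_smul_set ha
    rw [huniv, Set.ncard_univ] at hD
    exact lt_irrefl _ hD
  · have hzH : z ∈ stabilizer G D := by
      rw [mem_stabilizer_iff, ← hzD, ← fixedBy_conj, mul_inv_cancel_right]
    rw [even_iff_two_dvd, ← hz, ← Subgroup.orderOf_mk z hzH]
    exact orderOf_dvd_natCard _
  · intro g t ht htH hg
    have h1 := h t htH ht
    have h2 : fixedBy Ω (g⁻¹ * t * g) = D := by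
      refine h _ hg ?_
      rw [show g⁻¹ * t * g = MulAut.conj g⁻¹ t by simp, MulEquiv.orderOf_eq, ht]
    have h3 := fixedBy_conj (Ω := Ω) t g⁻¹
    rw [inv_inv, h2, h1] at h3
    rw [← inv_mem_iff, mem_stabilizer_iff, ← h3]

/-- Invariant sets on which a group acts freely have cardinality a multiple of its order. -/
private theorem card_dvd_of_free {P Ω : Type*} [Group P] [MulAction P Ω] (p : Ω → Prop)
    (hp : ∀ (g : P) (x : Ω), p x → p (g • x)) (hfree : ∀ x, p x → stabilizer P x = ⊥) :
    Nat.card P ∣ Nat.card {x : Ω // p x} := by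
  let X : SubMulAction P Ω := { carrier := {x | p x}, smul_mem' := fun g x h => hp g x h }
  have hX : ∀ x : X, stabilizer P x = ⊥ := fun x => by
    rw [eq_bot_iff, ← hfree x.1 x.2]
    intro g hg
    exact congrArg Subtype.val (hg : g • x = x)
  have h := Nat.card_congr (MulAction.selfEquivOrbitsQuotientProd hX)
  rw [Nat.card_prod] at h
  exact ⟨Nat.card (Quotient (MulAction.orbitRel P X)), h.trans (mul_comm _ _)⟩

/-- No element interchanges two points, fixes a further one and is semiregular with an even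
number of cycles elsewhere. -/
private theorem no_swap {G Ω : Type*} [Group G] [IsSimpleGroup G] (hna : ¬ IsMulCommutative G)
    [MulAction G Ω] [Finite Ω] {s : G} {a b c : Ω} (hab : a ≠ b) (hac : a ≠ c) (hbc : b ≠ c)
    (hsa : s • a = a) (hsb : s • b = c) (hsc : s • c = b)
    (hfree : ∀ x : Ω, x ≠ a → x ≠ b → x ≠ c → ∀ n : ℕ, s ^ n • x = x → s ^ n = 1)
    (hd : 2 * orderOf s ∣ Nat.card {x : Ω // x ≠ a ∧ x ≠ b ∧ x ≠ c}) : False := by
  classical
  have := Fintype.ofFinite Ω
  have hs1 : s ≠ 1 := by
    rintro rfl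
    rw [one_smul] at hsb
    exact hbc hsb
  have hinv : ∀ x : Ω, x ≠ a → x ≠ b → x ≠ c → s • x ≠ a ∧ s • x ≠ b ∧ s • x ≠ c :=
    fun x h1 h2 h3 => ⟨fun h => h1 (MulAction.injective s (h.trans hsa.symm)),
      fun h => h3 (MulAction.injective s (h.trans hsc.symm)),
      fun h => h2 (MulAction.injective s (h.trans hsb.symm))⟩
  set f : Equiv.Perm Ω := Equiv.swap b c * toPermHom G Ω s with hf
  have hfa : f a = a := by
    change Equiv.swap b c (s • a) = a
    rw [hsa, Equiv.swap_apply_of_ne_of_ne hab hac]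
  have hfb : f b = b := by
    change Equiv.swap b c (s • b) = b
    rw [hsb, Equiv.swap_apply_right]
  have hfc : f c = c := by
    change Equiv.swap b c (s • c) = c
    rw [hsc, Equiv.swap_apply_left]
  have hfx : ∀ x : Ω, x ≠ a → x ≠ b → x ≠ c → f x = s • x := by
    intro x h1 h2 h3
    obtain ⟨-, i2, i3⟩ := hinv x h1 h2 h3
    exact Equiv.swap_apply_of_ne_of_ne i2 i3
  have hpow : ∀ (n : ℕ) (x : Ω), x ≠ a → x ≠ b → x ≠ c →
      (f ^ n) x = s ^ n • x ∧ s ^ n • x ≠ a ∧ s ^ n • x ≠ b ∧ s ^ n • x ≠ c := by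
    intro n
    induction n with
    | zero => intro x h1 h2 h3; simp [h1, h2, h3]
    | succ n ih =>
      intro x h1 h2 h3
      obtain ⟨e, i1, i2, i3⟩ := ih x h1 h2 h3
      rw [pow_succ', pow_succ', Equiv.Perm.mul_apply, e, hfx _ i1 i2 i3, mul_smul]
      exact ⟨rfl, hinv _ i1 i2 i3⟩
  have hsupp : f.support = Finset.univ.filter (fun x => x ≠ a ∧ x ≠ b ∧ x ≠ c) := by
    ext x
    rw [Equiv.Perm.mem_support, Finset.mem_filter]
    refine ⟨fun h => ⟨Finset.mem_univ _, fun e => h (e ▸ hfa), fun e => h (e ▸ hfb),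
      fun e => h (e ▸ hfc)⟩, ?_⟩
    rintro ⟨-, h1, h2, h3⟩ h
    rw [hfx x h1 h2 h3] at h
    exact hs1 (by simpa using hfree x h1 h2 h3 1 (by simpa using h))
  have h1 : Equiv.Perm.sign f = 1 := by
    refine Recog.FixityTwo.sign_eq_one_of_period f (orderOf s) (fun x hx n => ?_) ?_
    · rw [hsupp, Finset.mem_filter] at hx
      obtain ⟨-, h1, h2, h3⟩ := hx
      rw [(hpow n x h1 h2 h3).1, orderOf_dvd_iff_pow_eq_one]
      exact ⟨hfree x h1 h2 h3 n, fun h => by rw [h, one_smul]⟩
    · rw [hsupp, ← Fintype.card_subtype, ← Nat.card_eq_fintype_card]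
      exact hd
  rw [hf, map_mul, Equiv.Perm.sign_swap hbc, small_sign hna s] at h1
  exact absurd h1 (by decide)

/-- The cases in which involutions fix one, two or three points. -/
theorem fixity_small {G Ω : Type*} [Group G] [Finite G] [IsSimpleGroup G]
    (hna : ¬ IsMulCommutative G) [MulAction G Ω] [FaithfulSMul G Ω] [Finite Ω]
    (htrans : IsPretransitive G Ω) (hfix : FixAtMostFour G Ω) (hn : 4 < Nat.card Ω)
    (S : Sylow 2 G) (f : ℕ) (hf1 : 1 ≤ f) (hf3 : f ≤ 3)
    (hf : ∀ g : G, orderOf g = 2 → Nat.card (fixedBy Ω g) ≤ f)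
    (hf' : ∃ g : G, orderOf g = 2 ∧ Nat.card (fixedBy Ω g) = f) :
    (∃ H : Subgroup G, Cfsg.IsStronglyEmbedded H) ∨
      ((∃ n : ℕ, Nonempty ((S : Subgroup G) ≃* DihedralGroup n)) ∨
        Cfsg.IsQuasiDihedral (S : Subgroup G)) := by
  classical
  have := Fintype.ofFinite Ω
  have : Fact (Nat.Prime 2) := ⟨Nat.prime_two⟩
  obtain ⟨t0, ht0, hft0⟩ := hf'
  -- every involution fixes exactly `f` points
  have hmod : 4 ∣ Nat.card Ω - f ∧ f ≤ Nat.card Ω := hft0 ▸ four_dvd_moved hna ht0
  have hex : ∀ t : G, orderOf t = 2 → (fixedBy Ω t).ncard = f := by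
    intro t ht
    have h1 := four_dvd_moved (Ω := Ω) hna ht
    have h2 := hf t ht
    rw [← Nat.card_coe_set_eq]
    omega
  -- a non-trivial 2-element fixes at most `f` points
  have h2el : ∀ g : G, g ∈ (S : Subgroup G) → g ≠ 1 → ∀ D : Set Ω, (∀ x ∈ D, g • x = x) →
      D.ncard ≤ f := by
    intro g hg hg1 D hD
    obtain ⟨k, hk⟩ := S.2 ⟨g, hg⟩
    have hgk : g ^ 2 ^ k = 1 := congrArg Subtype.val hk
    obtain ⟨j, -, hj⟩ := (Nat.dvd_prime_pow Nat.prime_two).1 (orderOf_dvd_of_pow_eq_one hgk)
    have hj0 : j ≠ 0 := by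
      rintro rfl
      exact hg1 (orderOf_eq_one_iff.1 (by rw [hj, pow_zero]))
    have hdiv : 2 ∣ orderOf g := hj ▸ dvd_pow_self 2 hj0
    have ho : orderOf (g ^ (orderOf g / 2)) = 2 :=
      orderOf_pow_orderOf_div (orderOf_pos g).ne' hdiv
    rw [← hex _ ho]
    refine Set.ncard_le_ncard (fun x hx => ?_)
    exact pow_mem (show g ∈ stabilizer G x from hD x hx) _
  have h2G : 2 ∣ Nat.card G := ht0 ▸ orderOf_dvd_natCard t0
  have hncyc := SmallGroups.not_isCyclic_sylow_two hna h2G S
  obtain ⟨z, hzS, hz⟩ : ∃ z ∈ (S : Subgroup G), orderOf z = 2 := by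
    have hS : 2 ∣ Nat.card (S : Subgroup G) := S.dvd_card_of_dvd_card h2G
    obtain ⟨⟨z, hzS⟩, hz⟩ := exists_prime_orderOf_dvd_card' 2 hS
    exact ⟨z, hzS, by rwa [Subgroup.orderOf_mk] at hz⟩
  have hzne : z ≠ 1 := by
    rintro rfl
    rw [orderOf_one] at hz
    exact absurd hz (by norm_num)
  interval_cases f
  · -- one fixed point
    left
    obtain ⟨a, ha⟩ := Set.ncard_eq_one.1 (hex z hz)
    refine ⟨_, stronglyEmbedded_of_fix htrans {a} (Set.singleton_nonempty a)
      (by rw [Set.ncard_singleton]; omega) hz ha fun t htH ht => ?_⟩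
    refine (Set.eq_of_subset_of_ncard_le ?_ (by rw [hex t ht, Set.ncard_singleton])).symm
    rintro _ rfl
    rw [mem_stabilizer_iff, Set.smul_set_singleton, Set.singleton_eq_singleton_iff] at htH
    exact htH
  · -- two fixed points
    right
    obtain ⟨a, ha⟩ := Set.nonempty_of_ncard_ne_zero (by rw [hex z hz]; norm_num :
      (fixedBy Ω z).ncard ≠ 0)
    have hbot : stabilizer (S : Subgroup G) a ≠ ⊥ := by
      intro h
      have hm : (⟨z, hzS⟩ : (S : Subgroup G)) ∈ stabilizer (S : Subgroup G) a := ha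
      rw [h, Subgroup.mem_bot] at hm
      exact hzne (congrArg Subtype.val hm)
    have htop : stabilizer (S : Subgroup G) a ≠ ⊤ := by
      intro h
      have hle : (S : Subgroup G) ≤ stabilizer G a := fun x hx => by
        have hm : (⟨x, hx⟩ : (S : Subgroup G)) ∈ stabilizer (S : Subgroup G) a := by
          rw [h]; trivial
        exact hm
      have h2 : 2 ∣ (S : Subgroup G).index := by
        refine dvd_trans ?_ (Subgroup.index_dvd_of_le hle)
        rw [index_stabilizer_of_transitive]
        omega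
      exact S.not_dvd_index' Finite.card_pos.ne' h2
    rcases Recog.FixityTwo.two_group_cases S.2 (fun g x y w hxy hxw hyw hx hy hw => by
        by_contra hg
        have h := h2el g g.2 (fun h => hg (Subtype.ext h)) {x, y, w} (by
          rintro u (rfl | rfl | rfl) <;> assumption)
        rw [Set.ncard_eq_three.2 ⟨x, y, w, hxy, hxw, hyw, rfl⟩] at h
        omega) a hbot htop with ⟨hD, -⟩ | ⟨hidx, b, hba, hall, hTb, hfree⟩
    · exact hD
    exfalso
    obtain ⟨q, hq⟩ : ∃ q : (S : Subgroup G), q • a = b := by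
      by_contra hno
      push Not at hno
      exact htop (eq_top_iff.mpr fun x _ => (hall x).resolve_right (hno x))
    have hpair : ∀ (p : (S : Subgroup G)) (d : Ω), (d = a ∨ d = b) → p • d = a ∨ p • d = b := by
      rintro p d (rfl | rfl)
      · exact hall p
      · rw [← hq, ← mul_smul, hq]; exact hall _
    have hdvd := card_dvd_of_free (P := (S : Subgroup G)) (fun x => x ≠ a ∧ x ≠ b)
      (fun p x hx => by
        refine ⟨fun h => ?_, fun h => ?_⟩
        · have := hpair p⁻¹ (p • x) (Or.inl h)
          rw [inv_smul_smul] at this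
          exact this.elim hx.1 hx.2
        · have := hpair p⁻¹ (p • x) (Or.inr h)
          rw [inv_smul_smul] at this
          exact this.elim hx.1 hx.2)
      (fun x hx => hfree x hx.1 hx.2)
    obtain ⟨N, hN, hN2, -⟩ :=
      Recog.FixityTwo.exists_index_two S a b hba hidx hall hTb hfree hdvd
    rcases hN.eq_bot_or_eq_top with h | h
    · rw [h, Subgroup.index_bot] at hN2
      exact hna ⟨⟨fun x y => by
        have hc : IsCyclic G := isCyclic_of_prime_card (p := 2) hN2
        let _ : CommGroup G := IsCyclic.commGroup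
        exact mul_comm x y⟩⟩
    · rw [h, Subgroup.index_top] at hN2
      omega
  · -- three fixed points
    obtain ⟨a, haS⟩ := S.2.nonempty_fixed_point_of_prime_not_dvd_card Ω (by omega)
    have hSa : ∀ (x : G), x ∈ (S : Subgroup G) → x • a = a := fun x hx => haS ⟨x, hx⟩
    obtain ⟨b, hb, hba⟩ := Set.exists_ne_of_one_lt_ncard
      (by rw [hex z hz]; norm_num : 1 < (fixedBy Ω z).ncard) a
    let X : SubMulAction (S : Subgroup G) Ω :=
      { carrier := {x | x ≠ a}
        smul_mem' := fun p x hx h => hx (MulAction.injective p (h.trans (haS p).symm)) }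
    let b' : X := ⟨b, hba⟩
    have hbot : stabilizer (S : Subgroup G) b' ≠ ⊥ := by
      intro h
      have hm : (⟨z, hzS⟩ : (S : Subgroup G)) ∈ stabilizer (S : Subgroup G) b' :=
        Subtype.ext hb
      rw [h, Subgroup.mem_bot] at hm
      exact hzne (congrArg Subtype.val hm)
    by_cases htop : stabilizer (S : Subgroup G) b' = ⊤
    · left
      have hSb : ∀ p : (S : Subgroup G), p • b = b := fun p => by
        have hm : p ∈ stabilizer (S : Subgroup G) b' := by rw [htop]; trivial
        exact congrArg Subtype.val (hm : p • b' = b')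
      -- the fixed points of `S` are the fixed points of each of its involutions
      set D : Set Ω := fixedPoints (S : Subgroup G) Ω with hDdef
      have hsub : ∀ t ∈ (S : Subgroup G), D ⊆ fixedBy Ω t := fun t ht x hx => hx ⟨t, ht⟩
      have hD3 : D.ncard = 3 := by
        have hle := Set.ncard_le_ncard (hsub z hzS)
        rw [hex z hz] at hle
        have hmodEq := S.2.card_modEq_card_fixedPoints Ω
        rw [Nat.card_coe_set_eq] at hmodEq
        have h2 : 2 ≤ D.ncard := by
          rw [← Set.ncard_pair hba.symm]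
          refine Set.ncard_le_ncard ?_
          rintro x (rfl | rfl)
          · exact haS
          · exact hSb
        have hmd : Nat.card Ω % 2 = D.ncard % 2 := hmodEq
        omega
      have hDeq : ∀ t ∈ (S : Subgroup G), orderOf t = 2 → fixedBy Ω t = D := fun t ht ht2 =>
        (Set.eq_of_subset_of_ncard_le (hsub t ht) (by rw [hex t ht2, hD3])).symm
      have hSH : (S : Subgroup G) ≤ stabilizer G D := by
        intro x hx
        rw [mem_stabilizer_iff]
        ext y
        rw [Set.mem_smul_set_iff_inv_smul_mem]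
        exact ⟨fun h => by
          have := h ⟨x, hx⟩
          change x • (x⁻¹ • y) = x⁻¹ • y at this
          rw [smul_inv_smul] at this
          rwa [← this] at h, fun h => by
          have : x⁻¹ • y = y := h ⟨x⁻¹, inv_mem hx⟩
          rwa [this]⟩
      refine ⟨_, stronglyEmbedded_of_fix htrans D (Set.nonempty_of_ncard_ne_zero (by omega))
        (by omega) hz (hDeq z hzS hz) fun t htH ht => ?_⟩
      have hP : IsPGroup 2 (Subgroup.zpowers (⟨t, htH⟩ : stabilizer G D)) :=
        IsPGroup.of_card (n := 1) (by rw [Nat.card_zpowers, Subgroup.orderOf_mk, ht, pow_one])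
      obtain ⟨Q, hQ⟩ := hP.exists_le_sylow
      obtain ⟨h, hh⟩ := MulAction.exists_smul_eq (stabilizer G D) Q (S.subtype hSH)
      have htQ : (⟨t, htH⟩ : stabilizer G D) ∈ Q := hQ (Subgroup.mem_zpowers _)
      have hmem : MulAut.conj h ⟨t, htH⟩ ∈ (↑(h • Q) : Subgroup (stabilizer G D)) := by
        rw [Sylow.coe_subgroup_smul]
        exact Subgroup.smul_mem_pointwise_smul _ _ _ htQ
      rw [hh, Sylow.coe_subtype, Subgroup.mem_subgroupOf] at hmem
      change (h : G) * t * (h : G)⁻¹ ∈ (S : Subgroup G) at hmem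
      have h1 := hDeq _ hmem (by
        rw [show (h : G) * t * (h : G)⁻¹ = MulAut.conj (h : G) t by simp, MulEquiv.orderOf_eq, ht])
      rw [fixedBy_conj] at h1
      exact smul_left_cancel (h : G) (h1.trans (mem_stabilizer_iff.1 h.2).symm)
    · rcases Recog.FixityTwo.two_group_cases S.2 (fun g x y w hxy hxw hyw hx hy hw => by
          by_contra hg
          have h := h2el g g.2 (fun h => hg (Subtype.ext h)) {a, (x : Ω), (y : Ω), (w : Ω)} (by
            rintro u (rfl | rfl | rfl | rfl)
            · exact hSa g g.2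
            · exact congrArg Subtype.val hx
            · exact congrArg Subtype.val hy
            · exact congrArg Subtype.val hw)
          rw [Set.ncard_insert_of_notMem (by
              simp only [Set.mem_insert_iff, Set.mem_singleton_iff, not_or]
              exact ⟨x.2.symm, y.2.symm, w.2.symm⟩),
            Set.ncard_eq_three.2 ⟨(x : Ω), y, w, fun h => hxy (Subtype.ext h),
              fun h => hxw (Subtype.ext h), fun h => hyw (Subtype.ext h), rfl⟩] at h
          omega) b' hbot htop with ⟨hD, -⟩ | ⟨hidx, c', hcb', hall, hTb, hfree⟩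
      · exact Or.inr hD
      exfalso
      obtain ⟨s, hs⟩ : ∃ q : (S : Subgroup G), q • b' = c' := by
        by_contra hno
        push Not at hno
        exact htop (eq_top_iff.mpr fun x _ => (hall x).resolve_right (hno x))
      have hs2 : s • c' = b' := by
        rw [← hs, ← mul_smul]
        exact Subgroup.mul_self_mem_of_index_two hidx s
      have hpair : ∀ (p : (S : Subgroup G)) (d : X), (d = b' ∨ d = c') →
          p • d = b' ∨ p • d = c' := by
        rintro p d (rfl | rfl)
        · exact hall p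
        · rw [← hs, ← mul_smul, hs]; exact hall _
      have hac : a ≠ (c' : Ω) := fun h => c'.2 h.symm
      have hbc : b ≠ (c' : Ω) := fun h => hcb' (Subtype.ext h.symm)
      have hfree' : ∀ x : Ω, x ≠ a → x ≠ b → x ≠ (c' : Ω) →
          stabilizer (S : Subgroup G) x = ⊥ := by
        intro x h1 h2 h3
        rw [eq_bot_iff, ← hfree ⟨x, h1⟩ (fun h => h2 (congrArg Subtype.val h))
          (fun h => h3 (congrArg Subtype.val h))]
        intro p hp
        exact Subtype.ext hp
      have hdvd := card_dvd_of_free (P := (S : Subgroup G))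
        (fun x => x ≠ a ∧ x ≠ b ∧ x ≠ (c' : Ω))
        (fun p x hx => by
          have hxX : p • x ≠ a := fun h => hx.1 (MulAction.injective p (h.trans (haS p).symm))
          have key : ∀ d : X, (d = b' ∨ d = c') → p • x ≠ (d : Ω) := by
            intro d hd h
            have := hpair p⁻¹ d hd
            have e : (p⁻¹ • d : X) = ⟨x, hx.1⟩ := Subtype.ext (by
              change p⁻¹ • (d : Ω) = x
              rw [← h, inv_smul_smul])
            rw [e] at this
            exact this.elim (fun e' => hx.2.1 (congrArg Subtype.val e'))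
              (fun e' => hx.2.2 (congrArg Subtype.val e'))
          exact ⟨hxX, key b' (Or.inl rfl), key c' (Or.inr rfl)⟩)
        (fun x hx => hfree' x hx.1 hx.2.1 hx.2.2)
      refine no_swap hna (s := (s : G)) hba.symm hac hbc (hSa s s.2)
        (congrArg Subtype.val hs) (congrArg Subtype.val hs2) (fun x h1 h2 h3 n hnx => ?_)
        (dvd_trans ?_ hdvd)
      · have hm : s ^ n ∈ stabilizer (S : Subgroup G) x := hnx
        rw [hfree' x h1 h2 h3, Subgroup.mem_bot] at hm
        exact congrArg Subtype.val hm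
      · obtain ⟨k, hk⟩ := IsPGroup.iff_card.mp S.2
        rw [Subgroup.orderOf_coe]
        obtain ⟨j, hj, hj'⟩ := (Nat.dvd_prime_pow Nat.prime_two).mp (hk ▸ orderOf_dvd_natCard s)
        rw [hj', hk, ← pow_succ']
        refine pow_dvd_pow 2 (lt_of_le_of_ne hj fun h => hncyc ?_)
        exact isCyclic_of_orderOf_eq_card s (by rw [hj', h, hk])

end Cfsg.Agent.Fix4
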