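import Mathlib

/-!
# Permutations of four points: the quotient of order three of `A₄` (S3365)
-/

set_option autoImplicit false

namespace Cfsg.Agent.Fix4

open Equiv

/-- The pairing to which a permutation of four points moves `{0,1} ∪ {2,3}`. -/
def pairing (a : Perm (Fin 4)) : ZMod 3 :=
  (((a 0).val ^^^ (a 1).val : ℕ) : ZMod 3) - 1

theorem pairing_mul :
    ∀ a b : Perm (Fin 4), Perm.sign a = 1 → Perm.sign b = 1 →
      pairing (a * b) = pairing a + pairing b := by
  decide

theorem pairing_ne_zero :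
    ∀ a : Perm (Fin 4), a ^ 3 = 1 → a ≠ 1 → pairing a ≠ 0 := by
  decide

/-- Being a transposition, in decidable form. -/
abbrev IsSwapLike (t : Perm (Fin 4)) : Prop :=
  t ≠ 1 ∧ t * t = 1 ∧ ∃ x y : Fin 4, x ≠ y ∧ t x = x ∧ t y = y

/-- An odd permutation and a three-cycle of four points give a transposition. -/
theorem exists_swap :
    ∀ f : Perm (Fin 4), ∀ c : Perm (Fin 4),
      ¬ Perm.sign f = 1 ∧ c ^ 3 = 1 ∧ c ≠ 1 →
        ∃ w : Fin 4 × Fin 3, IsSwapLike (f ^ (w.1 : ℕ) * c ^ (w.2 : ℕ)) := by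
  decide +kernel

end Cfsg.Agent.Fix4
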