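import Cfsg.Agent.Fix4.Basic

/-!
# Three-groups of fixity four (S3365)
-/

set_option autoImplicit false
set_option linter.unusedSectionVars false

namespace Cfsg.Agent.Fix4

open MulAction Subgroup
open scoped Pointwise

variable {P Ω : Type*} [Group P] [Finite P] [MulAction P Ω] [Finite Ω]

/-- A nontrivial element fixing an orbit bounds its size. -/
theorem ncard_orbit_le (hfix : FixAtMostFour P Ω) {r : P} (hr : r ≠ 1) {s : Set Ω}
    (h : ∀ c ∈ s, r • c = c) : s.ncard ≤ 4 := by
  by_contra hs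
  exact hr (eq_one_of_fix hfix s (by omega) h)

theorem ncard_orbit (M : Subgroup P) (b : Ω) :
    (orbit M b).ncard = (stabilizer P b).relIndex M := by
  rw [← index_stabilizer M b]
  rfl

/-- If a group fixes six points of two orbits its nontrivial point stabiliser has order three. -/
theorem card_eq_three_of_two_orbits (hfix : FixAtMostFour P Ω) (hP : IsPGroup 3 P)
    (R R' M : Subgroup P) (s : Set Ω) (hs : 4 < s.ncard) (hR : R' ≠ ⊥) (hRM : R' ≤ M)
    (hidx : R.relIndex M = 3) (h : ∀ r ∈ R ⊓ R', ∀ c ∈ s, r • c = c) :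
    Nat.card R' = 3 := by
  have hbot : R ⊓ R' = ⊥ := (eq_bot_iff_forall _).2 fun r hr => eq_one_of_fix hfix s hs (h r hr)
  have h1 : R.relIndex R' ≤ R.relIndex M := relIndex_le_of_le_right hRM (by rw [hidx]; omega)
  rw [← inf_relIndex_right, hbot, relIndex_bot_left, hidx] at h1
  have : Fact (Nat.Prime 3) := ⟨Nat.prime_three⟩
  obtain ⟨k, hk⟩ := IsPGroup.iff_card.1 (hP.to_subgroup R')
  have h2 : 1 < Nat.card R' := (one_lt_card_iff_ne_bot R').2 hR
  rw [hk] at h1 h2 ⊢
  rcases k with _ | _ | k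
  · simp at h2
  · rfl
  · exfalso
    have : 9 ≤ 3 ^ (k + 2) := by
      calc 9 = 3 ^ 2 := rfl
        _ ≤ 3 ^ (k + 2) := Nat.pow_le_pow_right (by omega) (by omega)
    omega

/-- The point stabilisers of the shape which leads to a wreath product. -/
theorem exists_small_of_not_normal (hfix : FixAtMostFour P Ω) (hP : IsPGroup 3 P) (b : Ω)
    (hR : stabilizer P b ≠ ⊥) (hnn : ¬ (stabilizer P b).Normal) :
    ∃ x : P, orderOf x = 3 ∧ x • b = b ∧ Nat.card (centralizer ({x} : Set P)) = 9 ∧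
      ∃ m ∈ centralizer ({x} : Set P), m • b ≠ b := by
  have : Fact (Nat.Prime 3) := ⟨Nat.prime_three⟩
  set R := stabilizer P b with hRdef
  set M := normalizer (R : Set P) with hMdef
  have : Group.IsNilpotent P := hP.isNilpotent
  have hnc : NormalizerCondition P := Group.normalizerCondition_of_isNilpotent
  have hRtop : R ≠ ⊤ := fun e => hnn (e ▸ inferInstance)
  have hRM : R < M := hnc R (lt_top_iff_ne_top.2 hRtop)
  have hMtop : M ≠ ⊤ := fun e => hnn (normalizer_eq_top_iff.1 e)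
  have hMN : M < normalizer (M : Set P) := hnc M (lt_top_iff_ne_top.2 hMtop)
  obtain ⟨p, hpN, hpM⟩ := SetLike.exists_of_lt hMN
  obtain ⟨r, hrR, hr1⟩ := R.bot_or_exists_ne_one.resolve_left hR
  have horb : ∀ c ∈ orbit M b, ∀ s ∈ R, s • c = c := by
    rintro c ⟨⟨m, hm⟩, rfl⟩ s hs
    show s • m • b = m • b
    have h1 : m⁻¹ * s * m ∈ R := (mem_normalizer_iff''.1 hm s).1 hs
    rw [hRdef, mem_stabilizer_iff] at h1
    calc s • m • b = m • (m⁻¹ * s * m) • b := by
          rw [← mul_smul, ← mul_smul]; congr 1; group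
      _ = m • b := by rw [h1]
  have hidx : R.relIndex M = 3 := by
    have h1 : (orbit M b).ncard ≤ 4 := ncard_orbit_le hfix hr1 fun c hc => horb c hc r hrR
    have h2 : 1 < R.relIndex M := by
      have h3 : R.relIndex M ≠ 1 := fun e => hRM.not_ge (relIndex_eq_one.1 e)
      have h4 : R.relIndex M ≠ 0 := index_ne_zero_of_finite
      omega
    rw [ncard_orbit] at h1
    obtain ⟨k, hk⟩ := (hP.to_subgroup M).index (R.subgroupOf M)
    change R.relIndex M = 3 ^ k at hk
    rw [← hRdef] at h1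
    rw [hk] at h1 h2 ⊢
    rcases k with _ | _ | k
    · simp at h2
    · rfl
    · exfalso
      have : 9 ≤ 3 ^ (k + 2) := by
        calc 9 = 3 ^ 2 := rfl
          _ ≤ 3 ^ (k + 2) := Nat.pow_le_pow_right (by omega) (by omega)
      omega
  set R' := stabilizer P (p • b) with hR'def
  have hR' : R' = R.map (MulAut.conj p).toMonoidHom := stabilizer_smul_eq_stabilizer_map_conj p b
  have hR'M : R' ≤ M := by
    rw [hR']
    rintro _ ⟨s, hs, rfl⟩
    exact (mem_normalizer_iff.1 hpN s).1 (hRM.le hs)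
  have hcard : Nat.card R = Nat.card R' := by
    rw [hR', card_map_of_injective (MulAut.conj p).injective]
  set s : Set Ω := orbit M b ∪ orbit M (p • b) with hs
  have horb' : ∀ c ∈ orbit M (p • b), ∀ t ∈ R', t • c = c := by
    rintro c ⟨⟨m, hm⟩, rfl⟩ t ht
    show t • m • p • b = m • p • b
    have hm' : p⁻¹ * m * p ∈ M := (mem_normalizer_iff''.1 hpN m).1 hm
    rw [hR'] at ht
    obtain ⟨u, hu, rfl⟩ := ht
    have h1 : u • (p⁻¹ * m * p) • b = (p⁻¹ * m * p) • b := horb _ ⟨⟨_, hm'⟩, rfl⟩ u hu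
    calc (MulAut.conj p u) • m • p • b = p • u • (p⁻¹ * m * p) • b := by
          simp only [MulAut.conj_apply, ← mul_smul]; congr 1; group
      _ = m • p • b := by rw [h1, ← mul_smul, ← mul_smul]; congr 1; group
  have hdis : Disjoint (orbit M b) (orbit M (p • b)) := by
    rw [Set.disjoint_iff]
    rintro c ⟨⟨⟨m₁, hm₁⟩, rfl⟩, ⟨m₂, hm₂⟩, he⟩
    change m₂ • p • b = m₁ • b at he
    apply hpM
    have h1 : m₁⁻¹ * m₂ * p ∈ R := by
      rw [hRdef, mem_stabilizer_iff, mul_smul, mul_smul, he, inv_smul_smul]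
    have h2 := mul_mem (inv_mem hm₂) (mul_mem hm₁ (hRM.le h1))
    simpa [mul_assoc] using h2
  have hs6 : 4 < s.ncard := by
    rw [hs, Set.ncard_union_eq hdis (Set.toFinite _) (Set.toFinite _), ncard_orbit, ncard_orbit]
    rw [← hRdef, ← hR'def, hidx]
    have h1 : R'.relIndex M * Nat.card R' = Nat.card M := by
      rw [mul_comm, ← relIndex_bot_left R', ← relIndex_bot_left M,
        relIndex_mul_relIndex _ _ _ bot_le hR'M]
    have h2 : R.relIndex M * Nat.card R = Nat.card M := by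
      rw [mul_comm, ← relIndex_bot_left R, ← relIndex_bot_left M,
        relIndex_mul_relIndex _ _ _ bot_le hRM.le]
    rw [hidx, hcard, ← h1] at h2
    have := Nat.eq_of_mul_eq_mul_right Nat.card_pos h2
    omega
  have hR'3 : Nat.card R' = 3 := by
    refine card_eq_three_of_two_orbits hfix hP R R' M s hs6 ?_ hR'M hidx ?_
    · intro e
      rw [e, card_bot] at hcard
      exact hR (eq_bot_of_card_eq R hcard)
    · rintro t ⟨ht, ht'⟩ c (hc | hc)
      · exact horb c hc t ht
      · exact horb' c hc t ht'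
  have hR3 : Nat.card R = 3 := hcard.trans hR'3
  have hM9 : Nat.card M = 3 ^ 2 := by
    rw [← relIndex_bot_left M, ← relIndex_mul_relIndex ⊥ R M bot_le hRM.le, relIndex_bot_left,
      hR3, hidx]
    rfl
  have hxo : orderOf r = 3 := by
    rcases (Nat.dvd_prime Nat.prime_three).1 (hR3 ▸ R.orderOf_dvd_natCard hrR) with h | h
    · exact absurd (orderOf_eq_one_iff.1 h) hr1
    · exact h
  have hzR : zpowers r = R := eq_of_le_of_card_ge (zpowers_le.2 hrR)
    (by rw [Nat.card_zpowers, hxo, hR3])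
  have hCM : centralizer ({r} : Set P) = M := by
    refine le_antisymm (fun g hg => ?_) fun g hg => mem_centralizer_singleton_iff.2 ?_
    · have hg' : ∀ u : P, u ∈ zpowers r → g * u * g⁻¹ = u := by
        rintro _ ⟨n, rfl⟩
        have hc : Commute g r := mem_centralizer_singleton_iff.1 hg
        rw [(hc.zpow_right n).eq, mul_inv_cancel_right]
      rw [hMdef, ← hzR, mem_normalizer_iff]
      exact fun u => ⟨fun hu => (hg' u hu).symm ▸ hu, fun hu => by
        have h1 : g * u * g⁻¹ = u := (MulAut.conj g).injective (hg' _ hu)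
        exact h1 ▸ hu⟩
    · exact congrArg Subtype.val
        ((IsPGroup.isMulCommutative_of_card_eq_prime_sq hM9).is_comm.comm ⟨g, hg⟩ ⟨r, hRM.le hrR⟩)
  refine ⟨r, hxo, hrR, by rw [hCM, hM9]; rfl, ?_⟩
  obtain ⟨m, hm, hmR⟩ := SetLike.exists_of_lt hRM
  exact ⟨m, hCM.symm ▸ hm, hmR⟩

/-- Two orbits of size three with nontrivial stabilisers. -/
theorem exists_small_of_two (hfix : FixAtMostFour P Ω) (hP : IsPGroup 3 P) (b c : Ω)
    (hbn : (stabilizer P b).Normal) (hcn : (stabilizer P c).Normal) (hb : stabilizer P b ≠ ⊥)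
    (hc : stabilizer P c ≠ ⊥) (hb' : stabilizer P b ≠ ⊤) (hc' : stabilizer P c ≠ ⊤)
    (hbc : c ∉ orbit P b) :
    ∃ x : P, orderOf x = 3 ∧ x • b = b ∧ Nat.card (centralizer ({x} : Set P)) = 9 ∧
      ∃ m ∈ centralizer ({x} : Set P), m • b ≠ b := by
  have : Fact (Nat.Prime 3) := ⟨Nat.prime_three⟩
  have key : ∀ a : Ω, (stabilizer P a).Normal → stabilizer P a ≠ ⊥ → stabilizer P a ≠ ⊤ →
      (stabilizer P a).index = 3 ∧ ∀ r ∈ stabilizer P a, ∀ d ∈ orbit P a, r • d = d := by
    intro a hn hne hnt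
    have hall : ∀ r ∈ stabilizer P a, ∀ d ∈ orbit P a, r • d = d := by
      rintro r hr d ⟨g, rfl⟩
      show r • g • a = g • a
      have h1 : g⁻¹ * r * g ∈ stabilizer P a := by simpa using hn.conj_mem r hr g⁻¹
      calc r • g • a = g • (g⁻¹ * r * g) • a := by rw [← mul_smul, ← mul_smul]; congr 1; group
        _ = g • a := by rw [mem_stabilizer_iff.1 h1]
    refine ⟨?_, hall⟩
    obtain ⟨r, hr, hr1⟩ := (stabilizer P a).bot_or_exists_ne_one.resolve_left hne
    have h1 : (orbit P a).ncard ≤ 4 := ncard_orbit_le hfix hr1 fun d hd => hall r hr d hd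
    rw [← index_stabilizer P a] at h1
    obtain ⟨k, hk⟩ := hP.index (stabilizer P a)
    have h2 : (stabilizer P a).index ≠ 1 := fun e => hnt (index_eq_one.1 e)
    rw [hk] at h1 h2 ⊢
    rcases k with _ | _ | k
    · simp at h2
    · rfl
    · exfalso
      have : 3 ^ 2 ≤ 3 ^ (k + 1 + 1) := Nat.pow_le_pow_right (by omega) (by omega)
      omega
  obtain ⟨ib, hallb⟩ := key b hbn hb hb'
  obtain ⟨ic, hallc⟩ := key c hcn hc hc'
  have hdis : Disjoint (orbit P b) (orbit P c) := by
    rw [Set.disjoint_iff]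
    rintro d ⟨h1, h2⟩
    exact hbc ((orbit_eq_iff.2 h1).symm.trans (orbit_eq_iff.2 h2) ▸ mem_orbit_self c)
  have hb3 : Nat.card (stabilizer P b) = 3 := by
    refine card_eq_three_of_two_orbits hfix hP (stabilizer P c) (stabilizer P b) ⊤
      (orbit P b ∪ orbit P c) ?_ hb le_top ?_ ?_
    · rw [Set.ncard_union_eq hdis (Set.toFinite _) (Set.toFinite _), ← index_stabilizer,
        ← index_stabilizer, ib, ic]
      omega
    · rw [relIndex_top_right, ic]
    · rintro t ⟨ht, ht'⟩ d (hd | hd)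
      · exact hallb t ht' d hd
      · exact hallc t ht d hd
  have hP9 : Nat.card P = 3 ^ 2 := by
    rw [← (stabilizer P b).card_mul_index, hb3, ib]; rfl
  obtain ⟨x, hx, hx1⟩ := (stabilizer P b).bot_or_exists_ne_one.resolve_left hb
  obtain ⟨m, -, hm⟩ := SetLike.exists_of_lt (lt_top_iff_ne_top.2 hb')
  have hC : centralizer ({x} : Set P) = ⊤ := eq_top_iff.2 fun g _ =>
    mem_centralizer_singleton_iff.2 ((IsPGroup.isMulCommutative_of_card_eq_prime_sq hP9).is_comm.comm g x)
  refine ⟨x, ?_, hx, by rw [hC, card_top, hP9]; rfl, m, hC.symm ▸ mem_top m, hm⟩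
  rcases (Nat.dvd_prime Nat.prime_three).1 (hb3 ▸ (stabilizer P b).orderOf_dvd_natCard hx)
    with h | h
  · exact absurd (orderOf_eq_one_iff.1 h) hx1
  · exact h

end Cfsg.Agent.Fix4
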