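import Mathlib
import Cfsg.Agent.S2807
import Cfsg.Agent.PGroup.Frattini
import Cfsg.Agent.Fix4.NoQuotient

/-!
# The 3-part: transfer forces the wreath product (S3365)
-/

set_option autoImplicit false
set_option linter.style.haveILetI false

namespace Cfsg.Agent.Fix4

/-- A homomorphism of a Sylow subgroup into an abelian group, invariant under the normalizer and
non-trivial, shows that the Sylow subgroup is not contained in the derived normalizer. -/
theorem inf_commutator_ne_of_invariant {G : Type*} [Group G] [Finite G] {q : ℕ} [Fact q.Prime]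
    (P : Sylow q G) {V : Type*} [CommGroup V] (σ : ↥(P : Subgroup G) →* V) (hne : σ ≠ 1)
    (hinv : ∀ (n : ↥(Subgroup.normalizer ((P : Subgroup G) : Set G))) (p : ↥(P : Subgroup G)),
      σ ((P : Subgroup G).normalizerMonoidHom n p) = σ p) :
    (P : Subgroup G) ⊓ ⁅Subgroup.normalizer ((P : Subgroup G) : Set G),
      Subgroup.normalizer ((P : Subgroup G) : Set G)⁆ ≠ (P : Subgroup G) := by
  intro heq
  set N := Subgroup.normalizer ((P : Subgroup G) : Set G) with hN
  have hle : (P : Subgroup G) ≤ N := Subgroup.le_normalizer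
  haveI : ((P : Subgroup G).subgroupOf N).Normal := Subgroup.normal_in_normalizer
  have hco := (P.subtype hle).card_coprime_index
  rw [Sylow.coe_subtype] at hco
  obtain ⟨K, hK⟩ := Subgroup.exists_right_complement'_of_coprime hco
  let e := Subgroup.subgroupOfEquivOfLe hle
  let fn : ↥((P : Subgroup G).subgroupOf N) →* V := σ.comp e.toMonoidHom
  let φ : ↥K →* MulAut ↥((P : Subgroup G).subgroupOf N) :=
    ((P : Subgroup G).subgroupOf N).normalizerMonoidHom.comp
      (Subgroup.inclusion ((Subgroup.normalizer_eq_top (H := (P : Subgroup G).subgroupOf N)) ▸ le_top))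
  have hcompat : ∀ k : ↥K, fn.comp (φ k).toMonoidHom =
      (MulAut.conj ((1 : ↥K →* V) k)).toMonoidHom.comp fn := fun k => by
    ext p
    show σ (e _) = 1 * σ (e p) * 1⁻¹
    rw [one_mul, inv_one, mul_one, ← hinv (k : ↥N) (e p)]
    rfl
  let L := SemidirectProduct.lift fn (1 : ↥K →* V) hcompat
  let F : ↥N →* V := L.comp (SemidirectProduct.mulEquivSubgroup hK).symm.toMonoidHom
  have hF : ∀ p : ↥((P : Subgroup G).subgroupOf N), F p = fn p := by
    intro p
    have h1 : (SemidirectProduct.mulEquivSubgroup hK).symm (p : ↥N) =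
        SemidirectProduct.inl p := by
      rw [MulEquiv.symm_apply_eq]
      simp [SemidirectProduct.mulEquivSubgroup_apply]
    show L ((SemidirectProduct.mulEquivSubgroup hK).symm (p : ↥N)) = _
    rw [h1]
    exact SemidirectProduct.lift_inl _ _ _ p
  refine hne (MonoidHom.ext fun p => ?_)
  have hp : (p : G) ∈ ⁅N, N⁆ := ((inf_eq_left.1 heq) p.2)
  have hp2 : (⟨p, hle p.2⟩ : ↥N) ∈ commutator ↥N := by
    have h2 : ⁅N, N⁆ = (commutator ↥N).map N.subtype := by
      rw [commutator_def, Subgroup.map_commutator, ← MonoidHom.range_eq_map, N.range_subtype]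
    rw [h2] at hp
    obtain ⟨y, hy, hyp⟩ := hp
    rwa [show (⟨p, hle p.2⟩ : ↥N) = y from Subtype.ext hyp.symm]
  have h3 : F ⟨p, hle p.2⟩ = 1 := Abelianization.commutator_subset_ker F hp2
  exact (hF ⟨⟨p, hle p.2⟩, p.2⟩).symm.trans h3

/-- A non-cyclic 3-group has abelianization of order at least nine. -/
theorem nine_le_card_abelianization {P : Type*} [Group P] [Finite P] (hP : IsPGroup 3 P)
    (h9 : 9 ≤ Nat.card P) : 9 ≤ Nat.card (Abelianization P) := by
  haveI := Fact.mk (by norm_num : Nat.Prime 3)
  by_contra hlt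
  obtain ⟨k, hk⟩ := (hP.of_surjective Abelianization.of
    (QuotientGroup.mk'_surjective _)).exists_card_eq
  have hk1 : k ≤ 1 := by
    by_contra h
    exact hlt (hk ▸ Nat.pow_le_pow_right (by norm_num : 3 > 0) (by omega : 2 ≤ k))
  haveI : IsCyclic (Abelianization P) := by
    rcases Nat.le_one_iff_eq_zero_or_eq_one.1 hk1 with rfl | rfl
    · haveI : Subsingleton (Abelianization P) := (Nat.card_eq_one_iff_unique.1 hk).1
      infer_instance
    · exact isCyclic_of_prime_card (p := 3) (by simpa using hk)
  obtain ⟨v, hv⟩ := IsCyclic.exists_generator (α := Abelianization P)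
  obtain ⟨y, rfl⟩ := QuotientGroup.mk'_surjective _ v
  have htop : Subgroup.zpowers y ⊔ frattini P = ⊤ := by
    refine eq_top_iff.2 fun z _ => ?_
    obtain ⟨j, hj⟩ := Subgroup.mem_zpowers_iff.1 (hv (Abelianization.of z))
    have h1 : (y ^ j)⁻¹ * z ∈ commutator P := by
      rw [← Abelianization.ker_of, MonoidHom.mem_ker, map_mul, map_inv, map_zpow, inv_mul_eq_one]
      exact hj
    have h2 := Subgroup.mul_mem_sup (Subgroup.zpow_mem _ (Subgroup.mem_zpowers y) j)
      (PGroup.commutator_le_frattini hP h1)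
    rwa [mul_inv_cancel_left] at h2
  have hy : Subgroup.zpowers y = ⊤ := frattini_nongenerating htop
  haveI : IsCyclic P :=
    ⟨⟨y, fun z => (by rw [hy]; trivial : z ∈ Subgroup.zpowers y)⟩⟩
  letI : CommGroup P := IsCyclic.commGroup
  exact hlt (h9.trans_eq (Nat.card_congr Abelianization.equivOfComm.toEquiv))

/-- In a finite abelian 3-group of order nine, a group of automorphisms of order prime to three is
a 2-group. -/
theorem isPGroup_two_of_coprime {V : Type*} [CommGroup V] [Finite V] (hV : Nat.card V = 9)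
    (A : Subgroup (MulAut V)) (hA : ¬ 3 ∣ Nat.card A) : IsPGroup 2 A := by
  have h : ∀ q, q.Prime → q ∣ Nat.card A → q = 2 := by
    intro q hq hdvd
    haveI := Fact.mk hq
    obtain ⟨a, ha⟩ := exists_prime_orderOf_dvd_card' q hdvd
    by_contra hq2
    have hq3 : q ≠ 3 := fun h => hA (h ▸ hdvd)
    have hqg : IsPGroup q ↥(Subgroup.zpowers a) :=
      IsPGroup.of_card (n := 1) (by rw [Nat.card_zpowers, ha, pow_one])
    have hmod := hqg.card_modEq_card_fixedPoints (α := V)
    let F : Subgroup V :=
      { carrier := MulAction.fixedPoints ↥(Subgroup.zpowers a) V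
        one_mem' := fun b => map_one ((b : A) : MulAut V)
        mul_mem' := fun {u v} hu hv b => by
          show ((b : A) : MulAut V) (u * v) = u * v
          rw [map_mul]
          exact congrArg₂ (· * ·) (hu b) (hv b)
        inv_mem' := fun {u} hu b => by
          show ((b : A) : MulAut V) u⁻¹ = u⁻¹
          rw [map_inv]
          exact congrArg _ (hu b) }
    have hFd : Nat.card F ∣ 3 ^ 2 := by
      have := F.card_subgroup_dvd_card
      rw [hV] at this
      exact this
    have hFne : Nat.card F ≠ Nat.card V := by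
      intro h
      have hF : F = ⊤ := Subgroup.eq_top_of_card_eq F h
      have h1 : a = 1 := by
        refine Subtype.ext (MulEquiv.ext fun v => ?_)
        have hv : v ∈ F := hF ▸ Subgroup.mem_top v
        exact hv ⟨a, Subgroup.mem_zpowers a⟩
      rw [h1, orderOf_one] at ha
      exact hq.ne_one ha.symm
    rw [hV] at hFne hmod
    change 9 ≡ Nat.card F [MOD q] at hmod
    have h5 : 5 ≤ q := by
      have := hq.two_le
      have : q ≠ 4 := by rintro rfl; norm_num at hq
      omega
    obtain ⟨i, hi, hFi⟩ := (Nat.dvd_prime_pow (by norm_num)).1 hFd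
    have hle : Nat.card F ≤ 3 := by
      interval_cases i
      · simp [hFi]
      · simp [hFi]
      · exact absurd hFi (by simpa using hFne)
    have hd : q ∣ 9 - Nat.card F := (Nat.modEq_iff_dvd' (by omega)).1 hmod.symm
    have hd' : q ∣ 2 ^ 3 ∨ q ∣ 2 * 3 := by
      interval_cases i
      · left; simpa [hFi] using hd
      · right; simpa [hFi] using hd
      · exact absurd hFi (by simpa using hFne)
    have h2 := (Nat.prime_dvd_prime_iff_eq hq Nat.prime_two)
    have h3 := (Nat.prime_dvd_prime_iff_eq hq Nat.prime_three)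
    rcases hd' with hd' | hd'
    · exact hq2 (h2.1 (hq.dvd_of_dvd_pow hd'))
    · rcases hq.dvd_mul.1 hd' with hd' | hd'
      · exact hq2 (h2.1 hd')
      · exact hq3 (h3.1 hd')
  refine IsPGroup.of_card (n := (Nat.card A).primeFactorsList.length) ?_
  exact Nat.eq_prime_pow_of_unique_prime_dvd Nat.card_pos.ne' fun {d} hd hdvd => h d hd hdvd

/-- A 2-group of automorphisms of an abelian group of order nine in which only the identity maps
`v` to `v` or its inverse fixes a non-trivial homomorphism. -/
theorem exists_invariant {V : Type*} [CommGroup V] [Finite V] (hV : Nat.card V = 9)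
    (A : Subgroup (MulAut V)) (hA : IsPGroup 2 A) (v : V)
    (hfree : ∀ a ∈ A, a v = v ∨ a v = v⁻¹ → a = 1) :
    ∃ σ : V →* V, σ ≠ 1 ∧ ∀ a ∈ A, ∀ u, σ (a u) = σ u := by
  classical
  haveI := Fintype.ofFinite V
  haveI := Fintype.ofFinite A
  have hodd : ∀ u : V, u * u = 1 → u = 1 := by
    intro u hu
    have h1 : u ^ 9 = 1 := hV ▸ pow_card_eq_one'
    have h2 : u ^ 2 = 1 := by rwa [sq]
    calc u = u ^ 9 * ((u ^ 2) ^ 4)⁻¹ := by group
      _ = 1 := by rw [h1, h2]; group
  by_cases htriv : ∀ a ∈ A, a = 1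
  · refine ⟨MonoidHom.id V, ?_, fun a ha u => by rw [htriv a ha]; rfl⟩
    intro h
    have : ∀ u : V, u = 1 := fun u => DFunLike.congr_fun h u
    haveI : Subsingleton V := ⟨fun a b => (this a).trans (this b).symm⟩
    rw [Nat.card_of_subsingleton (1 : V)] at hV
    omega
  push Not at htriv
  obtain ⟨a₀, ha₀, ha₀1⟩ := htriv
  haveI := Fact.mk Nat.prime_two
  obtain ⟨k, hk⟩ := hA.exists_card_eq
  have hk0 : k ≠ 0 := by
    rintro rfl
    haveI : Subsingleton A := (Nat.card_eq_one_iff_unique.1 (by simpa using hk)).1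
    exact ha₀1 (congrArg Subtype.val (Subsingleton.elim (⟨a₀, ha₀⟩ : A) 1))
  obtain ⟨w, hw⟩ := exists_prime_orderOf_dvd_card' (G := A) 2 (hk ▸ dvd_pow_self 2 hk0)
  have hw1 : (w : MulAut V) ≠ 1 := fun h => by
    rw [show w = 1 from Subtype.ext h, orderOf_one] at hw
    omega
  have hww : ∀ u, (w : MulAut V) ((w : MulAut V) u) = u := fun u => by
    have h : w * w = 1 := by rw [← sq, ← hw, pow_orderOf_eq_one]
    exact DFunLike.congr_fun (congrArg Subtype.val h) u
  set s := v * (w : MulAut V) v with hs
  have hws : (w : MulAut V) s = s := by rw [hs, map_mul, hww, mul_comm]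
  have hv1 : v ≠ 1 := fun h => hw1 (hfree _ w.2 (Or.inl (by rw [h, map_one])))
  have hs1 : s ≠ 1 := fun h => hw1 (hfree _ w.2 (Or.inr (eq_inv_of_mul_eq_one_right h)))
  let orb : A × Bool → V := fun p => (p.1 : MulAut V) (if p.2 then v else v⁻¹)
  have key : ∀ a b : A, ((a : MulAut V) v = (b : MulAut V) v ∨
      (a : MulAut V) v = (b : MulAut V) v⁻¹) → a = b := by
    intro a b h
    have h1 : ((b⁻¹ * a : A) : MulAut V) = 1 := by
      refine hfree _ (b⁻¹ * a).2 ?_
      show (b : MulAut V).symm ((a : MulAut V) v) = v ∨ (b : MulAut V).symm ((a : MulAut V) v) = v⁻¹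
      rcases h with h | h
      · exact Or.inl (by rw [h, MulEquiv.symm_apply_apply])
      · exact Or.inr (by rw [h, MulEquiv.symm_apply_apply])
    exact (inv_mul_eq_one.1 (Subtype.ext h1)).symm
  have hinj : Function.Injective orb := by
    rintro ⟨a, ε⟩ ⟨b, δ⟩ h
    have hab : a = b := by
      cases ε <;> cases δ <;> simp only [orb, map_inv, Bool.false_eq_true, if_true, if_false] at h
      · exact key a b (Or.inl (inv_injective h))
      · exact key a b (Or.inr (by rw [map_inv, ← h, inv_inv]))
      · exact key a b (Or.inr (by rw [map_inv, h]))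
      · exact key a b (Or.inl h)
    subst hab
    have h2 := (a : MulAut V).injective h
    cases ε <;> cases δ <;> simp only [Bool.false_eq_true, if_true, if_false] at h2
    · rfl
    · exact absurd (hodd v (by nth_rewrite 1 [← h2]; exact inv_mul_cancel v)) hv1
    · exact absurd (hodd v (by nth_rewrite 1 [h2]; exact inv_mul_cancel v)) hv1
    · rfl
  have hne : ∀ p, orb p ≠ 1 ∧ orb p ≠ s := by
    intro p
    refine ⟨fun h => ?_, fun h => ?_⟩
    · have h2 : (if p.2 then v else v⁻¹) = 1 := (MulEquiv.map_eq_one_iff _).1 h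
      cases hp : p.2 <;> simp [hp] at h2 <;> exact hv1 h2
    · -- `w` would fix `v`
      have h3 : ((p.1⁻¹ * w * p.1 : A) : MulAut V) (if p.2 then v else v⁻¹) =
          (if p.2 then v else v⁻¹) := by
        show (p.1 : MulAut V).symm ((w : MulAut V) (orb p)) = _
        rw [h, hws, ← h]
        exact MulEquiv.symm_apply_apply _ _
      have h4 : ((p.1⁻¹ * w * p.1 : A) : MulAut V) = 1 := by
        refine hfree _ (p.1⁻¹ * w * p.1).2 (Or.inl ?_)
        cases hp : p.2 <;> simp only [hp, Bool.false_eq_true, if_true, if_false] at h3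
        · simpa using h3
        · exact h3
      have h5 : p.1⁻¹ * w * p.1 = 1 := Subtype.ext h4
      refine hw1 (congrArg Subtype.val (?_ : w = 1))
      calc w = p.1 * (p.1⁻¹ * w * p.1) * p.1⁻¹ := by group
        _ = 1 := by rw [h5]; group
  have hcard : Nat.card A * 2 + 2 ≤ 9 := by
    have hsub : Finset.univ.image orb ⊆ (Finset.univ.erase 1).erase s := by
      intro y hy
      obtain ⟨p, -, rfl⟩ := Finset.mem_image.1 hy
      simp [hne p]
    have := Finset.card_le_card hsub
    rw [Finset.card_image_of_injective _ hinj, Finset.card_erase_of_mem (by simp [hs1]),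
      Finset.card_erase_of_mem (by simp), Finset.card_univ, Finset.card_univ, Fintype.card_prod,
      Fintype.card_bool, ← Nat.card_eq_fintype_card, ← Nat.card_eq_fintype_card, hV] at this
    omega
  have hA2 : Nat.card A = 2 := by
    rcases k with - | - | k
    · exact absurd rfl hk0
    · simpa using hk
    · have : 2 ^ 2 ≤ 2 ^ (k + 1 + 1) := Nat.pow_le_pow_right (by norm_num) (by omega)
      omega
  refine ⟨MonoidHom.id V * (w : MulAut V).toMonoidHom, fun h => hs1 (DFunLike.congr_fun h v),
    fun a ha u => ?_⟩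
  obtain rfl | rfl : a = 1 ∨ a = (w : MulAut V) := by
    by_contra! hh
    have hsub : ({1, w, ⟨a, ha⟩} : Finset A).card ≤ 2 := by
      rw [← hA2, Nat.card_eq_fintype_card]
      exact Finset.card_le_univ _
    rw [Finset.card_eq_three.2 ⟨1, w, ⟨a, ha⟩, fun h => hw1 (congrArg Subtype.val h).symm,
      fun h => hh.1 (congrArg Subtype.val h).symm, fun h => hh.2 (congrArg Subtype.val h).symm,
      rfl⟩] at hsub
    omega
  · rfl
  · show (w : MulAut V) u * (w : MulAut V) ((w : MulAut V) u) = u * (w : MulAut V) u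
    rw [hww, mul_comm]

/-- The class of an element with centralizer of order nine is its coset of the derived group. -/
theorem conj_of_abelianization_eq {P : Type*} [Group P] [Finite P]
    (hP : IsPGroup 3 P) (x : P) (hC : Nat.card ↥(Subgroup.centralizer ({x} : Set P)) = 9) :
    Nat.card (Abelianization P) = 9 ∧
      ∀ y : P, Abelianization.of y = Abelianization.of x → ∃ g : P, y = g * x * g⁻¹ := by
  classical
  set O := MulAction.orbit (ConjAct P) x with hO
  set T : Set P := {y | Abelianization.of y = Abelianization.of x} with hT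
  have hOT : O ⊆ T := by
    rintro _ ⟨g, rfl⟩
    show Abelianization.of (g • x) = _
    rw [ConjAct.smul_def, map_mul, map_mul, map_inv, mul_comm, inv_mul_cancel_left]
  have hT' : T.ncard = Nat.card (commutator P) := by
    rw [show T = (fun c => x * c) '' (commutator P : Set P) from ?_,
      Set.ncard_image_of_injective _ (mul_right_injective x), ← Nat.card_coe_set_eq]
    · rfl
    ext y
    constructor
    · intro hy
      refine ⟨x⁻¹ * y, ?_, mul_inv_cancel_left x y⟩
      rw [SetLike.mem_coe, ← Abelianization.ker_of, MonoidHom.mem_ker, map_mul, map_inv,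
        inv_mul_eq_one]
      exact hy.symm
    · rintro ⟨c, hc, rfl⟩
      show Abelianization.of (x * c) = _
      rw [SetLike.mem_coe, ← Abelianization.ker_of, MonoidHom.mem_ker] at hc
      rw [map_mul, hc, mul_one]
  have hst : Nat.card ↥(MulAction.stabilizer (ConjAct P) x) = 9 := by
    rw [← hC, Subgroup.centralizer_eq_comap_stabilizer]
    exact (Nat.card_congr (ConjAct.toConjAct.toEquiv.subtypeEquiv fun g => Iff.rfl)).symm
  have horb : O.ncard * 9 = Nat.card P := by
    rw [← hst, hO, ← MulAction.index_stabilizer, mul_comm, Subgroup.card_mul_index]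
    exact Nat.card_congr ConjAct.ofConjAct.toEquiv
  have hab : Nat.card (Abelianization P) * Nat.card (commutator P) = Nat.card P :=
    ((commutator P).card_eq_card_quotient_mul_card_subgroup).symm
  have h9P : 9 ≤ Nat.card P := hC ▸ Subgroup.card_le_card_group _
  have h9 := nine_le_card_abelianization hP h9P
  have hle : O.ncard ≤ T.ncard := Set.ncard_le_ncard hOT (Set.toFinite _)
  have hpos : 0 < Nat.card (commutator P) := Nat.card_pos
  have heq : O = T := by
    refine Set.eq_of_subset_of_ncard_le hOT ?_ (Set.toFinite _)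
    rw [hT']
    nlinarith
  refine ⟨?_, fun y hy => ?_⟩
  · have : O.ncard = Nat.card (commutator P) := heq ▸ hT'
    rw [this] at horb
    nlinarith
  · have hyO : y ∈ O := heq ▸ hy
    obtain ⟨g, rfl⟩ := hyO
    exact ⟨ConjAct.ofConjAct g, ConjAct.smul_def g x⟩

/-- A simple group whose Sylow 3-subgroup has an element `x` with centraliser of order 9 such
that no nontrivial 2-element normalising it maps `x` to a conjugate of `x` or its inverse. -/
theorem sylow_wreath {G : Type*} [Group G] [Finite G] [IsSimpleGroup G]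
    (hna : ¬ IsMulCommutative G) (P : Sylow 3 G) (x : G) (hxP : x ∈ (P : Subgroup G))
    (hx : orderOf x = 3)
    (hC : Nat.card ↥((P : Subgroup G) ⊓ Subgroup.centralizer ({x} : Set G)) = 9)
    (hlock : ∀ h ∈ Subgroup.normalizer ((P : Subgroup G) : Set G),
      (∃ k : ℕ, orderOf h = 2 ^ k) →
      (∃ p ∈ (P : Subgroup G), h * x * h⁻¹ = p * x * p⁻¹ ∨ h * x * h⁻¹ = p * x⁻¹ * p⁻¹) →
      h = 1) :
    ∃ T : Sylow 3 (Equiv.Perm (Fin 9)),
      Nonempty ((P : Subgroup G) ≃* (T : Subgroup (Equiv.Perm (Fin 9)))) := by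
  classical
  haveI := Fact.mk (by norm_num : Nat.Prime 3)
  set x' : ↥(P : Subgroup G) := ⟨x, hxP⟩ with hx'
  have hC' : Nat.card ↥(Subgroup.centralizer ({x'} : Set ↥(P : Subgroup G))) = 9 := by
    refine (Subgroup.card_map_of_injective (f := (P : Subgroup G).subtype)
      (P : Subgroup G).subtype_injective).symm.trans ?_
    rw [← hC]
    refine congrArg (fun H : Subgroup G => Nat.card H) ?_
    ext g
    simp only [Subgroup.mem_map, Subgroup.mem_inf, Subgroup.mem_centralizer_singleton_iff]
    constructor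
    · rintro ⟨y, hy, rfl⟩
      exact ⟨y.2, congrArg Subtype.val hy⟩
    · rintro ⟨hg, hgx⟩
      exact ⟨⟨g, hg⟩, Subtype.ext hgx, rfl⟩
  obtain ⟨hV, hcoset⟩ := conj_of_abelianization_eq P.2 x' hC'
  set N := Subgroup.normalizer ((P : Subgroup G) : Set G) with hN
  let toAb : MulAut ↥(P : Subgroup G) →* MulAut (Abelianization ↥(P : Subgroup G)) :=
    { toFun := fun e => MulEquiv.abelianizationCongr e
      map_one' := MulEquiv.ext fun u => by
        obtain ⟨y, rfl⟩ := QuotientGroup.mk'_surjective _ u
        rfl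
      map_mul' := fun e e' => MulEquiv.ext fun u => by
        obtain ⟨y, rfl⟩ := QuotientGroup.mk'_surjective _ u
        rfl }
  let act : ↥N →* MulAut (Abelianization ↥(P : Subgroup G)) :=
    toAb.comp (P : Subgroup G).normalizerMonoidHom
  have hle : (P : Subgroup G) ≤ N := Subgroup.le_normalizer
  have hker : (P : Subgroup G).subgroupOf N ≤ act.ker := by
    intro n hn
    refine MonoidHom.mem_ker.2 (MulEquiv.ext fun u => ?_)
    obtain ⟨y, rfl⟩ := QuotientGroup.mk'_surjective _ u
    show Abelianization.of ((P : Subgroup G).normalizerMonoidHom n y) = Abelianization.of y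
    rw [show (P : Subgroup G).normalizerMonoidHom n y =
      (⟨n, hn⟩ : ↥(P : Subgroup G)) * y * (⟨n, hn⟩ : ↥(P : Subgroup G))⁻¹ from Subtype.ext rfl,
      map_mul, map_mul, map_inv, mul_comm, inv_mul_cancel_left]
  have hA3 : ¬ 3 ∣ Nat.card act.range := by
    intro h
    have h1 := (P.subtype hle).not_dvd_index
    rw [Sylow.coe_subtype] at h1
    refine h1 (h.trans ?_)
    rw [← Subgroup.index_ker]
    exact Subgroup.index_dvd_of_le hker
  have hA := isPGroup_two_of_coprime hV act.range hA3
  have hfree : ∀ a ∈ act.range, a (Abelianization.of x') = Abelianization.of x' ∨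
      a (Abelianization.of x') = (Abelianization.of x')⁻¹ → a = 1 := by
    rintro _ ⟨n, rfl⟩ hor
    obtain ⟨k, hk⟩ := hA ⟨act n, n, rfl⟩
    have hk' : act n ^ 2 ^ k = 1 := congrArg Subtype.val hk
    obtain ⟨j, m, hm, hord⟩ := Nat.exists_eq_pow_mul_and_not_dvd (orderOf_pos n).ne' 2 (by norm_num)
    set e := m ^ Nat.totient (2 ^ k) with he
    have hem : e ≡ 1 [MOD 2 ^ k] :=
      Nat.ModEq.pow_totient (((Nat.prime_two.coprime_iff_not_dvd.2 hm).pow_left k).symm)
    have hact : act (n ^ e) = act n := by
      rw [map_pow, ← pow_one (act n), ← pow_mul, one_mul]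
      exact pow_eq_pow_iff_modEq.2 (hem.of_dvd (orderOf_dvd_of_pow_eq_one hk'))
    have h2 : ∃ i : ℕ, orderOf ((n ^ e : ↥N) : G) = 2 ^ i := by
      rw [Subgroup.orderOf_coe]
      have hd : orderOf (n ^ e) ∣ 2 ^ j := by
        refine orderOf_dvd_of_pow_eq_one ?_
        rw [← pow_mul]
        refine orderOf_dvd_iff_pow_eq_one.1 ?_
        rw [hord, mul_comm e]
        exact Nat.mul_dvd_mul_left _ (dvd_pow_self m (Nat.totient_pos.2 (by positivity)).ne')
      obtain ⟨i, -, hi⟩ := (Nat.dvd_prime_pow Nat.prime_two).1 hd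
      exact ⟨i, hi⟩
    rw [← hact] at hor ⊢
    set h := n ^ e
    set y : ↥(P : Subgroup G) := (P : Subgroup G).normalizerMonoidHom h x' with hy
    have h1 : (h : ↥N) = 1 := by
      refine Subtype.ext (hlock h h.2 h2 ?_)
      rcases hor with hor | hor
      · obtain ⟨g, hg⟩ := hcoset y hor
        exact ⟨g, g.2, Or.inl (congrArg Subtype.val hg)⟩
      · obtain ⟨g, hg⟩ := hcoset y⁻¹ (by
          rw [map_inv]
          exact inv_eq_iff_eq_inv.2 hor)
        refine ⟨g, g.2, Or.inr ?_⟩
        have h3 : ((h : G) * x * (h : G)⁻¹)⁻¹ = (g : G) * x * (g : G)⁻¹ := congrArg Subtype.val hg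
        rw [← inv_inv ((h : G) * x * (h : G)⁻¹), h3]
        group
    rw [h1, map_one]
  obtain ⟨σ, hσ, hσinv⟩ := exists_invariant hV act.range hA (Abelianization.of x') hfree
  have hne : (P : Subgroup G) ⊓ ⁅N, N⁆ ≠ (P : Subgroup G) := by
    refine inf_commutator_ne_of_invariant P (σ.comp Abelianization.of) ?_ fun n p => ?_
    · intro h
      refine hσ (MonoidHom.ext fun u => ?_)
      obtain ⟨y, rfl⟩ := QuotientGroup.mk'_surjective _ u
      exact DFunLike.congr_fun h y
    · exact hσinv (act n) ⟨n, rfl⟩ (Abelianization.of p)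
  have hcomm : commutator G = ⊤ := by
    rcases (inferInstance : (commutator G).Normal).eq_bot_or_eq_top with h | h
    · refine absurd ?_ hna
      exact ⟨⟨fun a b => Subgroup.mem_center_iff.1
        (((commutator_eq_bot_iff_center_eq_top G).1 h) ▸ Subgroup.mem_top b) a⟩⟩
    · exact h
  obtain ⟨T, f, hf⟩ := Cfsg.Agent.S2807.result P (by rw [hcomm, inf_top_eq]; exact hne.symm)
  refine ⟨T, ⟨MulEquiv.ofBijective f ?_⟩⟩
  have hT : Nat.card ↥(T : Subgroup (Equiv.Perm (Fin (3 ^ 2)))) = 81 := by
    rw [T.card_eq_multiplicity, Nat.card_perm, Nat.card_eq_fintype_card, Fintype.card_fin,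
      show Nat.factorial (3 ^ 2) = 3 ^ 4 * 4480 from by decide,
      Nat.factorization_mul (by norm_num) (by norm_num), Finsupp.add_apply,
      Nat.Prime.factorization_pow (by norm_num), Finsupp.single_eq_same,
      Nat.factorization_eq_zero_of_not_dvd (by norm_num : ¬ 3 ∣ 4480)]
    norm_num
  have hle81 : Nat.card ↥(P : Subgroup G) ≤ 81 :=
    card_le_of_wreath_quotient P.2 x' (by rw [hx', Subgroup.orderOf_mk, hx]) hC' T f hf
  rw [Nat.bijective_iff_surjective_and_card]
  exact ⟨hf, le_antisymm (hT.symm ▸ hle81) (Nat.card_le_card_of_surjective f hf)⟩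

end Cfsg.Agent.Fix4
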