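import Cfsg.Agent.Fix4.Basic
import Cfsg.Agent.Fix4.ThreeAlt
import Cfsg.Agent.Fix4.ThreeGroup
import Cfsg.Agent.Fix4.NoQuotient
import Cfsg.Agent.Fix4.Wreath
import Cfsg.Agent.S2807

/-!
# Odd stabilisers of order divisible by three (S3365)
-/

set_option autoImplicit false
set_option linter.unusedSectionVars false

namespace Cfsg.Agent.Fix4

open MulAction Subgroup
open scoped Pointwise commutatorElement

variable {G Ω : Type*} [Group G] [Finite G] [MulAction G Ω] [Finite Ω]

/-- A two-element fixing a point with stabiliser of odd order is trivial. -/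
theorem eq_one_of_two_power (hodd : ∀ b : Ω, Odd (Nat.card (stabilizer G b))) {h : G} {b : Ω}
    (hb : h • b = b) {k : ℕ} (hk : h ^ 2 ^ k = 1) : h = 1 := by
  rw [← orderOf_eq_one_iff]
  exact Nat.eq_one_of_dvd_coprimes ((Nat.coprime_two_left.2 (hodd b)).pow_left k)
    (orderOf_dvd_of_pow_eq_one hk) ((stabilizer G b).orderOf_dvd_natCard hb)

/-- An odd power of every element is a two-element. -/
theorem exists_odd_pow (g : G) : ∃ m k : ℕ, Odd m ∧ (g ^ m) ^ 2 ^ k = 1 := by
  obtain ⟨k, m, hm, e⟩ := Nat.exists_eq_two_pow_mul_odd (orderOf_pos g).ne'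
  exact ⟨m, k, hm, by rw [← pow_mul, mul_comm, ← e, pow_orderOf_eq_one]⟩

/-- A two-element acting on a set with an odd number of points fixes one of them. -/
theorem exists_fixed_of_odd {h : G} {k : ℕ} (hk : h ^ 2 ^ k = 1) (s : Set Ω) (hs : Odd s.ncard)
    (hinv : ∀ c ∈ s, h • c ∈ s) : ∃ c ∈ s, h • c = c := by
  have : Fact (Nat.Prime 2) := ⟨Nat.prime_two⟩
  let σ : Equiv.Perm s :=
    Equiv.ofBijective (fun c => ⟨h • (c : Ω), hinv c c.2⟩)
      ((Finite.injective_iff_bijective).1 fun c d e =>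
        Subtype.ext (smul_left_cancel h (congrArg Subtype.val e)))
  have hpow : ∀ (i : ℕ) (c : s), ((σ ^ i) c : Ω) = h ^ i • (c : Ω) := by
    intro i
    induction i with
    | zero => intro c; simp
    | succ i ih =>
      intro c
      rw [pow_succ, Equiv.Perm.mul_apply, ih, pow_succ, mul_smul]
      rfl
  have hσ : σ ^ 2 ^ k = 1 := Equiv.ext fun c => Subtype.ext (by rw [hpow, hk, one_smul]; rfl)
  have hgp : IsPGroup 2 (zpowers σ) := by
    obtain ⟨i, -, hi⟩ := (Nat.dvd_prime_pow Nat.prime_two).1 (orderOf_dvd_of_pow_eq_one hσ)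
    exact IsPGroup.of_card (n := i) (by rw [Nat.card_zpowers, hi])
  obtain ⟨c, hc⟩ := hgp.nonempty_fixed_point_of_prime_not_dvd_card s (by
    rw [Nat.card_coe_set_eq, ← even_iff_two_dvd]
    exact Nat.not_even_iff_odd.2 hs)
  exact ⟨c, c.2, congrArg Subtype.val (hc ⟨σ, mem_zpowers σ⟩)⟩

/-- An element of order three with centraliser of order nine in `P` and a moved fixed point
forces the wreath product. -/
theorem wreath_of_point [IsSimpleGroup G] (hna : ¬ IsMulCommutative G)
    (hfix : FixAtMostFour G Ω) (hodd : ∀ b : Ω, Odd (Nat.card (stabilizer G b))) (P : Sylow 3 G)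
    {x : (P : Subgroup G)} (hx : orderOf x = 3) (b : Ω) (hb : x • b = b)
    (hC : Nat.card (centralizer ({x} : Set (P : Subgroup G))) = 9)
    (hm : ∃ m ∈ centralizer ({x} : Set (P : Subgroup G)), m • b ≠ b) :
    ∃ T : Sylow 3 (Equiv.Perm (Fin 9)),
      Nonempty ((P : Subgroup G) ≃* (T : Subgroup (Equiv.Perm (Fin 9)))) := by
  have : Fact (Nat.Prime 3) := ⟨Nat.prime_three⟩
  have hCG : (centralizer ({x} : Set (P : Subgroup G))).map (P : Subgroup G).subtype =
      (P : Subgroup G) ⊓ centralizer ({(x : G)} : Set G) := by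
    ext g
    simp only [mem_map, mem_inf, mem_centralizer_singleton_iff]
    constructor
    · rintro ⟨y, hy, rfl⟩
      exact ⟨y.2, congrArg Subtype.val hy⟩
    · rintro ⟨hg, hc⟩
      exact ⟨⟨g, hg⟩, Subtype.ext hc, rfl⟩
  have hxo : orderOf (x : G) = 3 := by rw [orderOf_coe]; exact hx
  refine sylow_wreath hna P (x : G) x.2 hxo ?_ ?_
  · rw [← hCG, card_map_of_injective (P : Subgroup G).subtype_injective, hC]
  intro h hh ⟨k, hk⟩ ⟨p, hp, hconj⟩
  -- the normaliser of `⟨x⟩` inside the normaliser of `P`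
  set N := normalizer ((P : Subgroup G) : Set G) with hN
  set X := zpowers (x : G) with hX
  set K := N ⊓ normalizer (X : Set G) with hK
  set h' := p⁻¹ * h with hh'
  have hh'N : h' ∈ N := mul_mem (inv_mem (le_normalizer hp)) hh
  have hh'K : h' ∈ K := by
    refine ⟨hh'N, ?_⟩
    have e : h' * (x : G) * h'⁻¹ = x ∨ h' * (x : G) * h'⁻¹ = (x : G)⁻¹ := by
      rcases hconj with e | e
      · left
        calc h' * (x : G) * h'⁻¹ = p⁻¹ * (h * x * h⁻¹) * p := by rw [hh']; group
          _ = x := by rw [e]; group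
      · right
        calc h' * (x : G) * h'⁻¹ = p⁻¹ * (h * x * h⁻¹) * p := by rw [hh']; group
          _ = (x : G)⁻¹ := by rw [e]; group
    have e' : X.map (MulAut.conj h').toMonoidHom = X := by
      rw [hX, MonoidHom.map_zpowers]
      change zpowers (h' * (x : G) * h'⁻¹) = zpowers (x : G)
      rcases e with e | e <;> rw [e]
      exact zpowers_inv (g := (x : G))
    refine mem_normalizer_iff.2 ?_
    intro u
    constructor
    · exact fun hu => e' ▸ ⟨u, hu, rfl⟩
    · intro hu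
      rw [← e'] at hu
      obtain ⟨v, hv, he⟩ := hu
      have : v = u := (MulAut.conj h').injective he
      exact this ▸ hv
  set s : Set Ω := {c | (x : G) • c = c ∧
    ∃ m ∈ centralizer ({x} : Set (P : Subgroup G)), m • c ≠ c} with hs
  have hinv : ∀ g ∈ K, ∀ c ∈ s, g • c ∈ s := by
    rintro g ⟨hgN, hgX⟩ c ⟨hc, m, hmC, hmc⟩
    have h1 : g⁻¹ * (x : G) * g ∈ X := (mem_normalizer_iff''.1 hgX _).1 (mem_zpowers _)
    obtain ⟨i, hi⟩ := h1
    refine ⟨?_, ⟨⟨g * m * g⁻¹, (mem_normalizer_iff.1 hgN _).1 m.2⟩, ?_, ?_⟩⟩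
    · have h2 : (x : G) ^ i • c = c := smul_eq_iff_eq_inv_smul _ |>.2 (by
        have : (x : G) ∈ stabilizer G c := hc
        exact (mem_stabilizer_iff.1 (inv_mem (zpow_mem this i))).symm)
      calc (x : G) • g • c = g • (g⁻¹ * (x : G) * g) • c := by
            rw [← mul_smul, ← mul_smul]; congr 1; group
        _ = g • c := by rw [← hi]; exact congrArg (g • ·) h2
    · rw [mem_centralizer_singleton_iff]
      apply Subtype.ext
      show g * (m : G) * g⁻¹ * x = (x : G) * (g * m * g⁻¹)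
      have hcm : Commute (m : G) ((x : G) ^ i) :=
        Commute.zpow_right (congrArg Subtype.val (mem_centralizer_singleton_iff.1 hmC)) i
      calc g * (m : G) * g⁻¹ * x = g * ((m : G) * (g⁻¹ * x * g)) * g⁻¹ := by group
        _ = g * ((g⁻¹ * x * g) * m) * g⁻¹ := by rw [← hi]; exact congrArg (g * · * g⁻¹) hcm.eq
        _ = (x : G) * (g * m * g⁻¹) := by group
    · intro e
      refine hmc (smul_left_cancel g ?_)
      calc g • (m : G) • c = (g * m * g⁻¹) • g • c := by
            rw [← mul_smul, ← mul_smul]; congr 1; group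
        _ = g • c := e
  have hs3 : Odd s.ncard := by
    have hle : s.ncard ≤ 4 := by
      by_contra hlt
      have := eq_one_of_fix hfix s (by omega) fun c hc => hc.1
      rw [this, orderOf_one] at hxo
      omega
    have hpos : 0 < s.ncard := Set.ncard_pos (Set.toFinite _) |>.2 ⟨b, hb, hm⟩
    -- `C_P(x)` permutes `s` without fixed points
    set M := centralizer ({x} : Set (P : Subgroup G)) with hMdef
    have hMinv : ∀ (m : M) (c : s), (m : (P : Subgroup G)) • (c : Ω) ∈ s := by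
      rintro ⟨m, hm'⟩ ⟨c, hc, n, hn, hnc⟩
      have hcx : (m : G) * x = (x : G) * m :=
        congrArg Subtype.val (mem_centralizer_singleton_iff.1 hm')
      refine ⟨?_, ⟨m * n * m⁻¹, mul_mem (mul_mem hm' hn) (inv_mem hm'), ?_⟩⟩
      · show (x : G) • (m : G) • c = (m : G) • c
        rw [← mul_smul, ← hcx, mul_smul, hc]
      · show (m * n * m⁻¹) • m • c ≠ m • c
        rw [← mul_smul, inv_mul_cancel_right, mul_smul]
        exact fun e => hnc (smul_left_cancel m e)
    let S : SubMulAction M Ω := { carrier := s, smul_mem' := fun m c hc => hMinv m ⟨c, hc⟩ }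
    have h3 : 3 ∣ Nat.card S := by
      have hM : IsPGroup 3 M := P.isPGroup'.to_subgroup M
      have h0 := hM.card_modEq_card_fixedPoints S
      have hz : Nat.card (fixedPoints M S) = 0 := by
        rw [Nat.card_eq_zero]
        left
        constructor
        rintro ⟨⟨c, hc, m, hm', hmc⟩, hfc⟩
        exact hmc (congrArg Subtype.val (hfc ⟨m, hm'⟩))
      rw [hz] at h0
      exact Nat.modEq_zero_iff_dvd.1 h0
    change 3 ∣ Nat.card s at h3
    rw [Nat.card_coe_set_eq] at h3
    rw [Nat.odd_iff]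
    omega
  obtain ⟨m, j, hm2, hj⟩ := exists_odd_pow h'
  obtain ⟨c, -, hc⟩ := exists_fixed_of_odd hj s hs3 (hinv _ (pow_mem hh'K m))
  have h2one : h' ^ m = 1 := eq_one_of_two_power hodd hc hj
  -- modulo `P` the element `h` equals `h'`
  let π := QuotientGroup.mk' ((P : Subgroup G).subgroupOf N)
  have hπ : π ⟨h, hh⟩ = π ⟨h', hh'N⟩ := by
    refine (QuotientGroup.mk'_eq_mk' _).2 ⟨⟨h⁻¹ * p⁻¹ * h,
      mul_mem (mul_mem (inv_mem hh) (inv_mem (le_normalizer hp))) hh⟩, ?_, ?_⟩
    · exact (mem_normalizer_iff''.1 hh _).1 (inv_mem hp)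
    · apply Subtype.ext
      show h * (h⁻¹ * p⁻¹ * h) = p⁻¹ * h
      group
  have hmem : h ^ m ∈ (P : Subgroup G) := by
    have : π (⟨h, hh⟩ ^ m) = 1 := by
      rw [map_pow, hπ, ← map_pow]
      exact (congrArg π (Subtype.ext h2one)).trans (map_one π)
    exact (QuotientGroup.eq_one_iff ((⟨h, hh⟩ : N) ^ m)).1 this
  obtain ⟨n, hn⟩ := IsPGroup.iff_orderOf.1 P.isPGroup' ⟨_, hmem⟩
  rw [orderOf_mk] at hn
  have h2 : orderOf (h ^ m) ∣ 2 ^ k := hk ▸ orderOf_pow_dvd (x := h) m
  have h3 : h ^ m = 1 := orderOf_eq_one_iff.1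
    (Nat.eq_one_of_dvd_coprimes (Nat.Coprime.pow k n (by norm_num)) h2 (dvd_of_eq hn))
  have h4 : orderOf h ∣ m := orderOf_dvd_of_pow_eq_one h3
  rw [← orderOf_eq_one_iff]
  exact Nat.eq_one_of_dvd_coprimes ((Nat.coprime_two_left.2 hm2).pow_left k) (dvd_of_eq hk) h4

/-- Three-elements of an overgroup of a Sylow subgroup are conjugate into it there. -/
theorem exists_conj_mem (P : Sylow 3 G) {H : Subgroup G} (hPH : (P : Subgroup G) ≤ H) {y : G}
    (hy : y ∈ H) {k : ℕ} (hk : orderOf y = 3 ^ k) :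
    ∃ h ∈ H, h * y * h⁻¹ ∈ (P : Subgroup G) := by
  have : Fact (Nat.Prime 3) := ⟨Nat.prime_three⟩
  have hp : IsPGroup 3 (zpowers (⟨y, hy⟩ : H)) :=
    IsPGroup.of_card (n := k) (by rw [Nat.card_zpowers, orderOf_mk, hk])
  obtain ⟨Q, hQ⟩ := hp.exists_le_sylow
  obtain ⟨h, hh⟩ := MulAction.exists_smul_eq H Q (P.subtype hPH)
  refine ⟨h, h.2, ?_⟩
  have h1 : h * ⟨y, hy⟩ * h⁻¹ ∈ ((P.subtype hPH : Sylow 3 H) : Subgroup H) := by
    rw [← hh, Sylow.coe_subgroup_smul]
    exact ⟨_, hQ (mem_zpowers _), rfl⟩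
  rw [Sylow.coe_subtype, mem_subgroupOf] at h1
  exact h1

/-- Simple groups of fixity four with odd point stabilisers of order divisible by three have a
strongly 3-embedded subgroup or wreath product Sylow 3-subgroups. -/
theorem three_part {G Ω : Type*} [Group G] [Finite G] [IsSimpleGroup G]
    (hna : ¬ IsMulCommutative G) [MulAction G Ω] [FaithfulSMul G Ω] [Finite Ω]
    (htrans : IsPretransitive G Ω) (hfix : FixAtMostFour G Ω) (a : Ω)
    (hodd : Odd (Nat.card ↥(stabilizer G a))) (h3 : 3 ∣ Nat.card ↥(stabilizer G a))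
    (hn : 4 < Nat.card Ω) (P : Sylow 3 G) :
    (∃ H : Subgroup G, H ≠ ⊤ ∧ 3 ∣ Nat.card H ∧
      ∀ g : G, g ∉ H → ¬ 3 ∣ Nat.card ↥(H ⊓ H.map (MulAut.conj g).toMonoidHom)) ∨
    ∃ T : Sylow 3 (Equiv.Perm (Fin 9)),
      Nonempty ((P : Subgroup G) ≃* (T : Subgroup (Equiv.Perm (Fin 9)))) := by
  classical
  have : Fact (Nat.Prime 3) := ⟨Nat.prime_three⟩
  have hall : ∀ b : Ω, Odd (Nat.card (stabilizer G b)) := by
    intro b
    obtain ⟨g, rfl⟩ := htrans.exists_smul_eq a b
    rw [stabilizer_smul_eq_stabilizer_map_conj, card_map_of_injective (MulAut.conj g).injective]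
    exact hodd
  have hfP : FixAtMostFour (P : Subgroup G) Ω := hfix.restrict _
  have hPP : IsPGroup 3 (P : Subgroup G) := P.isPGroup'
  -- Case: an orbit with non-normal stabiliser
  by_cases hA : ∃ b : Ω, stabilizer (P : Subgroup G) b ≠ ⊥ ∧
      ¬ (stabilizer (P : Subgroup G) b).Normal
  · obtain ⟨b, hb, hbn⟩ := hA
    obtain ⟨x, hx, hxb, hC, hm⟩ := exists_small_of_not_normal hfP hPP b hb hbn
    exact Or.inr (wreath_of_point hna hfix hall P hx b hxb hC hm)
  push Not at hA
  set R : Ω → Subgroup (P : Subgroup G) := fun b => stabilizer (P : Subgroup G) b with hRdef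
  -- Case: two orbits of size three
  by_cases hB : ∃ b c : Ω, R b ≠ ⊥ ∧ R b ≠ ⊤ ∧ R c ≠ ⊥ ∧ R c ≠ ⊤ ∧ c ∉ orbit (P : Subgroup G) b
  · obtain ⟨b, c, hb, hb', hc, hc', hbc⟩ := hB
    obtain ⟨x, hx, hxb, hC, hm⟩ :=
      exists_small_of_two hfP hPP b c (hA b hb) (hA c hc) hb hc hb' hc' hbc
    exact Or.inr (wreath_of_point hna hfix hall P hx b hxb hC hm)
  push Not at hB
  set F₀ : Set Ω := fixedPoints (P : Subgroup G) Ω with hF₀
  have htop : ∀ c : Ω, c ∈ F₀ ↔ R c = ⊤ := fun c => by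
    simp only [hF₀, mem_fixedPoints, hRdef, eq_top_iff', mem_stabilizer_iff]
  have hmemR : ∀ {c : Ω} {p : G} (hp : p ∈ (P : Subgroup G)), p • c = c → p ≠ 1 → R c ≠ ⊥ := by
    intro c p hp hpc hp1 e
    have h1 : (⟨p, hp⟩ : (P : Subgroup G)) ∈ R c := hpc
    rw [e, mem_bot] at h1
    exact hp1 (congrArg Subtype.val h1)
  obtain ⟨y₀, hy₀⟩ := exists_prime_orderOf_dvd_card' (G := stabilizer G a) 3 h3
  obtain ⟨g₀, -, hg₀⟩ := exists_conj_mem P (le_top (a := (P : Subgroup G))) (mem_top (y₀ : G))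
    (k := 1) (by rw [orderOf_coe, hy₀, pow_one])
  have hP3 : 3 ∣ Nat.card (P : Subgroup G) := by
    have := (P : Subgroup G).orderOf_dvd_natCard hg₀
    rwa [show g₀ * (y₀ : G) * g₀⁻¹ = MulAut.conj g₀ (y₀ : G) from rfl,
      MulEquiv.orderOf_eq, orderOf_coe, hy₀] at this
  set p₀ := g₀ * (y₀ : G) * g₀⁻¹ with hp₀
  have hp₀1 : p₀ ≠ 1 := fun e => by
    rw [hp₀, conj_eq_one_iff] at e
    rw [Subtype.ext (a2 := (1 : stabilizer G a)) e, orderOf_one] at hy₀
    omega
  have hp₀fix : p₀ • (g₀ • a) = g₀ • a := by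
    rw [← mul_smul, hp₀, inv_mul_cancel_right, mul_smul, mem_stabilizer_iff.1 y₀.2]
  have hne_top : ∀ D : Set Ω, D.Nonempty → D.ncard ≤ 4 → stabilizer G D ≠ ⊤ := by
    rintro D ⟨d, hd⟩ hD e
    have hsub : (Set.univ : Set Ω) ⊆ D := fun c _ => by
      obtain ⟨g, rfl⟩ := htrans.exists_smul_eq d c
      have hg : g • D = D := mem_stabilizer_iff.1 (e ▸ mem_top g)
      exact hg ▸ Set.smul_mem_smul_set hd
    have := Set.ncard_le_ncard hsub (Set.toFinite _)
    rw [Set.ncard_univ] at this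
    omega
  -- fixed points of `P` are preserved by `P`
  have hPstab : ∀ D : Set Ω, (∀ p ∈ (P : Subgroup G), ∀ c ∈ D, p • c ∈ D) →
      (P : Subgroup G) ≤ stabilizer G D := by
    intro D hD p hp
    rw [mem_stabilizer_set_iff_subset_smul_set (Set.toFinite _)]
    intro c hc
    rw [Set.mem_smul_set_iff_inv_smul_mem]
    exact hD _ (inv_mem hp) c hc
  by_cases hC : ∃ b : Ω, R b ≠ ⊥ ∧ R b ≠ ⊤
  swap
  · push Not at hC
    -- every nontrivial element of `P` fixes exactly `F₀`
    left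
    have hfixP : ∀ p ∈ (P : Subgroup G), p ≠ 1 → fixedBy Ω p = F₀ := by
      intro p hp hp1
      ext c
      exact ⟨fun hc => (htop c).2 (hC c (hmemR hp hc hp1)), fun hc => hc ⟨p, hp⟩⟩
    have hF : F₀.Nonempty ∧ F₀.ncard ≤ 4 := by
      rw [← hfixP p₀ hg₀ hp₀1]
      exact ⟨⟨g₀ • a, hp₀fix⟩, (Nat.card_coe_set_eq _) ▸ hfix p₀ hp₀1⟩
    have hPH : (P : Subgroup G) ≤ stabilizer G F₀ :=
      hPstab F₀ fun p hp c hc => (hc ⟨p, hp⟩).symm ▸ hc
    refine ⟨stabilizer G F₀, hne_top _ hF.1 hF.2, hP3.trans (card_dvd_of_le hPH), ?_⟩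
    intro g hg hd
    obtain ⟨y, hy⟩ := exists_prime_orderOf_dvd_card' 3 hd
    obtain ⟨hy1, z, hz, hzy⟩ := y.2
    rw [← orderOf_coe] at hy
    have key : ∀ w ∈ stabilizer G F₀, orderOf w = 3 → fixedBy Ω w = F₀ := by
      intro w hw hwo
      obtain ⟨h, hh, hc⟩ := exists_conj_mem P hPH hw (k := 1) (by rw [hwo, pow_one])
      have h1 : fixedBy Ω (h * w * h⁻¹) = F₀ := by
        refine hfixP _ hc fun e => ?_
        rw [conj_eq_one_iff] at e
        rw [e, orderOf_one] at hwo
        omega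
      rw [fixedBy_conj] at h1
      rw [← inv_smul_smul h (fixedBy Ω w), h1]
      exact mem_stabilizer_iff.1 (inv_mem hh)
    apply hg
    rw [mem_stabilizer_iff]
    have h2 := key _ hy1 hy
    rw [← hzy] at h2
    change fixedBy Ω (g * z * g⁻¹) = F₀ at h2
    have hzo : orderOf z = 3 := by
      rw [← hzy, orderOf_injective _ (MulAut.conj g).injective] at hy
      exact hy
    rw [fixedBy_conj, key z hz hzo] at h2
    exact h2
  -- exactly one orbit of size three: impossible
  exfalso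
  obtain ⟨b, hb, hb'⟩ := hC
  set O : Set Ω := orbit (P : Subgroup G) b with hO
  have hRn : (R b).Normal := hA b hb
  have hOR : ∀ c ∈ O, R c = R b := by
    rintro c ⟨g, rfl⟩
    show stabilizer (P : Subgroup G) (g • b) = R b
    rw [stabilizer_smul_eq_stabilizer_map_conj]
    exact normal_iff_map_conj_eq.1 hRn g
  have hOmem : ∀ c : Ω, R c ≠ ⊥ → R c ≠ ⊤ → c ∈ O := fun c h1 h2 => hB b c hb hb' h1 h2
  obtain ⟨r, hr, hr1⟩ := (R b).bot_or_exists_ne_one.resolve_left hb
  have hO3 : O.ncard = 3 := by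
    have h1 : O.ncard ≤ 4 := ncard_orbit_le hfP hr1 fun c hc => (hOR c hc ▸ hr : r ∈ R c)
    rw [hO, ← index_stabilizer] at h1 ⊢
    obtain ⟨k, hk⟩ := hPP.index (R b)
    have h2 : (R b).index ≠ 1 := fun e => hb' (index_eq_one.1 e)
    change (R b).index ≤ 4 at h1
    change (R b).index = 3
    rw [hk] at h1 h2 ⊢
    rcases k with _ | _ | k
    · simp at h2
    · rfl
    · exfalso
      have : 3 ^ 2 ≤ 3 ^ (k + 1 + 1) := Nat.pow_le_pow_right (by omega) (by omega)
      omega
  have hidx : (R b).index = 3 := (index_stabilizer (P : Subgroup G) b).trans hO3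
  set D : Set Ω := O ∪ F₀ with hDdef
  have hdis : Disjoint O F₀ := Set.disjoint_left.2 fun c hc hc' =>
    hb' ((hOR c hc).symm.trans ((htop c).1 hc'))
  have hfixQ : ∀ q : (P : Subgroup G), q ∈ R b → q ≠ 1 → fixedBy Ω (q : G) = D := by
    intro q hq hq1
    ext c
    constructor
    · intro hc
      have h1 : R c ≠ ⊥ := hmemR q.2 hc fun e => hq1 (Subtype.ext e)
      by_cases h2 : R c = ⊤
      · exact Or.inr ((htop c).2 h2)
      · exact Or.inl (hOmem c h1 h2)
    · rintro (hc | hc)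
      · exact (hOR c hc ▸ hq : q ∈ R c)
      · exact hc q
  have hD4 : D.ncard ≤ 4 := by
    rw [← hfixQ r hr hr1]
    exact (Nat.card_coe_set_eq _) ▸ hfix (r : G) fun e => hr1 (Subtype.ext e)
  have hDcard : D.ncard = 3 + F₀.ncard := by
    rw [hDdef, Set.ncard_union_eq hdis (Set.toFinite _) (Set.toFinite _), hO3]
  have hfixp : ∀ p : (P : Subgroup G), p ∉ R b → fixedBy Ω (p : G) ⊆ F₀ := by
    intro p hp c hc
    by_cases h2 : R c = ⊤
    · exact (htop c).2 h2
    have h1 : R c ≠ ⊥ := hmemR p.2 hc fun e => hp ((Subtype.ext e : p = 1) ▸ one_mem _)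
    exact absurd (hOR c (hOmem c h1 h2) ▸ (hc : p ∈ R c)) hp
  -- the normaliser of `P` acts on `O` through a group of order three
  set N := normalizer ((P : Subgroup G) : Set G) with hN
  have hNO : ∀ g ∈ N, ∀ c ∈ O, g • c ∈ O := by
    intro g hg c hc
    have hg' : g⁻¹ ∈ N := inv_mem hg
    refine hOmem _ (hmemR (p := g * r * g⁻¹) ((mem_normalizer_iff.1 hg _).1 r.2) ?_ ?_) ?_
    · rw [← mul_smul, inv_mul_cancel_right, mul_smul]
      exact congrArg (g • ·) (hOR c hc ▸ hr : r ∈ R c)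
    · rw [ne_eq, conj_eq_one_iff]
      exact fun e => hr1 (Subtype.ext e)
    · intro e
      refine hb' ((hOR c hc).symm.trans (eq_top_iff.2 fun p _ => ?_))
      have h1 : (⟨g * p * g⁻¹, (mem_normalizer_iff.1 hg _).1 p.2⟩ : (P : Subgroup G)) ∈
          R (g • c) := e ▸ mem_top _
      change (g * p * g⁻¹) • g • c = g • c at h1
      rw [← mul_smul, inv_mul_cancel_right, mul_smul] at h1
      exact smul_left_cancel g h1
  let SO : SubMulAction N Ω := { carrier := O, smul_mem' := fun g c hc => hNO g g.2 c hc }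
  let ρO : N →* Equiv.Perm SO := toPermHom N SO
  have hNodd : ∀ g : N, g ^ 2 = 1 → g = 1 := by
    intro g hg
    obtain ⟨c, -, hc⟩ := exists_fixed_of_odd (h := (g : G)) (k := 1)
      (by simpa using congrArg Subtype.val hg) O (hO3 ▸ by decide) (hNO g g.2)
    exact Subtype.ext (eq_one_of_two_power hall hc (k := 1) (by simpa using congrArg Subtype.val hg))
  have hρodd : Odd (Nat.card ρO.range) := by
    by_contra hev
    rw [Nat.not_odd_iff_even, even_iff_two_dvd] at hev
    have : Fact (Nat.Prime 2) := ⟨Nat.prime_two⟩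
    obtain ⟨g, hg⟩ := exists_prime_orderOf_dvd_card' (G := N) 2 (hev.trans (card_range_dvd ρO))
    have := hNodd g (by rw [← hg, pow_orderOf_eq_one])
    rw [this, orderOf_one] at hg
    omega
  have hρcomm : ∀ g h : N, Commute (ρO g) (ρO h) := by
    have h6 : Nat.card ρO.range ∣ 6 := by
      refine ρO.range.card_subgroup_dvd_card.trans (dvd_of_eq ?_)
      have hc : Nat.card SO = 3 := (Nat.card_coe_set_eq O).trans hO3
      rw [Nat.card_perm, hc]
      rfl
    have hle := Nat.le_of_dvd (by norm_num) h6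
    have h13 : Nat.card ρO.range = 1 ∨ Nat.card ρO.range = 3 := by
      rcases hρodd with ⟨i, hi⟩
      rw [hi] at h6 hle ⊢
      have : i ≤ 2 := by omega
      interval_cases i <;> omega
    have : IsCyclic ρO.range := by
      rcases h13 with e | e
      · have : Subsingleton ρO.range := (Nat.card_eq_one_iff_unique.1 e).1
        exact isCyclic_of_subsingleton
      · exact isCyclic_of_prime_card (p := 3) e
    intro g h
    exact congrArg Subtype.val
      ((IsCyclic.isMulCommutative (α := ρO.range)).is_comm.comm ⟨_, g, rfl⟩ ⟨_, h, rfl⟩)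
  have hNN : ⁅N, N⁆ ≤ stabilizer G b := by
    rw [Subgroup.commutator_le]
    intro g hg h hh
    have h1 : ρO (⁅(⟨g, hg⟩ : N), ⟨h, hh⟩⁆) = 1 := by
      rw [map_commutatorElement, commutatorElement_eq_one_iff_commute]
      exact hρcomm _ _
    exact congrArg Subtype.val (Equiv.ext_iff.1 h1 ⟨b, mem_orbit_self b⟩)
  -- Yoshida's transfer theorem gives a wreath product quotient
  have hGG : commutator G = ⊤ := by
    rcases IsSimpleGroup.eq_bot_or_eq_top_of_normal (commutator G) inferInstance with e | e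
    · exact absurd ⟨⟨fun u v => by
        have := commutator_mem_commutator (mem_top u) (mem_top v)
        rw [← _root_.commutator_def, e, mem_bot, commutatorElement_eq_one_iff_mul_comm] at this
        exact this⟩⟩ hna
    · exact e
  obtain ⟨W, f, hf⟩ := Cfsg.Agent.S2807.result P (by
    rw [hGG, inf_top_eq]
    intro e
    refine hb' (eq_top_iff.2 fun p _ => ?_)
    have h1 : (p : G) ∈ (P : Subgroup G) ⊓ ⁅N, N⁆ := e ▸ p.2
    exact hNN h1.2)
  -- transfer to the group of order three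
  set H := stabilizer G D with hH
  have hPH : (P : Subgroup G) ≤ H := hPstab D fun p hp c hc => by
    rcases hc with hc | hc
    · exact Or.inl (mem_orbit_of_mem_orbit (⟨p, hp⟩ : (P : Subgroup G)) hc)
    · exact Or.inr ((hc ⟨p, hp⟩).symm ▸ hc)
  let SD : SubMulAction H Ω :=
    { carrier := D
      smul_mem' := fun h c hc => (mem_stabilizer_iff.1 h.2) ▸ Set.smul_mem_smul_set hc }
  obtain ⟨ι⟩ : Nonempty (SD ↪ Fin 4) := by
    have : Fintype SD := Fintype.ofFinite _
    refine Function.Embedding.nonempty_of_card_le ?_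
    rw [← Nat.card_eq_fintype_card, Fintype.card_fin]
    exact (Nat.card_coe_set_eq D).trans_le hD4
  let ρ : H →* Equiv.Perm (Fin 4) := (Equiv.Perm.viaEmbeddingHom ι).comp (toPermHom H SD)
  have hρ1 : ∀ h : H, ρ h = 1 → ∀ c ∈ D, (h : G) • c = c := by
    intro h hh c hc
    have h1 : toPermHom H SD h = 1 :=
      (injective_iff_map_eq_one _).1 (Equiv.Perm.viaEmbeddingHom_injective ι) _ hh
    exact congrArg Subtype.val (Equiv.ext_iff.1 h1 ⟨c, hc⟩)
  have hcube : ∀ p : (P : Subgroup G), p ^ 3 ∈ R b := fun p => by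
    have := (R b).pow_index_mem p
    rwa [hidx] at this
  have hρP : ∀ p : (P : Subgroup G), p ∉ R b →
      ρ ⟨p, hPH p.2⟩ ^ 3 = 1 ∧ ρ ⟨p, hPH p.2⟩ ≠ 1 := by
    intro p hp
    constructor
    · rw [← map_pow]
      have h1 : toPermHom H SD (⟨p, hPH p.2⟩ ^ 3) = 1 := by
        refine Equiv.ext fun c => Subtype.ext ?_
        show ((p : G) ^ 3) • (c : Ω) = c
        rcases c.2 with hc | hc
        · exact (hOR _ hc ▸ hcube p : p ^ 3 ∈ R (c : Ω))
        · exact hc (p ^ 3)
      show Equiv.Perm.viaEmbeddingHom ι (toPermHom H SD _) = 1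
      rw [h1, map_one]
    · intro e
      exact hp (hρ1 _ e b (Or.inl (mem_orbit_self b)))
  obtain ⟨p₁, -, hp₁⟩ := SetLike.exists_of_lt (lt_top_iff_ne_top.2 hb')
  have hsign : ∀ h : H, Equiv.Perm.sign (ρ h) = 1 := by
    intro h
    by_contra hh
    obtain ⟨⟨i, j⟩, ht1, ht2, x, y, hxy, hx, hy⟩ :=
      exists_swap (ρ h) (ρ ⟨p₁, hPH p₁.2⟩) ⟨hh, (hρP p₁ hp₁).1, (hρP p₁ hp₁).2⟩
    set w : H := h ^ (i : ℕ) * ⟨p₁, hPH p₁.2⟩ ^ (j : ℕ) with hw
    have hρw : ρ w = ρ h ^ (i : ℕ) * ρ ⟨p₁, hPH p₁.2⟩ ^ (j : ℕ) := by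
      rw [hw, map_mul, map_pow, map_pow]
    rw [← hρw] at ht1 ht2 hx hy
    obtain ⟨m, k, hm, hk⟩ := exists_odd_pow w
    have hwm : ρ (w ^ m) = ρ w := by
      obtain ⟨l, rfl⟩ := hm
      rw [map_pow, pow_succ, pow_mul, pow_two, ht2, one_pow, one_mul]
    have hrange : x ∈ Set.range ι ∨ y ∈ Set.range ι := by
      by_contra hcon
      push Not at hcon
      have hsub : Set.range ι ⊆ {x, y}ᶜ := fun z hz => by
        rintro (rfl | rfl)
        · exact hcon.1 hz
        · exact hcon.2 hz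
      have h1 := Set.ncard_le_ncard hsub (Set.toFinite _)
      rw [Set.ncard_compl, Set.ncard_pair hxy, Nat.card_eq_fintype_card, Fintype.card_fin,
        ← Set.image_univ, Set.ncard_image_of_injective _ ι.injective, Set.ncard_univ] at h1
      have h2 : Nat.card SD = D.ncard := Nat.card_coe_set_eq D
      omega
    obtain ⟨c, hc⟩ : ∃ c : SD, ρ w (ι c) = ι c := by
      rcases hrange with ⟨c, rfl⟩ | ⟨c, rfl⟩
      exacts [⟨c, hx⟩, ⟨c, hy⟩]
    have hfc : (((w ^ m : H) : G)) • (c : Ω) = c := by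
      rw [← hwm] at hc
      have h1 : ι (toPermHom H SD (w ^ m) c) = ι c :=
        ((Equiv.Perm.viaEmbedding_apply _ ι c).symm).trans hc
      exact congrArg Subtype.val (ι.injective h1)
    have hone := eq_one_of_two_power hall hfc (k := k)
      (by simpa using congrArg Subtype.val hk)
    exact ht1 (by rw [← hwm, Subtype.ext (a2 := (1 : H)) hone, map_one])
  let φ : H →* Multiplicative (ZMod 3) :=
    MonoidHom.mk' (fun h => Multiplicative.ofAdd (pairing (ρ h))) fun u v => by
      rw [map_mul, pairing_mul _ _ (hsign u) (hsign v), ofAdd_add]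
  -- all elements outside the kernel have order three
  have hord : ∀ p : (P : Subgroup G), p ∉ R b → p ^ 3 = 1 := by
    intro p hp
    by_contra hp3
    have : Fintype (Quotient (orbitRel (zpowers (p : G)) (G ⧸ H))) := Fintype.ofFinite _
    have htr : MonoidHom.transfer φ (p : G) = 1 := by
      rcases IsSimpleGroup.eq_bot_or_eq_top_of_normal (MonoidHom.transfer φ).ker inferInstance
        with e | e
      · exfalso
        exact hna ⟨⟨fun u v => (MonoidHom.ker_eq_bot_iff _).1 e (by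
          rw [map_mul, map_mul, mul_comm])⟩⟩
      · exact MonoidHom.mem_ker.1 (e ▸ mem_top _)
    rw [MonoidHom.transfer_eq_prod_quotient_orbitRel_zpowers_quot] at htr
    set one' : G ⧸ H := ((1 : G) : G ⧸ H) with hone'
    have hfixone : (p : G) • one' = one' := by
      show (((p : G) * 1 : G) : G ⧸ H) = ((1 : G) : G ⧸ H)
      rw [QuotientGroup.eq]
      simp [hPH p.2]
    set q₀ : Quotient (orbitRel (zpowers (p : G)) (G ⧸ H)) := Quotient.mk'' one' with hq₀
    have hout : q₀.out = one' := by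
      have h1 : q₀.out ∈ orbit (zpowers (p : G)) one' :=
        orbitRel_apply.1 (Quotient.mk_out one')
      obtain ⟨⟨_, i, rfl⟩, hi⟩ := h1
      rw [← hi]
      change (p : G) ^ i • one' = one'
      have : (p : G) ∈ stabilizer G one' := hfixone
      exact zpow_mem this i
    have hg₁ : q₀.out.out ∈ H := by
      have h1 : ((q₀.out.out : G) : G ⧸ H) = ((1 : G) : G ⧸ H) :=
        (QuotientGroup.out_eq' q₀.out).trans hout
      rw [QuotientGroup.eq] at h1
      simpa using h1
    rw [Finset.prod_eq_single q₀ ?_ (fun h => absurd (Finset.mem_univ _) h)] at htr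
    · set g₁ : H := ⟨q₀.out.out, hg₁⟩
      have hl : Function.minimalPeriod ((p : G) • ·) q₀.out = 1 :=
        Function.minimalPeriod_eq_one_iff_isFixedPt.2 (by rw [hout]; exact hfixone)
      have e : ∀ h, (⟨q₀.out.out⁻¹ * (p : G) ^ Function.minimalPeriod ((p : G) • ·) q₀.out *
          q₀.out.out, h⟩ : H) = g₁⁻¹ * ⟨p, hPH p.2⟩ * g₁ := fun h => Subtype.ext (by
        show q₀.out.out⁻¹ * (p : G) ^ Function.minimalPeriod ((p : G) • ·) q₀.out * q₀.out.out = _
        rw [hl, pow_one]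
        rfl)
      rw [e, map_mul, map_mul, map_inv, inv_mul_cancel_comm] at htr
      exact pairing_ne_zero _ (hρP p hp).1 (hρP p hp).2 (Multiplicative.ofAdd.injective htr)
    intro q _ hq
    set g := q.out.out with hgdef
    set l := Function.minimalPeriod ((p : G) • ·) q.out with hl
    by_contra hne
    have hmem : g⁻¹ * (p : G) ^ l * g ∈ H :=
      QuotientGroup.out_conj_pow_minimalPeriod_mem H (p : G) q.out
    have hdvd : l ∣ orderOf (p : G) := by
      rw [hl]
      refine Function.IsPeriodicPt.minimalPeriod_dvd ?_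
      show ((p : G) • ·)^[orderOf (p : G)] q.out = q.out
      rw [smul_iterate, pow_orderOf_eq_one]
      exact one_smul G q.out
    obtain ⟨e, he⟩ := IsPGroup.iff_orderOf.1 hPP p
    rw [← orderOf_coe] at he
    rw [he] at hdvd
    obtain ⟨i, hie, hli⟩ := (Nat.dvd_prime_pow Nat.prime_three).1 hdvd
    have hie' : i < e := by
      refine lt_of_le_of_ne hie fun h => hne ?_
      have h1 : (p : G) ^ l = 1 := by rw [hli, h, ← he, pow_orderOf_eq_one]
      have h2 : ∀ hh, (⟨g⁻¹ * (p : G) ^ l * g, hh⟩ : H) = 1 := fun hh =>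
        Subtype.ext (by rw [OneMemClass.coe_one]; simp [h1])
      rw [h2, map_one]
    have he2 : 2 ≤ e := by
      by_contra hlt
      refine hp3 (Subtype.ext ?_)
      show (p : G) ^ 3 = 1
      apply orderOf_dvd_iff_pow_eq_one.1
      rw [he]
      interval_cases e <;> norm_num
    set p' : (P : Subgroup G) := p ^ 3 ^ (e - 1) with hp'
    have hp'R : p' ∈ R b := by
      rw [hp', show 3 ^ (e - 1) = 3 * 3 ^ (e - 2) by
        rw [← pow_succ']; congr 1; omega, pow_mul]
      exact pow_mem (hcube p) _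
    have hp'1 : p' ≠ 1 := fun h => by
      have h1 : (p : G) ^ 3 ^ (e - 1) = 1 := congrArg Subtype.val h
      have h2 := orderOf_dvd_of_pow_eq_one h1
      rw [he, Nat.pow_dvd_pow_iff_le_right (by norm_num)] at h2
      omega
    have hp'H : g⁻¹ * (p' : G) * g ∈ H := by
      have h1 : (g⁻¹ * (p : G) ^ l * g) ^ 3 ^ (e - 1 - i) ∈ H := pow_mem hmem _
      rw [show g⁻¹ * (p : G) ^ l * g = MulAut.conj g⁻¹ ((p : G) ^ l) by simp, ← map_pow,
        ← pow_mul, hli, ← pow_add, show i + (e - 1 - i) = e - 1 by omega] at h1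
      simpa [hp'] using h1
    have hord' : orderOf (g⁻¹ * (p' : G) * g) = 3 := by
      rw [show g⁻¹ * (p' : G) * g = MulAut.conj g⁻¹ (p' : G) by simp,
        MulEquiv.orderOf_eq]
      refine orderOf_eq_prime ?_ fun h => hp'1 (Subtype.ext h)
      rw [hp', SubmonoidClass.coe_pow, ← pow_mul, ← pow_succ,
        show e - 1 + 1 = e by omega, ← he, pow_orderOf_eq_one]
    have hfy : fixedBy Ω (g⁻¹ * (p' : G) * g) = g⁻¹ • D := by
      rw [← hfixQ p' hp'R hp'1]
      simpa using fixedBy_conj (Ω := Ω) (p' : G) g⁻¹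
    obtain ⟨h, hh, hhc⟩ := exists_conj_mem P hPH hp'H (k := 1) (by rw [hord', pow_one])
    have hfh : fixedBy Ω (h * (g⁻¹ * (p' : G) * g) * h⁻¹) = h • g⁻¹ • D := by
      rw [fixedBy_conj, hfy]
    by_cases hin : (⟨_, hhc⟩ : (P : Subgroup G)) ∈ R b
    · have h1 := hfixQ _ hin (fun e' => by
        have e'' := congrArg Subtype.val e'
        rw [OneMemClass.coe_one, conj_eq_one_iff] at e''
        rw [e'', orderOf_one] at hord'
        omega)
      rw [hfh] at h1
      have h2 : g⁻¹ • D = D := by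
        rw [← inv_smul_smul h (g⁻¹ • D), h1]
        exact mem_stabilizer_iff.1 (inv_mem hh)
      have hgH : g ∈ H := by
        have := inv_mem (mem_stabilizer_iff.2 h2 : g⁻¹ ∈ H)
        rwa [inv_inv] at this
      refine hq ?_
      have h3 : q.out = one' := by
        rw [hone', ← QuotientGroup.out_eq' q.out, QuotientGroup.eq]
        simpa [hgdef] using hgH
      rw [hq₀, ← h3]
      exact (Quotient.out_eq' q).symm
    · have h1 := Set.ncard_le_ncard (hfixp _ hin) (Set.toFinite _)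
      rw [hfh, Set.ncard_smul_set, Set.ncard_smul_set, hDcard] at h1
      omega
  -- contradiction in the wreath product
  have hW : Subgroup.closure {w : ↥(W : Subgroup (Equiv.Perm (Fin (3 ^ 2)))) | w ^ 3 ≠ 1} = ⊤ :=
    closure_order_nine W
  by_cases hker : f.ker ≤ R b
  · have hlt : (R b).map f ≠ ⊤ := by
      intro e
      refine hb' (eq_top_iff.2 fun p _ => ?_)
      obtain ⟨u, hu, hfu⟩ : f p ∈ (R b).map f := e ▸ mem_top _
      have h1 : u⁻¹ * p ∈ R b := hker (MonoidHom.mem_ker.2 (by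
        rw [map_mul, map_inv, hfu, inv_mul_cancel]))
      simpa using mul_mem hu h1
    apply hlt
    rw [eq_top_iff, ← hW, closure_le]
    intro w hw
    obtain ⟨p, rfl⟩ := hf w
    refine ⟨p, ?_, rfl⟩
    by_contra hp
    exact hw (by rw [← map_pow, hord p hp, map_one])
  · obtain ⟨u, hu, huR⟩ := SetLike.not_le_iff_exists.1 hker
    have hexp : ∀ w : ↥(W : Subgroup (Equiv.Perm (Fin (3 ^ 2)))), w ^ 3 = 1 := by
      intro w
      obtain ⟨p, rfl⟩ := hf w
      by_cases hp : p ∈ R b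
      · have h1 : p * u ∉ R b := fun h => huR (by simpa using mul_mem (inv_mem hp) h)
        have h2 := congrArg f (hord _ h1)
        rw [map_pow, map_mul, MonoidHom.mem_ker.1 hu, mul_one, map_one] at h2
        exact h2
      · rw [← map_pow, hord p hp, map_one]
    have hempty : {w : ↥(W : Subgroup (Equiv.Perm (Fin (3 ^ 2)))) | w ^ 3 ≠ 1} = ∅ :=
      Set.eq_empty_iff_forall_notMem.2 fun w hw => hw (hexp w)
    rw [hempty, Subgroup.closure_empty] at hW
    have hWne : (W : Subgroup (Equiv.Perm (Fin (3 ^ 2)))) ≠ ⊥ :=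
      W.ne_bot_of_dvd_card (by rw [Nat.card_perm, Nat.card_eq_fintype_card, Fintype.card_fin]; decide)
    obtain ⟨w, hw, hw1⟩ := (bot_or_exists_ne_one (W : Subgroup (Equiv.Perm (Fin (3 ^ 2))))).resolve_left hWne
    have h1 : (⟨w, hw⟩ : ↥(W : Subgroup (Equiv.Perm (Fin (3 ^ 2))))) ∈
        (⊥ : Subgroup ↥(W : Subgroup (Equiv.Perm (Fin (3 ^ 2))))) := hW.symm ▸ mem_top _
    exact hw1 (congrArg Subtype.val (mem_bot.1 h1))

end Cfsg.Agent.Fix4
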